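import Cfsg.Agent.H29.ESys
import Cfsg.Agent.H29.MetaW

set_option autoImplicit false

/-!
# The Klein-four fusion system (helper5, piece S5287-K for helper29)
-/

namespace Cfsg.Agent.H5.KleinSys

open Cfsg Cfsg.FusionSystem Cfsg.Agent.H86 Cfsg.Agent.H29.ES

variable {Ω : Type*} [Group Ω]

/-- the data of the Klein-four configuration -/
structure KD (S : Subgroup Ω) (z y h₀ : Ω) : Prop where
  hz : z ∈ S
  hy : y ∈ S
  hh₀ : h₀ ∈ S
  hzc : ∀ s ∈ S, s * z = z * s
  hz2 : z * z = 1
  hy2 : y * y = 1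
  hz1 : z ≠ 1
  hy1 : y ≠ 1
  hzy : y ≠ z
  hC : ∀ s ∈ S, s * y = y * s → s = 1 ∨ s = z ∨ s = y ∨ s = z * y
  hh : h₀ * y * h₀⁻¹ = z * y

/-- the four-group `C_S(y)` -/
def kV (S : Subgroup Ω) (y : Ω) : Subgroup Ω := S ⊓ Subgroup.centralizer {y}

/-- the subgroup `{1, z}` -/
def kZ (z : Ω) (hz2 : z * z = 1) : Subgroup Ω where
  carrier := {x | x = 1 ∨ x = z}
  mul_mem' := by
    rintro a b (rfl | rfl) (rfl | rfl)
    · left; simp
    · right; simp
    · right; simp
    · left; exact hz2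
  one_mem' := Or.inl rfl
  inv_mem' := by
    rintro a (rfl | rfl)
    · left; simp
    · right; exact inv_eq_of_mul_eq_one_right hz2

theorem mem_kZ {z : Ω} {hz2 : z * z = 1} {x : Ω} : x ∈ kZ z hz2 ↔ x = 1 ∨ x = z := Iff.rfl

/-- the swap of `z` and `y` -/
noncomputable def sw (z y : Ω) : Ω → Ω := fun x =>
  by classical exact if x = z then y else if x = y then z else x

namespace KD

variable {S : Subgroup Ω} {z y h₀ : Ω} (d : KD S z y h₀)
include d

theorem yz : y * z = z * y := d.hzc y d.hy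

theorem zz' (x : Ω) : z * (z * x) = x := by rw [← mul_assoc, d.hz2, one_mul]

theorem yy' (x : Ω) : y * (y * x) = x := by rw [← mul_assoc, d.hy2, one_mul]

theorem yz' (x : Ω) : y * (z * x) = z * (y * x) := by rw [← mul_assoc, d.yz, mul_assoc]

theorem zy_ne_one : z * y ≠ 1 := by
  intro h
  apply d.hzy
  calc y = z * (z * y) := (d.zz' y).symm
    _ = z := by rw [h, mul_one]

theorem zy_ne_z : z * y ≠ z := fun h => d.hy1 (by simpa using h)

theorem zy_ne_y : z * y ≠ y := fun h => d.hz1 (by simpa using h)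

theorem conj_z {s : Ω} (hs : s ∈ S) : s * z * s⁻¹ = z := by
  rw [d.hzc s hs, mul_assoc, mul_inv_cancel, mul_one]

theorem conj_z' {s : Ω} (hs : s ∈ S) : s⁻¹ * z * s = z := by
  have := d.conj_z (S.inv_mem hs)
  simpa using this

theorem zS : z ∈ S := d.hz

theorem mem_V {x : Ω} : x ∈ kV S y ↔ x = 1 ∨ x = z ∨ x = y ∨ x = z * y := by
  constructor
  · rintro ⟨hxS, hxC⟩
    exact d.hC x hxS (Subgroup.mem_centralizer_singleton_iff.1 hxC)
  · rintro (rfl | rfl | rfl | rfl)
    · exact Subgroup.one_mem _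
    · exact ⟨d.hz, Subgroup.mem_centralizer_singleton_iff.2 d.yz.symm⟩
    · exact ⟨d.hy, Subgroup.mem_centralizer_singleton_iff.2 rfl⟩
    · refine ⟨S.mul_mem d.hz d.hy, Subgroup.mem_centralizer_singleton_iff.2 ?_⟩
      rw [d.yz' y, mul_assoc]

theorem V_le : kV S y ≤ S := inf_le_left

theorem one_V : (1 : Ω) ∈ kV S y := Subgroup.one_mem _
theorem z_V : z ∈ kV S y := d.mem_V.2 (Or.inr (Or.inl rfl))
theorem y_V : y ∈ kV S y := d.mem_V.2 (Or.inr (Or.inr (Or.inl rfl)))
theorem zy_V : z * y ∈ kV S y := d.mem_V.2 (Or.inr (Or.inr (Or.inr rfl)))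

theorem Z_le_V : kZ z d.hz2 ≤ kV S y := by
  rintro x (rfl | rfl)
  · exact d.one_V
  · exact d.z_V

theorem Z_le : kZ z d.hz2 ≤ S := d.Z_le_V.trans d.V_le

/-- a function on the four-group which is "multiplicative on generators" is multiplicative -/
theorem klein_hom (f : Ω → Ω) (h1 : f 1 = 1) (hzy : f (z * y) = f z * f y)
    (ha : f z * f z = 1) (hb : f y * f y = 1) (hab : f y * f z = f z * f y) :
    ∀ x ∈ kV S y, ∀ x' ∈ kV S y, f (x * x') = f x * f x' := by
  have ha' : ∀ x, f z * (f z * x) = x := fun x => by rw [← mul_assoc, ha, one_mul]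
  have hb' : ∀ x, f y * (f y * x) = x := fun x => by rw [← mul_assoc, hb, one_mul]
  have hab' : ∀ x, f y * (f z * x) = f z * (f y * x) := fun x => by
    rw [← mul_assoc, hab, mul_assoc]
  intro x hx x' hx'
  rcases d.mem_V.1 hx with h | h | h | h <;> rcases d.mem_V.1 hx' with h' | h' | h' | h' <;>
    rw [h, h'] <;>
    simp only [mul_assoc, one_mul, mul_one, d.hz2, d.hy2, d.zz', d.yy', d.yz, d.yz', h1, hzy,
      ha, hb, hab, ha', hb', hab']

theorem sw_one : sw z y 1 = 1 := by
  classical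
  unfold sw
  rw [if_neg (Ne.symm d.hz1), if_neg (Ne.symm d.hy1)]

theorem sw_z : sw z y z = y := by
  classical
  unfold sw
  rw [if_pos rfl]

theorem sw_y : sw z y y = z := by
  classical
  unfold sw
  rw [if_neg d.hzy, if_pos rfl]

theorem sw_zy : sw z y (z * y) = z * y := by
  classical
  unfold sw
  rw [if_neg d.zy_ne_z, if_neg d.zy_ne_y]

theorem sw_mem {x : Ω} (hx : x ∈ kV S y) : sw z y x ∈ kV S y := by
  rcases d.mem_V.1 hx with h | h | h | h <;> rw [h]
  · rw [d.sw_one]; exact d.one_V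
  · rw [d.sw_z]; exact d.y_V
  · rw [d.sw_y]; exact d.z_V
  · rw [d.sw_zy]; exact d.zy_V

theorem sw_sw {x : Ω} (hx : x ∈ kV S y) : sw z y (sw z y x) = x := by
  rcases d.mem_V.1 hx with h | h | h | h <;> rw [h]
  · rw [d.sw_one, d.sw_one]
  · rw [d.sw_z, d.sw_y]
  · rw [d.sw_y, d.sw_z]
  · rw [d.sw_zy, d.sw_zy]

theorem sw_injOn : Set.InjOn (sw z y) (kV S y : Set Ω) := by
  intro a ha b hb hab
  rw [← d.sw_sw ha, ← d.sw_sw hb, hab]

theorem sw_mul : ∀ x ∈ kV S y, ∀ x' ∈ kV S y, sw z y (x * x') = sw z y x * sw z y x' := by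
  apply d.klein_hom
  · exact d.sw_one
  · rw [d.sw_zy, d.sw_z, d.sw_y, d.yz]
  · rw [d.sw_z, d.hy2]
  · rw [d.sw_y, d.hz2]
  · rw [d.sw_z, d.sw_y, d.yz]

/-- the swap is a map of the system on `V` -/
theorem mor_sw : Mor (eSys S (kV S y) d.V_le) (kV S y) (sw z y) := by
  rw [mor_eSys_iff]
  refine ⟨d.V_le, Or.inr ⟨d.sw_injOn, d.sw_mul, 1, S.one_mem, 1, S.one_mem, fun x hx => ?_,
    fun x hx => ?_⟩⟩
  · simpa using hx
  · simpa using d.sw_mem hx

theorem h₀_not_mem : h₀ ∉ kV S y := by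
  rintro ⟨-, hC⟩
  have h1 : h₀ * y = y * h₀ := Subgroup.mem_centralizer_singleton_iff.1 hC
  have h2 := d.hh
  rw [h1, mul_assoc, mul_inv_cancel, mul_one] at h2
  exact d.zy_ne_y h2.symm

theorem not_inE : ¬ InE S (kV S y) S := by
  rintro ⟨s, hs, h⟩
  have h1 := h (s * h₀ * s⁻¹) (S.mul_mem (S.mul_mem hs d.hh₀) (S.inv_mem hs))
  have h2 : s⁻¹ * (s * h₀ * s⁻¹) * s = h₀ := by group
  rw [h2] at h1
  exact d.h₀_not_mem h1

theorem not_normal : ¬ (eSys S (kV S y) d.V_le).IsNormal S := by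
  refine eSys_not_normal d.not_inE (sw z y) d.mor_sw ?_
  rintro ⟨g, hg, h⟩
  have h1 := h z d.z_V
  rw [d.sw_z, d.conj_z hg] at h1
  exact d.hzy h1

/-! ### The subgroup `Z = {1, z}` -/

theorem Z_fullyAutomized (hS : IsPGroup 2 S) :
    (eSys S (kV S y) d.V_le).IsFullyAutomized 2 (kZ z d.hz2) := by
  refine fullyAutomized_of_le hS d.Z_le (fun α _ => ?_)
  rw [mem_autInducedBy_iff]
  refine ⟨1, S.one_mem, fun x => ?_⟩
  obtain ⟨x, hx⟩ := x
  rcases hx with rfl | rfl
  · have h1 : (⟨1, Or.inl rfl⟩ : kZ z d.hz2) = 1 := rfl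
    rw [h1, map_one]
    simp
  · have h2 : ((α ⟨x, Or.inr rfl⟩ : kZ x d.hz2) : Ω) = 1 ∨ ((α ⟨x, Or.inr rfl⟩ : kZ x d.hz2) : Ω) = x :=
      (α ⟨x, Or.inr rfl⟩).2
    rcases h2 with h2 | h2
    · exfalso
      have h3 : α ⟨x, Or.inr rfl⟩ = 1 := Subtype.ext h2
      rw [← map_one α] at h3
      have h4 := congrArg Subtype.val (α.injective h3)
      exact d.hz1 h4
    · rw [h2]; simp

theorem Z_receptive : (eSys S (kV S y) d.V_le).IsReceptive (kZ z d.hz2) := by
  refine receptive_of d.Z_le (fun P f hf himg N hN => ?_)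
  have hNS : N ≤ S := fun g hg => ((hN g).1 hg).1
  obtain ⟨hPS, hcase⟩ := mor_eSys_iff.1 hf
  rcases hcase with ⟨g, hg, h⟩ | ⟨-, -, s, hs, -, -, h1, -⟩
  · exact ⟨fun x => g * x * g⁻¹, Mor.conj _ hNS hg, fun x hx => (h x hx).symm⟩
  · -- the generator of P
    have hzimg : z ∈ imgS P f := by rw [himg]; exact Or.inr rfl
    obtain ⟨v, hvP, hfv⟩ := hf.mem_imgS.1 hzimg
    have hv1 : v ≠ 1 := by
      rintro rfl
      rw [hf.map_one] at hfv
      exact d.hz1 hfv.symm
    have hall : ∀ x ∈ P, x = 1 ∨ x = v := by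
      intro x hx
      have h2 : f x ∈ kZ z d.hz2 := by rw [← himg]; exact hf.mem_imgS_of_mem hx
      rcases h2 with h2 | h2
      · left
        rw [← hf.map_one] at h2
        exact hf.injOn hx P.one_mem h2
      · right
        rw [← hfv] at h2
        exact hf.injOn hx hvP h2
    -- the main construction for v = w y w⁻¹
    have main : ∀ w ∈ S, w⁻¹ * v * w = y →
        ∃ f', Mor (eSys S (kV S y) d.V_le) N f' ∧ ∀ x ∈ P, f' x = f x := by
      intro w hw hwv
      have hclaim : ∀ g ∈ N, w⁻¹ * g * w ∈ kV S y := by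
        intro g hg
        obtain ⟨hgS, hgN, -⟩ := (hN g).1 hg
        have h3 : g * v * g⁻¹ ∈ P := conj_mem_of_mem_normalizer hgN hvP
        have h4 : g * v * g⁻¹ = v := by
          rcases hall _ h3 with h4 | h4
          · exfalso
            apply hv1
            have : v = g⁻¹ * (g * v * g⁻¹) * g := by group
            rw [this, h4]; group
          · exact h4
        refine ⟨S.mul_mem (S.mul_mem (S.inv_mem hw) hgS) hw,
          Subgroup.mem_centralizer_singleton_iff.2 ?_⟩
        rw [← hwv]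
        have h5 : g * v = v * g := by
          calc g * v = (g * v * g⁻¹) * g := by group
            _ = v * g := by rw [h4]
        calc w⁻¹ * g * w * (w⁻¹ * v * w) = w⁻¹ * (g * v) * w := by group
          _ = w⁻¹ * (v * g) * w := by rw [h5]
          _ = w⁻¹ * v * w * (w⁻¹ * g * w) := by group
      refine ⟨fun x => sw z y (w⁻¹ * x * w), ?_, ?_⟩
      · rw [mor_eSys_iff]
        refine ⟨hNS, Or.inr ⟨?_, ?_, w, hw, 1, S.one_mem, hclaim, fun x hx => ?_⟩⟩
        · intro a ha b hb hab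
          have h3 := d.sw_injOn (hclaim a ha) (hclaim b hb) hab
          have h4 : a = w * (w⁻¹ * a * w) * w⁻¹ := by group
          rw [h4, h3]; group
        · intro a ha b hb
          show sw z y (w⁻¹ * (a * b) * w) = _
          have h3 : w⁻¹ * (a * b) * w = (w⁻¹ * a * w) * (w⁻¹ * b * w) := by group
          rw [h3]
          exact d.sw_mul _ (hclaim a ha) _ (hclaim b hb)
        · simpa using d.sw_mem (hclaim x hx)
      · intro x hx
        rcases hall x hx with rfl | rfl
        · show sw z y (w⁻¹ * 1 * w) = f 1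
          rw [hf.map_one]
          have : w⁻¹ * 1 * w = 1 := by group
          rw [this, d.sw_one]
        · show sw z y (w⁻¹ * x * w) = f x
          rw [hwv, d.sw_y, hfv]
    rcases d.mem_V.1 (h1 v hvP) with h2 | h2 | h2 | h2
    · exfalso
      apply hv1
      have : v = s * (s⁻¹ * v * s) * s⁻¹ := by group
      rw [this, h2]; group
    · -- v = z : f is the identity
      have hvz : v = z := by
        have : v = s * (s⁻¹ * v * s) * s⁻¹ := by group
        rw [this, h2, d.conj_z hs]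
      refine ⟨fun x => x, Mor.id _ hNS, fun x hx => ?_⟩
      rcases hall x hx with rfl | rfl
      · exact hf.map_one.symm
      · show x = f x
        rw [hfv, hvz]
    · exact main s hs h2
    · refine main (s * h₀) (S.mul_mem hs d.hh₀) ?_
      have h3 : (s * h₀)⁻¹ * v * (s * h₀) = h₀⁻¹ * (s⁻¹ * v * s) * h₀ := by group
      rw [h3, h2]
      have h4 : z * y = h₀ * y * h₀⁻¹ := d.hh.symm
      rw [h4]; group

/-! ### The four-group `V` -/

theorem V_comm : ∀ a ∈ kV S y, ∀ b ∈ kV S y, a * b = b * a := by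
  intro a ha b hb
  rcases d.mem_V.1 ha with h | h | h | h <;> rcases d.mem_V.1 hb with h' | h' | h' | h' <;>
    rw [h, h'] <;>
    simp only [mul_assoc, one_mul, mul_one, d.hz2, d.hy2, d.zz', d.yy', d.yz, d.yz']

theorem conj_h₀_zy : h₀ * (z * y) * h₀⁻¹ = y := by
  calc h₀ * (z * y) * h₀⁻¹ = (h₀ * z * h₀⁻¹) * (h₀ * y * h₀⁻¹) := by group
    _ = z * (z * y) := by rw [d.conj_z d.hh₀, d.hh]
    _ = y := d.zz' y

theorem conj_h₀'_y : h₀⁻¹ * y * h₀ = z * y := by
  have h1 : y = h₀ * (z * y) * h₀⁻¹ := d.conj_h₀_zy.symm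
  have h2 : h₀⁻¹ * y * h₀ = h₀⁻¹ * (h₀ * (z * y) * h₀⁻¹) * h₀ := by rw [← h1]
  rw [h2]; group

theorem conj_h₀'_zy : h₀⁻¹ * (z * y) * h₀ = y := by
  have h2 : h₀⁻¹ * (z * y) * h₀ = h₀⁻¹ * (h₀ * y * h₀⁻¹) * h₀ := by rw [d.hh]
  rw [h2]; group

theorem h₀_normalizer : h₀ ∈ Subgroup.normalizer (kV S y : Set Ω) := by
  apply mem_normalizer_of_forall_conj_mem
  · intro x hx
    rcases d.mem_V.1 hx with h | h | h | h <;> rw [h]
    · simpa using d.one_V
    · rw [d.conj_z d.hh₀]; exact d.z_V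
    · rw [d.hh]; exact d.zy_V
    · rw [d.conj_h₀_zy]; exact d.y_V
  · intro x hx
    rcases d.mem_V.1 hx with h | h | h | h <;> rw [h]
    · simpa using d.one_V
    · rw [d.conj_z' d.hh₀]; exact d.z_V
    · rw [d.conj_h₀'_y]; exact d.zy_V
    · rw [d.conj_h₀'_zy]; exact d.y_V

/-- an automorphism of `V` fixing `z` is induced by `1` or `h₀` -/
theorem aut_of_fix_z (β : MulAut (kV S y)) (hβ : autFun (kV S y) β z = z) :
    β ∈ autInducedBy S (kV S y) := by
  have hby : autFun (kV S y) β y ∈ kV S y := autFun_mem β d.y_V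
  have hinj := autFun_injOn β
  have hb1 : autFun (kV S y) β 1 = 1 := by
    rw [autFun_of_mem β d.one_V]
    have : (⟨1, d.one_V⟩ : kV S y) = 1 := rfl
    rw [this, map_one]; rfl
  have hbzy : autFun (kV S y) β (z * y) = autFun (kV S y) β z * autFun (kV S y) β y :=
    autFun_map_mul β d.z_V d.y_V
  rw [mem_autInducedBy_iff]
  rcases d.mem_V.1 hby with h | h | h | h
  · exfalso; exact d.hy1 (hinj d.y_V d.one_V (h.trans hb1.symm))
  · exfalso; exact d.hzy (hinj d.y_V d.z_V (h.trans hβ.symm))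
  · refine ⟨1, S.one_mem, fun x => ?_⟩
    rw [← autFun_apply β x]
    have hx := x.2
    generalize (x : Ω) = t at hx ⊢
    rcases d.mem_V.1 hx with h2 | h2 | h2 | h2 <;> rw [h2]
    · rw [hb1]; group
    · rw [hβ]; group
    · rw [h]; group
    · rw [hbzy, hβ, h]; group
  · refine ⟨h₀, d.hh₀, fun x => ?_⟩
    rw [← autFun_apply β x]
    have hx := x.2
    generalize (x : Ω) = t at hx ⊢
    rcases d.mem_V.1 hx with h2 | h2 | h2 | h2 <;> rw [h2]
    · rw [hb1]; group
    · rw [hβ, d.conj_z d.hh₀]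
    · rw [h, d.hh]
    · rw [hbzy, hβ, h, d.zz', d.conj_h₀_zy]

theorem V_fullyAutomized [Finite S] (hS : IsPGroup 2 S) :
    (eSys S (kV S y) d.V_le).IsFullyAutomized 2 (kV S y) := by
  classical
  haveI : Fact (Nat.Prime 2) := ⟨Nat.prime_two⟩
  haveI : Finite (kV S y) := finite_of_le d.V_le
  refine ⟨d.V_le, ?_⟩
  have hB : IsPGroup 2 ((autInducedBy S (kV S y)).subgroupOf
      ((eSys S (kV S y) d.V_le).autGroup (kV S y))) :=
    (autInducedBy_isPGroup hS (kV S y)).comap_subtype
  obtain ⟨R, hBR⟩ := hB.exists_le_sylow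
  refine ⟨R, le_antisymm ?_ hBR⟩
  intro β hβ
  rw [Subgroup.mem_subgroupOf]
  have hpow : ∀ γ : (eSys S (kV S y) d.V_le).autGroup (kV S y), γ ∈ R →
      ∃ k : ℕ, (γ : MulAut (kV S y)) ^ 2 ^ k = 1 := by
    intro γ hγ
    obtain ⟨k, hk⟩ := R.isPGroup' ⟨γ, hγ⟩
    refine ⟨k, ?_⟩
    have h1 := congrArg (fun t : R =>
      (((t : (eSys S (kV S y) d.V_le).autGroup (kV S y))) : MulAut (kV S y))) hk
    simpa using h1
  have hcomm : ∀ a b : kV S y, a * b = b * a := fun a b =>
    Subtype.ext (d.V_comm a a.2 b b.2)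
  have hVp : IsPGroup 2 (kV S y) := hS.to_le d.V_le
  haveI : Nontrivial (kV S y) :=
    ⟨⟨⟨z, d.z_V⟩, 1, fun h => d.hz1 (congrArg Subtype.val h)⟩⟩
  apply d.aut_of_fix_z
  by_contra hz'
  obtain ⟨k, hk⟩ := hpow β hβ
  obtain ⟨v, hv1, hv⟩ := Cfsg.Agent.H29.MW.exists_fixed' hcomm hVp (β : MulAut (kV S y)) hk
  have hvf : autFun (kV S y) (β : MulAut (kV S y)) v = v := by rw [autFun_apply, hv]
  have hv1' : (v : Ω) ≠ 1 := fun h => hv1 (Subtype.ext h)
  obtain ⟨a, ha⟩ := exists_conjAut d.h₀_normalizer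
  have haI : a ∈ autInducedBy S (kV S y) := (mem_autInducedBy_iff S (kV S y) a).2 ⟨h₀, d.hh₀, ha⟩
  have haA : a ∈ (eSys S (kV S y) d.V_le).autGroup (kV S y) :=
    autInducedBy_le_autGroup _ d.V_le haI
  have haR : (⟨a, haA⟩ : (eSys S (kV S y) d.V_le).autGroup (kV S y)) ∈ R :=
    hBR (Subgroup.mem_subgroupOf.2 haI)
  obtain ⟨k', hk'⟩ := hpow _ (R.mul_mem haR hβ)
  have hk'' : (a * (β : MulAut (kV S y))) ^ 2 ^ k' = 1 := hk'
  obtain ⟨v', hv'1, hv'⟩ := Cfsg.Agent.H29.MW.exists_fixed' hcomm hVp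
    (a * (β : MulAut (kV S y))) hk''
  have hv'f : autFun (kV S y) a (autFun (kV S y) (β : MulAut (kV S y)) v') = v' := by
    rw [← autFun_mul a (β : MulAut (kV S y)) v'.2, autFun_apply, hv']
  have hv'1' : (v' : Ω) ≠ 1 := fun h => hv'1 (Subtype.ext h)
  -- the values of `a`
  have haf : ∀ x ∈ kV S y, autFun (kV S y) a x = h₀ * x * h₀⁻¹ := fun x hx => by
    rw [autFun_of_mem a hx, ha]
  -- facts on `b`
  obtain ⟨b, hb⟩ : ∃ b, b = autFun (kV S y) (β : MulAut (kV S y)) := ⟨_, rfl⟩
  rw [← hb] at hz' hvf hv'f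
  have hbV : ∀ x ∈ kV S y, b x ∈ kV S y := fun x hx => by rw [hb]; exact autFun_mem _ hx
  have hbinj : Set.InjOn b (kV S y : Set Ω) := by rw [hb]; exact autFun_injOn _
  have hb1 : b 1 = 1 := by
    rw [hb, autFun_of_mem _ d.one_V]
    have : (⟨1, d.one_V⟩ : kV S y) = 1 := rfl
    rw [this, map_one]; rfl
  have hbzy : b (z * y) = b z * b y := by rw [hb]; exact autFun_map_mul _ d.z_V d.y_V
  have hv'V := v'.2
  have hvV := v.2
  generalize (v : Ω) = t at hvf hv1' hvV
  generalize (v' : Ω) = t' at hv'f hv'1' hv'V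
  rcases d.mem_V.1 hvV with h | h | h | h
  · exact hv1' h
  · rw [h] at hvf; exact hz' hvf
  · -- b y = y
    rw [h] at hvf
    have hbz : b z = z * y := by
      rcases d.mem_V.1 (hbV z d.z_V) with h2 | h2 | h2 | h2
      · exfalso; exact d.hz1 (hbinj d.z_V d.one_V (h2.trans hb1.symm))
      · exact absurd h2 hz'
      · exfalso; exact d.hzy (hbinj d.z_V d.y_V (h2.trans hvf.symm)).symm
      · exact h2
    have hbzy' : b (z * y) = z := by
      rw [hbzy, hbz, hvf, mul_assoc, d.hy2, mul_one]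
    rcases d.mem_V.1 hv'V with h3 | h3 | h3 | h3
    · exact hv'1' h3
    · rw [h3, hbz, haf _ d.zy_V, d.conj_h₀_zy] at hv'f
      exact d.hzy hv'f
    · rw [h3, hvf, haf _ d.y_V, d.hh] at hv'f
      exact d.zy_ne_y hv'f
    · rw [h3, hbzy', haf _ d.z_V, d.conj_z d.hh₀] at hv'f
      exact d.zy_ne_z hv'f.symm
  · -- b (z y) = z y
    rw [h] at hvf
    have hbz : b z = y := by
      rcases d.mem_V.1 (hbV z d.z_V) with h2 | h2 | h2 | h2
      · exfalso; exact d.hz1 (hbinj d.z_V d.one_V (h2.trans hb1.symm))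
      · exact absurd h2 hz'
      · exact h2
      · exfalso
        have h4 := hbinj d.z_V d.zy_V (h2.trans hvf.symm)
        exact d.zy_ne_z h4.symm
    have hby : b y = z := by
      have h4 : z * y = y * b y := by
        calc z * y = b (z * y) := hvf.symm
          _ = b z * b y := hbzy
          _ = y * b y := by rw [hbz]
      calc b y = y * (y * b y) := (d.yy' _).symm
        _ = y * (z * y) := by rw [← h4]
        _ = z := by rw [d.yz' y, d.hy2, mul_one]
    rcases d.mem_V.1 hv'V with h3 | h3 | h3 | h3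
    · exact hv'1' h3
    · rw [h3, hbz, haf _ d.y_V, d.hh] at hv'f
      exact d.zy_ne_z hv'f
    · rw [h3, hby, haf _ d.z_V, d.conj_z d.hh₀] at hv'f
      exact d.hzy hv'f.symm
    · rw [h3, hvf, haf _ d.zy_V, d.conj_h₀_zy] at hv'f
      exact d.zy_ne_y hv'f.symm

theorem V_receptive [Finite S] : (eSys S (kV S y) d.V_le).IsReceptive (kV S y) := by
  classical
  refine receptive_of d.V_le (fun P f hf himg N hN => ?_)
  have hNS : N ≤ S := fun g hg => ((hN g).1 hg).1
  by_cases hex : ∃ w ∈ S, ∀ x ∈ P, f x = w * x * w⁻¹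
  · obtain ⟨w, hw, hfw⟩ := hex
    exact ⟨fun x => w * x * w⁻¹, Mor.conj _ hNS hw, fun x hx => (hfw x hx).symm⟩
  · have hNP : N ≤ P := by
      intro g hg
      by_contra hgP
      apply hex
      obtain ⟨hgS, hgN, h, hhS, hgh⟩ := (hN g).1 hg
      obtain ⟨hPS, hcase⟩ := mor_eSys_iff.1 hf
      rcases hcase with ⟨w, hw, hfw⟩ | ⟨-, -, s, hs, -, -, h1, -⟩
      · exact ⟨w, hw, hfw⟩
      · haveI : Finite (kV S y) := finite_of_le d.V_le
        have hk : ∀ v ∈ kV S y, invOn P f v ∈ P := fun v hv =>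
          hf.invOn_mem (by rw [himg]; exact hv)
        have hfk : ∀ v ∈ kV S y, f (invOn P f v) = v := fun v hv =>
          hf.apply_invOn (by rw [himg]; exact hv)
        let θ : kV S y → kV S y := fun v => ⟨s⁻¹ * invOn P f v * s, h1 _ (hk v v.2)⟩
        have hθinj : Function.Injective θ := by
          intro a b hab
          have h2 : s⁻¹ * invOn P f a * s = s⁻¹ * invOn P f b * s := congrArg Subtype.val hab
          have h3 : invOn P f a = invOn P f b := mul_left_cancel (mul_right_cancel h2)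
          apply Subtype.ext
          rw [← hfk a a.2, ← hfk b b.2, h3]
        have hθsurj := Finite.surjective_of_injective hθinj
        have hsV : ∀ v ∈ kV S y, s * v * s⁻¹ ∈ P := by
          intro v hv
          obtain ⟨a, ha⟩ := hθsurj ⟨v, hv⟩
          have h2 : s⁻¹ * invOn P f a * s = v := congrArg Subtype.val ha
          have h3 : s * v * s⁻¹ = invOn P f a := by rw [← h2]; group
          rw [h3]; exact hk a a.2
        obtain ⟨f₀, hf₀⟩ : ∃ f₀ : Ω → Ω, f₀ = fun x => f (s * x * s⁻¹) := ⟨_, rfl⟩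
        have hf₀a : ∀ x, f₀ x = f (s * x * s⁻¹) := fun x => by rw [hf₀]
        have hf₀mul : ∀ a ∈ kV S y, ∀ b ∈ kV S y, f₀ (a * b) = f₀ a * f₀ b := by
          intro a ha b hb
          rw [hf₀a, hf₀a, hf₀a, ← hf.map_mul (hsV a ha) (hsV b hb)]
          congr 1; group
        have hf₀inj : ∀ a ∈ kV S y, ∀ b ∈ kV S y, f₀ a = f₀ b → a = b := by
          intro a ha b hb hab
          rw [hf₀a, hf₀a] at hab
          have h2 := hf.injOn (hsV a ha) (hsV b hb) hab
          exact mul_left_cancel (mul_right_cancel h2)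
        have hf₀V : ∀ a ∈ kV S y, f₀ a ∈ kV S y := fun a ha => by
          rw [hf₀a, ← himg]; exact hf.mem_imgS_of_mem (hsV a ha)
        have hf₀1 : f₀ 1 = 1 := by
          rw [hf₀a]
          have : s * 1 * s⁻¹ = 1 := by group
          rw [this, hf.map_one]
        obtain ⟨g', hg'⟩ : ∃ g', g' = s⁻¹ * g * s := ⟨_, rfl⟩
        have hg'S : g' ∈ S := by rw [hg']; exact S.mul_mem (S.mul_mem (S.inv_mem hs) hgS) hs
        have hg'V : g' ∉ kV S y := by
          intro hmem
          apply hgP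
          have h2 := hsV g' hmem
          have h3 : s * g' * s⁻¹ = g := by rw [hg']; group
          rwa [h3] at h2
        have hg'conj : ∀ x ∈ kV S y, g' * x * g'⁻¹ ∈ kV S y := by
          intro x hx
          have h2 : g * (s * x * s⁻¹) * g⁻¹ ∈ P := conj_mem_of_mem_normalizer hgN (hsV x hx)
          have h3 := h1 _ h2
          have h4 : s⁻¹ * (g * (s * x * s⁻¹) * g⁻¹) * s = g' * x * g'⁻¹ := by rw [hg']; group
          rwa [h4] at h3
        have hf₀g : ∀ x ∈ kV S y, f₀ (g' * x * g'⁻¹) = h * f₀ x * h⁻¹ := by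
          intro x hx
          rw [hf₀a, hf₀a, ← hgh _ (hsV x hx)]
          congr 1; rw [hg']; group
        have hgy : g' * y * g'⁻¹ = z * y := by
          rcases d.mem_V.1 (hg'conj y d.y_V) with h2 | h2 | h2 | h2
          · exfalso; apply d.hy1
            have : y = g'⁻¹ * (g' * y * g'⁻¹) * g' := by group
            rw [this, h2]; group
          · exfalso; apply d.hzy
            have : y = g'⁻¹ * (g' * y * g'⁻¹) * g' := by group
            rw [this, h2, d.conj_z' hg'S]
          · exfalso; apply hg'V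
            refine ⟨hg'S, Subgroup.mem_centralizer_singleton_iff.2 ?_⟩
            calc g' * y = (g' * y * g'⁻¹) * g' := by group
              _ = y * g' := by rw [h2]
          · exact h2
        have hgz : g' * z * g'⁻¹ = z := d.conj_z hg'S
        have e1 : f₀ z = h * f₀ z * h⁻¹ := by
          have h2 := hf₀g z d.z_V
          rwa [hgz] at h2
        have e2 : f₀ z * f₀ y = h * f₀ y * h⁻¹ := by
          have h2 := hf₀g y d.y_V
          rwa [hgy, hf₀mul z d.z_V y d.y_V] at h2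
        have hhy : h * y * h⁻¹ = y → False := by
          intro hc
          have hhV : h ∈ kV S y := ⟨hhS, Subgroup.mem_centralizer_singleton_iff.2 (by
            calc h * y = (h * y * h⁻¹) * h := by group
              _ = y * h := by rw [hc])⟩
          have hcm : h * f₀ y * h⁻¹ = f₀ y := by
            rw [d.V_comm h hhV (f₀ y) (hf₀V y d.y_V)]; group
          rw [hcm] at e2
          have h3 : f₀ z = 1 := by simpa using e2
          exact d.hz1 (hf₀inj z d.z_V 1 d.one_V (h3.trans hf₀1.symm))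
        have hfz : f₀ z = z := by
          rcases d.mem_V.1 (hf₀V z d.z_V) with h2 | h2 | h2 | h2
          · exfalso; exact d.hz1 (hf₀inj z d.z_V 1 d.one_V (h2.trans hf₀1.symm))
          · exact h2
          · exfalso; apply hhy; rw [h2] at e1; exact e1.symm
          · exfalso; apply hhy
            rw [h2] at e1
            have h3 : h * (z * y) * h⁻¹ = z * (h * y * h⁻¹) := by
              calc h * (z * y) * h⁻¹ = (h * z * h⁻¹) * (h * y * h⁻¹) := by group
                _ = z * (h * y * h⁻¹) := by rw [d.conj_z hhS]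
            rw [h3] at e1
            exact (mul_left_cancel e1).symm
        have hfy : f₀ y = y ∨ f₀ y = z * y := by
          rcases d.mem_V.1 (hf₀V y d.y_V) with h2 | h2 | h2 | h2
          · exfalso; exact d.hy1 (hf₀inj y d.y_V 1 d.one_V (h2.trans hf₀1.symm))
          · exfalso; exact d.hzy (hf₀inj y d.y_V z d.z_V (h2.trans hfz.symm))
          · exact Or.inl h2
          · exact Or.inr h2
        have hfzy : f₀ (z * y) = z * f₀ y := by rw [hf₀mul z d.z_V y d.y_V, hfz]
        have hff₀ : ∀ x, f x = f₀ (s⁻¹ * x * s) := by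
          intro x
          rw [hf₀a]
          congr 1; group
        rcases hfy with hfy | hfy
        · refine ⟨s⁻¹, S.inv_mem hs, fun x hx => ?_⟩
          rw [hff₀ x, inv_inv]
          have hxV := h1 x hx
          generalize s⁻¹ * x * s = t at hxV ⊢
          rcases d.mem_V.1 hxV with h2 | h2 | h2 | h2 <;> rw [h2]
          · exact hf₀1
          · exact hfz
          · exact hfy
          · rw [hfzy, hfy]
        · refine ⟨h₀ * s⁻¹, S.mul_mem d.hh₀ (S.inv_mem hs), fun x hx => ?_⟩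
          have e : h₀ * s⁻¹ * x * (h₀ * s⁻¹)⁻¹ = h₀ * (s⁻¹ * x * s) * h₀⁻¹ := by group
          rw [hff₀ x, e]
          have hxV := h1 x hx
          generalize s⁻¹ * x * s = t at hxV ⊢
          rcases d.mem_V.1 hxV with h2 | h2 | h2 | h2 <;> rw [h2]
          · rw [hf₀1]; group
          · rw [hfz, d.conj_z d.hh₀]
          · rw [hfy, d.hh]
          · rw [hfzy, hfy, d.zz', d.conj_h₀_zy]
    exact ⟨f, hf.restrict hNP, fun x hx => rfl⟩

/-! ### Subgroups of `V` and saturation -/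

theorem sub_V_cases {P' : Subgroup Ω} (hP' : P' ≤ kV S y) :
    P' = ⊥ ∨ (eSys S (kV S y) d.V_le).IsConj P' (kZ z d.hz2) ∨ P' = kV S y := by
  classical
  have pair : ∀ v ∈ P', v ≠ 1 → (∀ x ∈ P', x = 1 ∨ x = v) →
      (eSys S (kV S y) d.V_le).IsConj P' (kZ z d.hz2) := by
    intro v hv hv1 hall
    have hvv : v * v = 1 := by
      rcases hall _ (P'.mul_mem hv hv) with h | h
      · exact h
      · exfalso; exact hv1 (by simpa using h)
    have hmor : Mor (eSys S (kV S y) d.V_le) P' (fun x => if x = 1 then 1 else z) := by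
      rw [mor_eSys_iff]
      refine ⟨hP'.trans d.V_le, Or.inr ⟨?_, ?_, 1, S.one_mem, 1, S.one_mem,
        fun x hx => by simpa using hP' hx, fun x hx => ?_⟩⟩
      · intro a ha b hb hab
        rcases hall a ha with h | h <;> rcases hall b hb with h' | h'
        · rw [h, h']
        · exfalso
          rw [h, h'] at hab
          simp only [if_true, if_neg hv1] at hab
          exact d.hz1 hab.symm
        · exfalso
          rw [h, h'] at hab
          simp only [if_true, if_neg hv1] at hab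
          exact d.hz1 hab
        · rw [h, h']
      · intro a ha b hb
        rcases hall a ha with h | h <;> rcases hall b hb with h' | h' <;> rw [h, h']
        · simp
        · simp
        · simp
        · simp only [hvv, if_true, if_neg hv1, d.hz2]
      · show (1 : Ω)⁻¹ * (if x = 1 then 1 else z) * 1 ∈ kV S y
        by_cases hx1 : x = 1
        · rw [if_pos hx1]; simpa using d.one_V
        · rw [if_neg hx1]; simpa using d.z_V
    rw [Cfsg.Agent.H86.isConj_iff]
    refine ⟨_, hmor, ?_⟩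
    ext t
    rw [hmor.mem_imgS, mem_kZ]
    constructor
    · rintro ⟨x, hx, rfl⟩
      by_cases hx1 : x = 1
      · left; rw [if_pos hx1]
      · right; rw [if_neg hx1]
    · rintro (h | h)
      · exact ⟨1, P'.one_mem, by rw [if_pos rfl, h]⟩
      · exact ⟨v, hv, by rw [if_neg hv1, h]⟩
  by_cases hzP : z ∈ P'
  · by_cases hyP : y ∈ P'
    · right; right
      refine le_antisymm hP' (fun x hx => ?_)
      rcases d.mem_V.1 hx with h | h | h | h <;> rw [h]
      · exact P'.one_mem
      · exact hzP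
      · exact hyP
      · exact P'.mul_mem hzP hyP
    · right; left
      refine pair z hzP d.hz1 (fun x hx => ?_)
      rcases d.mem_V.1 (hP' hx) with h | h | h | h
      · exact Or.inl h
      · exact Or.inr h
      · exfalso; exact hyP (h ▸ hx)
      · exfalso
        apply hyP
        have h2 : y = z * (z * y) := (d.zz' y).symm
        rw [h2]
        exact P'.mul_mem hzP (h ▸ hx)
  · by_cases hyP : y ∈ P'
    · right; left
      refine pair y hyP d.hy1 (fun x hx => ?_)
      rcases d.mem_V.1 (hP' hx) with h | h | h | h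
      · exact Or.inl h
      · exfalso; exact hzP (h ▸ hx)
      · exact Or.inr h
      · exfalso
        apply hzP
        have h2 : z = z * y * y := by rw [mul_assoc, d.hy2, mul_one]
        rw [h2]
        exact P'.mul_mem (h ▸ hx) hyP
    · by_cases hzyP : z * y ∈ P'
      · right; left
        refine pair (z * y) hzyP d.zy_ne_one (fun x hx => ?_)
        rcases d.mem_V.1 (hP' hx) with h | h | h | h
        · exact Or.inl h
        · exfalso; exact hzP (h ▸ hx)
        · exfalso; exact hyP (h ▸ hx)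
        · exact Or.inr h
      · left
        rw [eq_bot_iff]
        intro x hx
        rw [Subgroup.mem_bot]
        rcases d.mem_V.1 (hP' hx) with h | h | h | h
        · exact h
        · exfalso; exact hzP (h ▸ hx)
        · exfalso; exact hyP (h ▸ hx)
        · exfalso; exact hzyP (h ▸ hx)

theorem saturated [Finite S] (hS : IsPGroup 2 S) :
    (eSys S (kV S y) d.V_le).IsSaturated 2 := by
  apply eSys_saturated hS
  rintro P hP ⟨s, hs, h1⟩
  have hc : Mor (eSys S (kV S y) d.V_le) P (fun x => s⁻¹ * x * s⁻¹⁻¹) :=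
    Mor.conj _ hP (S.inv_mem hs)
  have hPP' : (eSys S (kV S y) d.V_le).IsConj P (imgS P (fun x => s⁻¹ * x * s⁻¹⁻¹)) :=
    Cfsg.Agent.H86.isConj_iff.2 ⟨_, hc, rfl⟩
  have hP'V : imgS P (fun x => s⁻¹ * x * s⁻¹⁻¹) ≤ kV S y := by
    intro t ht
    obtain ⟨x, hx, rfl⟩ := hc.mem_imgS.1 ht
    have h2 := h1 x hx
    simpa using h2
  rcases d.sub_V_cases hP'V with h | h | h
  · rw [h] at hPP'
    exact ⟨⊥, hPP', fullyAutomized_bot hS _, receptive_bot _⟩
  · exact ⟨kZ z d.hz2, isConj_trans hPP' h, d.Z_fullyAutomized hS, d.Z_receptive⟩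
  · rw [h] at hPP'
    exact ⟨kV S y, hPP', d.V_fullyAutomized hS, d.V_receptive⟩

end KD

/-- S5287-K: the Klein-four system. -/
theorem klein_sys {Ω : Type*} [Group Ω] {S : Subgroup Ω} [Finite S] (hS : IsPGroup 2 S) (z y h₀ : Ω) (hz : z ∈ S) (hy : y ∈ S) (hh₀ : h₀ ∈ S) (hzc : ∀ s ∈ S, s * z = z * s) (hz2 : z * z = 1) (hy2 : y * y = 1) (hz1 : z ≠ 1) (hy1 : y ≠ 1) (hzy : y ≠ z) (hC : ∀ s ∈ S, s * y = y * s → s = 1 ∨ s = z ∨ s = y ∨ s = z * y) (hh : h₀ * y * h₀⁻¹ = z * y) : ∃ F : Cfsg.FusionSystem S, F.IsSaturated 2 ∧ ¬ F.IsNormal S := by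
  have d : KD S z y h₀ := ⟨hz, hy, hh₀, hzc, hz2, hy2, hz1, hy1, hzy, hC, hh⟩
  exact ⟨eSys S (kV S y) d.V_le, d.saturated hS, d.not_normal⟩

end Cfsg.Agent.H5.KleinSys
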