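import Mathlib
import Cfsg.Agent.H4.TnDefs

/-! Base lemmas on the `S₃ × S₃` configuration `Cfg G T a b u v` of helper4's S3805 project
(used by the pieces TN-CA, TN-S1, TN-TI of helper5). -/

set_option autoImplicit false

universe u

namespace Cfsg.Agent.H5.Tn

open Subgroup Cfsg.Agent.H4.Tn

section
variable {G : Type u} [Group G] {T : Subgroup G} {a b u v : G}

theorem ab_comm (cfg : Cfg G T a b u v) : Commute a b := cfg.comm a cfg.aT b cfg.bT

theorem a_ne_one (cfg : Cfg G T a b u v) : a ≠ 1 := by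
  intro h
  have h1 := (cfg.indep 1 0 (by rw [pow_one, pow_zero, mul_one, h])).1
  omega

theorem b_ne_one (cfg : Cfg G T a b u v) : b ≠ 1 := by
  intro h
  have h1 := (cfg.indep 0 1 (by rw [pow_one, pow_zero, one_mul, h])).2
  omega

theorem u_inv (cfg : Cfg G T a b u v) : u⁻¹ = u := inv_eq_of_mul_eq_one_right cfg.u2

theorem v_inv (cfg : Cfg G T a b u v) : v⁻¹ = v := inv_eq_of_mul_eq_one_right cfg.v2

theorem a_inv (cfg : Cfg G T a b u v) : a⁻¹ = a ^ 2 :=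
  inv_eq_of_mul_eq_one_right (by rw [← pow_succ', cfg.a3])

theorem b_pow_inv (cfg : Cfg G T a b u v) (k : ℕ) : (b ^ k)⁻¹ = b ^ (2 * k) :=
  inv_eq_of_mul_eq_one_right (by
    rw [← pow_add, show k + 2 * k = 3 * k by ring, pow_mul, cfg.b3, one_pow])

theorem u_pow_b (cfg : Cfg G T a b u v) (k : ℕ) : u * b ^ k = b ^ (2 * k) * u := by
  have h : SemiconjBy u b b⁻¹ := cfg.ub
  have h2 := (h.pow_right k).eq
  rw [h2, inv_pow, b_pow_inv cfg]

theorem u_not_mem (cfg : Cfg G T a b u v) : u ∉ T := by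
  intro h
  have h1 := cfg.comm u h b cfg.bT
  rw [cfg.ub] at h1
  have h2 : b⁻¹ = b := mul_right_cancel h1
  have h3 : b * b = 1 := by
    nth_rewrite 1 [← h2]
    exact inv_mul_cancel b
  have h4 : b = 1 := by
    have h5 := cfg.b3
    rw [pow_succ, pow_two, h3, one_mul] at h5
    exact h5
  exact b_ne_one cfg h4

theorem a_pow_mem (cfg : Cfg G T a b u v) (i j : ℕ) : a ^ i * b ^ j ∈ T :=
  mul_mem (pow_mem cfg.aT i) (pow_mem cfg.bT j)

/-- comparing exponents -/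
theorem exp_eq (cfg : Cfg G T a b u v) {i j i' j' : ℕ} (h : a ^ i * b ^ j = a ^ i' * b ^ j') :
    3 ∣ i + 2 * i' ∧ 3 ∣ j + 2 * j' := by
  apply cfg.indep
  have hc : ∀ m n : ℕ, a ^ m * b ^ n = b ^ n * a ^ m := fun m n =>
    ((ab_comm cfg).pow_pow m n).eq
  calc a ^ (i + 2 * i') * b ^ (j + 2 * j')
      = a ^ i * (a ^ (2 * i') * b ^ j) * b ^ (2 * j') := by
        rw [pow_add, pow_add]; simp only [mul_assoc]
    _ = a ^ i * (b ^ j * a ^ (2 * i')) * b ^ (2 * j') := by rw [hc]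
    _ = (a ^ i * b ^ j) * (a ^ (2 * i') * b ^ (2 * j')) := by simp only [mul_assoc]
    _ = (a ^ i' * b ^ j') * (a ^ (2 * i') * b ^ (2 * j')) := by rw [h]
    _ = a ^ i' * (b ^ j' * a ^ (2 * i')) * b ^ (2 * j') := by simp only [mul_assoc]
    _ = a ^ i' * (a ^ (2 * i') * b ^ j') * b ^ (2 * j') := by rw [← hc]
    _ = a ^ (3 * i') * b ^ (3 * j') := by
        rw [show 3 * i' = i' + 2 * i' by ring, show 3 * j' = j' + 2 * j' by ring, pow_add,
          pow_add]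
        simp only [mul_assoc]
    _ = 1 := by rw [pow_mul, pow_mul, cfg.a3, cfg.b3, one_pow, one_pow, one_mul]

/-- `A₂ = ⟨b, u⟩ = {b^j, b^j u}` -/
theorem mem_A2 (cfg : Cfg G T a b u v) {w : G} (hw : w ∈ closure ({b, u} : Set G)) :
    ∃ j : ℕ, w = b ^ j ∨ w = b ^ j * u := by
  let A : Subgroup G :=
    { carrier := {x | ∃ j : ℕ, x = b ^ j ∨ x = b ^ j * u}
      one_mem' := ⟨0, Or.inl (pow_zero b).symm⟩
      mul_mem' := by
        rintro x y ⟨j, rfl | rfl⟩ ⟨k, rfl | rfl⟩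
        · exact ⟨j + k, Or.inl (pow_add b j k).symm⟩
        · exact ⟨j + k, Or.inr (by rw [pow_add, mul_assoc])⟩
        · refine ⟨j + 2 * k, Or.inr ?_⟩
          rw [mul_assoc, u_pow_b cfg, ← mul_assoc, ← pow_add]
        · refine ⟨j + 2 * k, Or.inl ?_⟩
          rw [mul_assoc, ← mul_assoc u, u_pow_b cfg, mul_assoc (b ^ (2 * k)), cfg.u2, mul_one,
            ← pow_add]
      inv_mem' := by
        rintro x ⟨j, rfl | rfl⟩
        · exact ⟨2 * j, Or.inl (b_pow_inv cfg j)⟩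
        · refine ⟨2 * (2 * j), Or.inr ?_⟩
          rw [mul_inv_rev, u_inv cfg, b_pow_inv cfg, u_pow_b cfg] }
  have hle : closure ({b, u} : Set G) ≤ A := by
    rw [closure_le]
    rintro y (rfl | rfl)
    · exact ⟨1, Or.inl (pow_one _).symm⟩
    · exact ⟨0, Or.inr (by rw [pow_zero, one_mul])⟩
  exact hle hw

theorem b_mem_A2 : b ∈ closure ({b, u} : Set G) := subset_closure (by simp)

theorem u_mem_A2 : u ∈ closure ({b, u} : Set G) := subset_closure (by simp)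

/-- normal form in `A₂` with bounded exponents -/
theorem mem_A2' (cfg : Cfg G T a b u v) {w : G} (hw : w ∈ closure ({b, u} : Set G)) :
    ∃ j : Fin 3, ∃ k : Fin 2, w = b ^ (j : ℕ) * u ^ (k : ℕ) := by
  obtain ⟨j, rfl | rfl⟩ := mem_A2 cfg hw
  · refine ⟨⟨j % 3, Nat.mod_lt _ (by norm_num)⟩, 0, ?_⟩
    show b ^ j = b ^ (j % 3) * u ^ 0
    rw [pow_zero, mul_one]
    exact pow_eq_pow_mod j cfg.b3
  · refine ⟨⟨j % 3, Nat.mod_lt _ (by norm_num)⟩, 1, ?_⟩
    show b ^ j * u = b ^ (j % 3) * u ^ 1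
    rw [pow_one, pow_eq_pow_mod j cfg.b3]

theorem A2_form_mem (j k : ℕ) : b ^ j * u ^ k ∈ closure ({b, u} : Set G) :=
  mul_mem (pow_mem b_mem_A2 j) (pow_mem u_mem_A2 k)

/-- elements of `A₂` commute with `a` -/
theorem A2_comm_a (cfg : Cfg G T a b u v) {w : G} (hw : w ∈ closure ({b, u} : Set G)) :
    w * a = a * w := by
  have hle : closure ({b, u} : Set G) ≤ centralizer ({a} : Set G) := by
    rw [closure_le]
    rintro y (rfl | rfl)
    · exact mem_centralizer_singleton_iff.mpr (ab_comm cfg).eq.symm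
    · exact mem_centralizer_singleton_iff.mpr cfg.ua
  exact mem_centralizer_singleton_iff.mp (hle hw)

/-- injectivity of `(i, j, k) ↦ a^i b^j u^k` -/
theorem form_inj (cfg : Cfg G T a b u v) {i j i' j' : ℕ} {k k' : Fin 2}
    (h : a ^ i * (b ^ j * u ^ (k : ℕ)) = a ^ i' * (b ^ j' * u ^ (k' : ℕ))) :
    k = k' ∧ 3 ∣ i + 2 * i' ∧ 3 ∣ j + 2 * j' := by
  have key : ∀ x y : G, x ∈ T → y ∈ T → x = y * u → False := by
    intro x y hx hy hxy
    apply u_not_mem cfg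
    have : u = y⁻¹ * x := by rw [hxy]; group
    rw [this]
    exact mul_mem (inv_mem hy) hx
  have hmem := a_pow_mem cfg
  fin_cases k <;> fin_cases k'
  · refine ⟨rfl, exp_eq cfg ?_⟩
    simpa using h
  · exfalso
    refine key (a ^ i * b ^ j) (a ^ i' * b ^ j') (hmem i j) (hmem i' j') ?_
    simpa [mul_assoc] using h
  · exfalso
    refine key (a ^ i' * b ^ j') (a ^ i * b ^ j) (hmem i' j') (hmem i j) ?_
    simpa [mul_assoc] using h.symm
  · refine ⟨rfl, exp_eq cfg ?_⟩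
    have h' : a ^ i * b ^ j * u = a ^ i' * b ^ j' * u := by simpa [mul_assoc] using h
    exact mul_right_cancel h'

/-- the normal form of the elements of `N` -/
theorem N_form (cfg : Cfg G T a b u v) {g : G} (hg : g ∈ normalizer (T : Set G)) :
    ∃ t ∈ T, g = t ∨ g = t * u ∨ g = t * v ∨ g = t * (u * v) := cfg.Nelts g hg

theorem T_comm_a (cfg : Cfg G T a b u v) {t : G} (ht : t ∈ T) : t * a = a * t :=
  cfg.comm t ht a cfg.aT

theorem conj_a_one (cfg : Cfg G T a b u v) {t : G} (ht : t ∈ T) : t * a * t⁻¹ = a := by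
  rw [T_comm_a cfg ht]; group

theorem conj_a_u (cfg : Cfg G T a b u v) {t : G} (ht : t ∈ T) :
    (t * u) * a * (t * u)⁻¹ = a := by
  calc (t * u) * a * (t * u)⁻¹ = t * (u * a) * u⁻¹ * t⁻¹ := by group
    _ = t * (a * u) * u⁻¹ * t⁻¹ := by rw [cfg.ua]
    _ = (t * a) * t⁻¹ := by group
    _ = (a * t) * t⁻¹ := by rw [T_comm_a cfg ht]
    _ = a := by group

theorem conj_a_v (cfg : Cfg G T a b u v) {t : G} (ht : t ∈ T) :
    (t * v) * a * (t * v)⁻¹ = a⁻¹ := by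
  have hta : t * a⁻¹ = a⁻¹ * t := cfg.comm t ht a⁻¹ (inv_mem cfg.aT)
  calc (t * v) * a * (t * v)⁻¹ = t * (v * a) * v⁻¹ * t⁻¹ := by group
    _ = t * (a⁻¹ * v) * v⁻¹ * t⁻¹ := by rw [cfg.va]
    _ = (t * a⁻¹) * t⁻¹ := by group
    _ = (a⁻¹ * t) * t⁻¹ := by rw [hta]
    _ = a⁻¹ := by group

theorem conj_a_uv (cfg : Cfg G T a b u v) {t : G} (ht : t ∈ T) :
    (t * (u * v)) * a * (t * (u * v))⁻¹ = a⁻¹ := by
  have hta : t * a⁻¹ = a⁻¹ * t := cfg.comm t ht a⁻¹ (inv_mem cfg.aT)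
  have hua : u * a⁻¹ = a⁻¹ * u := (Commute.inv_right (show Commute u a from cfg.ua)).eq
  calc (t * (u * v)) * a * (t * (u * v))⁻¹ = t * u * (v * a) * v⁻¹ * u⁻¹ * t⁻¹ := by group
    _ = t * u * (a⁻¹ * v) * v⁻¹ * u⁻¹ * t⁻¹ := by rw [cfg.va]
    _ = t * (u * a⁻¹) * u⁻¹ * t⁻¹ := by group
    _ = t * (a⁻¹ * u) * u⁻¹ * t⁻¹ := by rw [hua]
    _ = (t * a⁻¹) * t⁻¹ := by group
    _ = (a⁻¹ * t) * t⁻¹ := by rw [hta]
    _ = a⁻¹ := by group

theorem conj_a (cfg : Cfg G T a b u v) {n : G} (hn : n ∈ normalizer (T : Set G)) :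
    n * a * n⁻¹ = a ∨ n * a * n⁻¹ = a⁻¹ := by
  obtain ⟨t, ht, rfl | rfl | rfl | rfl⟩ := N_form cfg hn
  · exact Or.inl (conj_a_one cfg ht)
  · exact Or.inl (conj_a_u cfg ht)
  · exact Or.inr (conj_a_v cfg ht)
  · exact Or.inr (conj_a_uv cfg ht)

/-- `x` normalizes `A₂` as soon as it maps `b` and `u` into `A₂` -/
theorem conj_A2_of_gens {x : G} (hb : x * b * x⁻¹ ∈ closure ({b, u} : Set G))
    (hu : x * u * x⁻¹ ∈ closure ({b, u} : Set G)) {w : G}
    (hw : w ∈ closure ({b, u} : Set G)) : x * w * x⁻¹ ∈ closure ({b, u} : Set G) := by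
  have hle : closure ({b, u} : Set G) ≤
      (closure ({b, u} : Set G)).comap (MulAut.conj x).toMonoidHom := by
    rw [closure_le]
    rintro y (rfl | rfl)
    · exact hb
    · exact hu
  exact hle hw

theorem conj_A2_a (cfg : Cfg G T a b u v) {w : G} (hw : w ∈ closure ({b, u} : Set G)) :
    a * w * a⁻¹ ∈ closure ({b, u} : Set G) := by
  have e : a * w * a⁻¹ = w := by rw [← A2_comm_a cfg hw]; group
  rw [e]; exact hw

theorem conj_A2_b {w : G} (hw : w ∈ closure ({b, u} : Set G)) :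
    b * w * b⁻¹ ∈ closure ({b, u} : Set G) :=
  mul_mem (mul_mem b_mem_A2 hw) (inv_mem b_mem_A2)

theorem conj_A2_u {w : G} (hw : w ∈ closure ({b, u} : Set G)) :
    u * w * u⁻¹ ∈ closure ({b, u} : Set G) :=
  mul_mem (mul_mem u_mem_A2 hw) (inv_mem u_mem_A2)

theorem conj_A2_v (cfg : Cfg G T a b u v) {w : G} (hw : w ∈ closure ({b, u} : Set G)) :
    v * w * v⁻¹ ∈ closure ({b, u} : Set G) := by
  refine conj_A2_of_gens ?_ ?_ hw
  · have e : v * b * v⁻¹ = b := by rw [cfg.vb]; group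
    rw [e]; exact b_mem_A2
  · have e : v * u * v⁻¹ = u := by rw [← cfg.uv]; group
    rw [e]; exact u_mem_A2

theorem conj_A2_mul {x y : G}
    (hx : ∀ w ∈ closure ({b, u} : Set G), x * w * x⁻¹ ∈ closure ({b, u} : Set G))
    (hy : ∀ w ∈ closure ({b, u} : Set G), y * w * y⁻¹ ∈ closure ({b, u} : Set G)) :
    ∀ w ∈ closure ({b, u} : Set G), (x * y) * w * (x * y)⁻¹ ∈ closure ({b, u} : Set G) := by
  intro w hw
  have e : (x * y) * w * (x * y)⁻¹ = x * (y * w * y⁻¹) * x⁻¹ := by group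
  rw [e]
  exact hx _ (hy w hw)

theorem conj_A2_pow {x : G}
    (hx : ∀ w ∈ closure ({b, u} : Set G), x * w * x⁻¹ ∈ closure ({b, u} : Set G)) (n : ℕ) :
    ∀ w ∈ closure ({b, u} : Set G), x ^ n * w * (x ^ n)⁻¹ ∈ closure ({b, u} : Set G) := by
  induction n with
  | zero =>
    intro w hw
    have e : (x ^ 0) * w * (x ^ 0)⁻¹ = w := by rw [pow_zero]; group
    rw [e]; exact hw
  | succ n ih =>
    rw [pow_succ]
    exact conj_A2_mul ih hx

/-- `N` normalizes `A₂` -/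
theorem conj_A2 (cfg : Cfg G T a b u v) {n : G} (hn : n ∈ normalizer (T : Set G)) :
    ∀ w ∈ closure ({b, u} : Set G), n * w * n⁻¹ ∈ closure ({b, u} : Set G) := by
  have hT : ∀ t ∈ T, ∀ w ∈ closure ({b, u} : Set G),
      t * w * t⁻¹ ∈ closure ({b, u} : Set G) := by
    intro t ht
    obtain ⟨i, j, rfl⟩ := cfg.Telts t ht
    exact conj_A2_mul (conj_A2_pow (fun w hw => conj_A2_a cfg hw) i)
      (conj_A2_pow (fun w hw => conj_A2_b hw) j)
  obtain ⟨t, ht, h | rfl | rfl | rfl⟩ := N_form cfg hn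
  · rw [h]; exact hT t ht
  · exact conj_A2_mul (hT t ht) (fun w hw => conj_A2_u hw)
  · exact conj_A2_mul (hT t ht) (fun w hw => conj_A2_v cfg hw)
  · exact conj_A2_mul (hT t ht)
      (conj_A2_mul (fun w hw => conj_A2_u hw) (fun w hw => conj_A2_v cfg hw))

/-- `A₂ ≤ N` -/
theorem A2_le_N (cfg : Cfg G T a b u v) :
    closure ({b, u} : Set G) ≤ normalizer (T : Set G) := by
  rw [closure_le]
  rintro y (rfl | rfl)
  · exact le_normalizer cfg.bT
  · exact cfg.uN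

/-- the square of an element `a^e w` (`w ∈ A₂`) -/
theorem sq_form (cfg : Cfg G T a b u v) (e : ℕ) {w : G}
    (hw : w ∈ closure ({b, u} : Set G)) :
    ∃ j : ℕ, (a ^ e * w) * (a ^ e * w) = a ^ (2 * e) * b ^ j := by
  have hc : w * a ^ e = a ^ e * w := (Commute.pow_right (show Commute w a from A2_comm_a cfg hw) e).eq
  have h1 : (a ^ e * w) * (a ^ e * w) = a ^ (2 * e) * (w * w) := by
    calc (a ^ e * w) * (a ^ e * w) = a ^ e * (w * a ^ e) * w := by simp only [mul_assoc]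
      _ = a ^ e * (a ^ e * w) * w := by rw [hc]
      _ = a ^ (2 * e) * (w * w) := by rw [two_mul, pow_add]; simp only [mul_assoc]
  obtain ⟨j, rfl | rfl⟩ := mem_A2 cfg hw
  · exact ⟨j + j, by rw [h1, pow_add]⟩
  · refine ⟨0, ?_⟩
    rw [h1, pow_zero]
    congr 1
    rw [mul_assoc, ← mul_assoc u, u_pow_b cfg, mul_assoc (b ^ (2 * j)), cfg.u2, mul_one,
      ← pow_add, show j + 2 * j = 3 * j by ring, pow_mul, cfg.b3, one_pow]

end

end Cfsg.Agent.H5.Tn
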