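import Mathlib
import Cfsg.Agent.H4.TnDefs
import Cfsg.Agent.H5.TnBase

/-! TN-CA (helper4's S3805 project): the centralizer of `a` is `⟨a⟩ × ⟨b,u⟩`, of order 18. -/

set_option autoImplicit false

universe u

namespace Cfsg.Agent.H5.Tn

open Subgroup Cfsg.Agent.H4.Tn

section
variable {G : Type u} [Group G] {T : Subgroup G} {a b u v : G}

theorem a_pow_form (cfg : Cfg G T a b u v) (i : ℕ) (w : G) :
    a ^ i * w = w ∨ a ^ i * w = a * w ∨ a ^ i * w = a⁻¹ * w := by
  rw [pow_eq_pow_mod i cfg.a3]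
  obtain h | h | h : i % 3 = 0 ∨ i % 3 = 1 ∨ i % 3 = 2 := by omega
  · left; rw [h, pow_zero, one_mul]
  · right; left; rw [h, pow_one]
  · right; right; rw [h, a_inv cfg]

theorem a_inv_ne (cfg : Cfg G T a b u v) : a ≠ a⁻¹ := by
  intro h
  have h1 : a * a = 1 := mul_eq_one_iff_eq_inv.mpr h
  have h2 : a ^ 2 * b ^ 0 = 1 := by
    rw [pow_zero, mul_one, pow_two]; exact h1
  have := (cfg.indep 2 0 h2).1
  omega

/-- the normal form of the elements of `C_G(a)` -/
theorem cent_form (cfg : Cfg G T a b u v) {x : G} (hx : x ∈ centralizer ({a} : Set G)) :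
    ∃ w ∈ closure ({b, u} : Set G), x = w ∨ x = a * w ∨ x = a⁻¹ * w := by
  have hxN : x ∈ normalizer (T : Set G) := cfg.loc a cfg.aT (a_ne_one cfg) hx
  have hxa : x * a * x⁻¹ = a := by
    have := mem_centralizer_singleton_iff.mp hx
    rw [this]; group
  obtain ⟨t, ht, h | rfl | rfl | rfl⟩ := N_form cfg hxN
  · obtain ⟨i, j, rfl⟩ := cfg.Telts t ht
    rw [h]
    exact ⟨b ^ j, pow_mem b_mem_A2 j, a_pow_form cfg i _⟩
  · obtain ⟨i, j, rfl⟩ := cfg.Telts t ht
    refine ⟨b ^ j * u, mul_mem (pow_mem b_mem_A2 j) u_mem_A2, ?_⟩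
    rw [mul_assoc]
    exact a_pow_form cfg i _
  · exfalso
    rw [conj_a_v cfg ht] at hxa
    exact a_inv_ne cfg hxa.symm
  · exfalso
    rw [conj_a_uv cfg ht] at hxa
    exact a_inv_ne cfg hxa.symm

/-- the parametrization of `A₂ = ⟨b,u⟩` -/
def a2par (b u : G) (x : Fin 3 × Fin 2) : G := b ^ (x.1 : ℕ) * u ^ (x.2 : ℕ)

theorem a2par_inj (cfg : Cfg G T a b u v) : Function.Injective (a2par b u) := by
  rintro ⟨j, k⟩ ⟨j', k'⟩ h
  have h' : a ^ 0 * (b ^ (j : ℕ) * u ^ (k : ℕ)) = a ^ 0 * (b ^ (j' : ℕ) * u ^ (k' : ℕ)) := by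
    rw [pow_zero, one_mul, one_mul]; exact h
  obtain ⟨h1, _, h3⟩ := form_inj cfg h'
  have hj := j.isLt
  have hj' := j'.isLt
  have e2 : j = j' := by
    apply Fin.ext
    omega
  rw [e2, h1]

theorem A2_eq_range (cfg : Cfg G T a b u v) :
    ((closure ({b, u} : Set G) : Subgroup G) : Set G) = Set.range (a2par b u) := by
  ext s
  constructor
  · intro hs
    obtain ⟨j, k, rfl⟩ := mem_A2' cfg hs
    exact ⟨(j, k), rfl⟩
  · rintro ⟨⟨j, k⟩, rfl⟩
    exact A2_form_mem _ _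

/-- the parametrization of `C_G(a)` -/
def capar (a b u : G) (x : Fin 3 × Fin 3 × Fin 2) : G :=
  a ^ (x.1 : ℕ) * (b ^ (x.2.1 : ℕ) * u ^ (x.2.2 : ℕ))

theorem capar_inj (cfg : Cfg G T a b u v) : Function.Injective (capar a b u) := by
  rintro ⟨e, j, k⟩ ⟨e', j', k'⟩ h
  obtain ⟨h1, h2, h3⟩ := form_inj cfg h
  have he := e.isLt
  have he' := e'.isLt
  have hj := j.isLt
  have hj' := j'.isLt
  simp only at h1 h2 h3
  have e1 : e = e' := by
    apply Fin.ext
    omega
  have e2 : j = j' := by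
    apply Fin.ext
    omega
  rw [e1, e2, h1]

theorem Ca_eq_range (cfg : Cfg G T a b u v) :
    ((centralizer ({a} : Set G) : Subgroup G) : Set G) = Set.range (capar a b u) := by
  ext s
  constructor
  · intro hs
    obtain ⟨w, hw, rfl | rfl | rfl⟩ := cent_form cfg hs
    · obtain ⟨j, k, rfl⟩ := mem_A2' cfg hw
      exact ⟨(0, j, k), by simp [capar]⟩
    · obtain ⟨j, k, rfl⟩ := mem_A2' cfg hw
      exact ⟨(1, j, k), by simp [capar]⟩
    · obtain ⟨j, k, rfl⟩ := mem_A2' cfg hw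
      exact ⟨(2, j, k), by simp [capar, a_inv cfg]⟩
  · rintro ⟨⟨e, j, k⟩, rfl⟩
    have h1 : a ∈ centralizer ({a} : Set G) := mem_centralizer_singleton_iff.mpr rfl
    have h2 : b ^ (j : ℕ) * u ^ (k : ℕ) ∈ centralizer ({a} : Set G) :=
      mem_centralizer_singleton_iff.mpr (A2_comm_a cfg (A2_form_mem _ _))
    exact mul_mem (pow_mem h1 _) h2

end

theorem ca : StCa.{u} := by
  intro G _ _ T a b u v cfg
  refine ⟨?_, ?_, ?_, ?_, ?_, ?_, ?_⟩
  · intro x hx
    exact cent_form cfg hx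
  · intro w hw
    exact A2_comm_a cfg hw
  · show Nat.card (((closure ({b, u} : Set G) : Subgroup G) : Set G)) = 6
    rw [A2_eq_range cfg, Nat.card_range_of_injective (a2par_inj cfg)]
    simp
  · show Nat.card (((centralizer ({a} : Set G) : Subgroup G) : Set G)) = 18
    rw [Ca_eq_range cfg, Nat.card_range_of_injective (capar_inj cfg)]
    simp
  · exact cfg.loc a cfg.aT (a_ne_one cfg)
  · intro n hn hnc
    rcases conj_a cfg hn with h | h
    · exfalso
      apply hnc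
      rw [mem_centralizer_singleton_iff]
      rw [mul_inv_eq_iff_eq_mul] at h
      exact h
    · exact h
  · intro n hn w hw
    exact conj_A2 cfg hn w hw

example : StCa.{u} := ca

end Cfsg.Agent.H5.Tn

#print axioms Cfsg.Agent.H5.Tn.ca
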