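import Mathlib
import Cfsg.Agent.H4.TnDefs
import Cfsg.Agent.H5.TnBase

/-! TN-TI (helper4's S3805 project): `S₁` is a TI-set with normalizer `N`, from TN-TIT. -/

set_option autoImplicit false

universe u

namespace Cfsg.Agent.H5.Tn

open Subgroup Cfsg.Agent.H4.Tn

section
variable {G : Type u} [Group G] {T : Subgroup G} {a b u v : G}

/-- the square of an element of `S₁` is a nontrivial element of `T` -/
theorem S1_sq (cfg : Cfg G T a b u v) {s : G} (hs : s ∈ S1 a b u) :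
    s * s ∈ T ∧ s * s ≠ 1 := by
  obtain ⟨w, hw, rfl | rfl⟩ := hs
  · obtain ⟨j, hj⟩ := sq_form cfg 1 hw
    rw [pow_one] at hj
    rw [hj]
    refine ⟨a_pow_mem cfg _ _, fun h => ?_⟩
    have := (cfg.indep _ _ h).1
    omega
  · obtain ⟨j, hj⟩ := sq_form cfg 2 hw
    rw [← a_inv cfg] at hj
    rw [hj]
    refine ⟨a_pow_mem cfg _ _, fun h => ?_⟩
    have := (cfg.indep _ _ h).1
    omega

end

theorem ti (hT : StTIT.{u}) : StTI.{u} := by
  intro G _ _ T a b u v cfg s hs x hx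
  obtain ⟨h1, h2⟩ := S1_sq cfg hs
  obtain ⟨h3, _⟩ := S1_sq cfg hx
  refine hT G T a b u v cfg (s * s) h1 h2 x ?_
  have e : x * (s * s) * x⁻¹ = (x * s * x⁻¹) * (x * s * x⁻¹) := by group
  rw [e]
  exact h3

example (hT : StTIT.{u}) : StTI.{u} := ti hT

end Cfsg.Agent.H5.Tn

#print axioms Cfsg.Agent.H5.Tn.ti
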