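import Mathlib
import Cfsg.Agent.H4.TnDefs
import Cfsg.Agent.H5.TnBase
import Cfsg.Agent.H5.TnTI

/-! TN-S1 (helper4's S3805 project): basic facts on `S₁ = a^{±1}·⟨b,u⟩`. -/

set_option autoImplicit false

universe u

namespace Cfsg.Agent.H5.Tn

open Subgroup Cfsg.Agent.H4.Tn

section
variable {G : Type u} [Group G] {T : Subgroup G} {a b u v : G}

/-- the parametrization of `S₁` -/
def s1par (a b u : G) (x : Fin 2 × Fin 3 × Fin 2) : G :=
  a ^ ((x.1 : ℕ) + 1) * (b ^ (x.2.1 : ℕ) * u ^ (x.2.2 : ℕ))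

theorem s1par_inj (cfg : Cfg G T a b u v) : Function.Injective (s1par a b u) := by
  rintro ⟨e, j, k⟩ ⟨e', j', k'⟩ h
  obtain ⟨h1, h2, h3⟩ := form_inj cfg h
  have he := e.isLt
  have he' := e'.isLt
  have hj := j.isLt
  have hj' := j'.isLt
  simp only at h1 h2 h3
  have e1 : e = e' := by
    apply Fin.ext
    omega
  have e2 : j = j' := by
    apply Fin.ext
    omega
  rw [e1, e2, h1]

theorem S1_eq_range (cfg : Cfg G T a b u v) : S1 a b u = Set.range (s1par a b u) := by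
  ext s
  constructor
  · rintro ⟨w, hw, rfl | rfl⟩
    · obtain ⟨j, k, rfl⟩ := mem_A2' cfg hw
      exact ⟨(0, j, k), by simp [s1par]⟩
    · obtain ⟨j, k, rfl⟩ := mem_A2' cfg hw
      exact ⟨(1, j, k), by simp [s1par, a_inv cfg]⟩
  · rintro ⟨⟨e, j, k⟩, rfl⟩
    refine ⟨b ^ (j : ℕ) * u ^ (k : ℕ), A2_form_mem _ _, ?_⟩
    fin_cases e
    · left
      simp [s1par]
    · right
      simp [s1par, a_inv cfg]

end

theorem s1 : StS1.{u} := by
  intro G _ _ T a b u v cfg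
  refine ⟨?_, ?_, ?_, ?_, ?_⟩
  · rintro s ⟨w, hw, rfl | rfl⟩
    · exact mul_mem (le_normalizer cfg.aT) (A2_le_N cfg hw)
    · exact mul_mem (inv_mem (le_normalizer cfg.aT)) (A2_le_N cfg hw)
  · rintro n hn s ⟨w, hw, rfl | rfl⟩
    · have e : n * (a * w) * n⁻¹ = (n * a * n⁻¹) * (n * w * n⁻¹) := by group
      rw [e]
      rcases conj_a cfg hn with h | h
      · rw [h]; exact ⟨_, conj_A2 cfg hn w hw, Or.inl rfl⟩
      · rw [h]; exact ⟨_, conj_A2 cfg hn w hw, Or.inr rfl⟩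
    · have e : n * (a⁻¹ * w) * n⁻¹ = (n * a * n⁻¹)⁻¹ * (n * w * n⁻¹) := by group
      rw [e]
      rcases conj_a cfg hn with h | h
      · rw [h]; exact ⟨_, conj_A2 cfg hn w hw, Or.inr rfl⟩
      · rw [h, inv_inv]; exact ⟨_, conj_A2 cfg hn w hw, Or.inl rfl⟩
  · rintro s ⟨w, hw, rfl | rfl⟩
    · refine ⟨w⁻¹, inv_mem hw, Or.inr ?_⟩
      rw [mul_inv_rev]
      exact (Commute.inv_right (show Commute w⁻¹ a from A2_comm_a cfg (inv_mem hw))).eq
    · refine ⟨w⁻¹, inv_mem hw, Or.inl ?_⟩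
      rw [mul_inv_rev, inv_inv]
      exact A2_comm_a cfg (inv_mem hw)
  · intro s hs
    exact (S1_sq cfg hs).2
  · rw [S1_eq_range cfg, Nat.card_range_of_injective (s1par_inj cfg)]
    simp

example : StS1.{u} := s1

end Cfsg.Agent.H5.Tn

#print axioms Cfsg.Agent.H5.Tn.s1
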