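import Mathlib

set_option autoImplicit false
open Polynomial DirectSum

namespace Cfsg.Agent.H5.GLk

theorem finrank_quot_span {F : Type*} [Field F] (f : F[X]) :
    Module.finrank F (F[X] ⧸ F[X] ∙ f) = f.natDegree :=
  finrank_quotient_span_eq_natDegree (f := f)

theorem finite_quot_span {F : Type*} [Field F] (f : F[X]) (hf : 0 < f.natDegree) :
    Module.Finite F (F[X] ⧸ F[X] ∙ f) :=
  Module.finite_of_finrank_pos (by rw [finrank_quot_span]; exact hf)

/-- S2478-STR2: dimension count and no factor `X` for an invertible matrix. -/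
theorem decomp_facts {F : Type*} [Field F] {n : ℕ} (A : Matrix (Fin n) (Fin n) F)
    (k : ℕ) (p : Fin k → F[X]) (e : Fin k → ℕ)
    (hp : ∀ i, (p i).Monic ∧ Irreducible (p i) ∧ 1 ≤ e i)
    (l : Module.AEval' (Matrix.toLin' A) ≃ₗ[F[X]] ⨁ i : Fin k, F[X] ⧸ F[X] ∙ p i ^ e i) :
    ∑ i, e i * (p i).natDegree = n ∧ (IsUnit A.det → ∀ i, (p i).coeff 0 ≠ 0) := by
  classical
  obtain ⟨φ, hφ⟩ : ∃ φ, φ = Matrix.toLin' A := ⟨_, rfl⟩
  rw [← hφ] at l
  have hdeg : ∀ i, (p i ^ e i).natDegree = e i * (p i).natDegree := fun i => by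
    rw [(hp i).1.natDegree_pow]
  have hpos : ∀ i, 0 < (p i ^ e i).natDegree := fun i => by
    rw [hdeg i]
    exact Nat.mul_pos (hp i).2.2 (Polynomial.natDegree_pos_iff_degree_pos.2
      (Polynomial.degree_pos_of_irreducible (hp i).2.1))
  constructor
  · haveI : ∀ i, Module.Finite F (F[X] ⧸ F[X] ∙ p i ^ e i) := fun i => finite_quot_span _ (hpos i)
    have h1 : Module.finrank F (Module.AEval' φ) = n := by
      rw [← (Module.AEval'.of φ).finrank_eq, Module.finrank_fin_fun]
    have h2 : Module.finrank F (Module.AEval' φ)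
        = Module.finrank F (⨁ i : Fin k, F[X] ⧸ F[X] ∙ p i ^ e i) :=
      (l.restrictScalars F).finrank_eq
    have h3 : Module.finrank F (⨁ i : Fin k, F[X] ⧸ F[X] ∙ p i ^ e i)
        = ∑ i, Module.finrank F (F[X] ⧸ F[X] ∙ p i ^ e i) :=
      Module.finrank_directSum (R := F) (fun i : Fin k => F[X] ⧸ F[X] ∙ p i ^ e i)
    rw [← h1, h2, h3]
    refine Finset.sum_congr rfl fun i _ => ?_
    rw [finrank_quot_span, hdeg i]
  · intro hdet i hi
    have hXdvd : (X : F[X]) ∣ p i := Polynomial.X_dvd_iff.2 hi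
    have hpX : p i = X :=
      (Polynomial.eq_of_monic_of_associated Polynomial.monic_X (hp i).1
        (Polynomial.irreducible_X.associated_of_dvd (hp i).2.1 hXdvd)).symm
    have he : 1 ≤ e i := (hp i).2.2
    let v : ⨁ i : Fin k, F[X] ⧸ F[X] ∙ p i ^ e i :=
      DirectSum.lof F[X] (Fin k) (fun i => F[X] ⧸ F[X] ∙ p i ^ e i) i
        (Submodule.Quotient.mk (X ^ (e i - 1)))
    have hXv : (X : F[X]) • v = 0 := by
      show (X : F[X]) • DirectSum.lof F[X] (Fin k) (fun i => F[X] ⧸ F[X] ∙ p i ^ e i) i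
        (Submodule.Quotient.mk (X ^ (e i - 1))) = 0
      rw [← map_smul, ← Submodule.Quotient.mk_smul, smul_eq_mul, ← pow_succ',
        Nat.sub_add_cancel he]
      have : (Submodule.Quotient.mk (X ^ e i) : F[X] ⧸ F[X] ∙ p i ^ e i) = 0 := by
        rw [Submodule.Quotient.mk_eq_zero, hpX]
        exact Submodule.mem_span_singleton_self _
      rw [this, map_zero]
    have hv : v ≠ 0 := by
      intro hv0
      have h0 : (Submodule.Quotient.mk (X ^ (e i - 1)) : F[X] ⧸ F[X] ∙ p i ^ e i) = 0 := by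
        apply DirectSum.of_injective (β := fun i => F[X] ⧸ F[X] ∙ p i ^ e i) i
        rw [map_zero]
        exact hv0
      rw [Submodule.Quotient.mk_eq_zero, hpX, Submodule.mem_span_singleton] at h0
      obtain ⟨c, hc⟩ := h0
      have hdvd : (X : F[X]) ^ e i ∣ X ^ (e i - 1) := ⟨c, by rw [← hc, smul_eq_mul, mul_comm]⟩
      have := (pow_dvd_pow_iff (Polynomial.X_ne_zero) (Polynomial.not_isUnit_X)).1 hdvd
      omega
    let m : Module.AEval' φ := l.symm v
    have hm : m ≠ 0 := fun h => hv (by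
      have := congrArg l h
      simpa [m] using this)
    have hXm : (X : F[X]) • m = 0 := by
      show (X : F[X]) • l.symm v = 0
      rw [← map_smul, hXv, map_zero]
    let w : Fin n → F := (Module.AEval'.of φ).symm m
    have hw : w ≠ 0 := fun h => hm (by
      have := congrArg (Module.AEval'.of φ) h
      simpa [w] using this)
    have hφw : φ w = 0 := by
      show φ ((Module.AEval'.of φ).symm m) = 0
      rw [← Module.AEval'.of_symm_X_smul, hXm, map_zero]
    have hAw : Matrix.mulVec A w = 0 := by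
      rw [hφ, Matrix.toLin'_apply] at hφw
      exact hφw
    have hdet0 : A.det = 0 := Matrix.exists_mulVec_eq_zero_iff.1 ⟨w, hw, hAw⟩
    rw [hdet0] at hdet
    exact not_isUnit_zero hdet

end Cfsg.Agent.H5.GLk
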