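import Mathlib

set_option autoImplicit false
open Polynomial DirectSum

namespace Cfsg.Agent.H5.GLk

/-- S2478-STR3: an isomorphism of the `F[X]`-modules of two invertible matrices makes them
conjugate in `GL`. -/
theorem isConj_of_aeval_equiv {F : Type*} [Field F] {n : ℕ} (A B : Matrix.GeneralLinearGroup (Fin n) F)
    (l : Module.AEval' (Matrix.toLin' (A : Matrix (Fin n) (Fin n) F)) ≃ₗ[F[X]]
      Module.AEval' (Matrix.toLin' (B : Matrix (Fin n) (Fin n) F))) : IsConj A B := by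
  obtain ⟨φA, hφA⟩ : ∃ φ, φ = Matrix.toLin' (A : Matrix (Fin n) (Fin n) F) := ⟨_, rfl⟩
  obtain ⟨φB, hφB⟩ : ∃ φ, φ = Matrix.toLin' (B : Matrix (Fin n) (Fin n) F) := ⟨_, rfl⟩
  rw [← hφA, ← hφB] at l
  let Φ : (Fin n → F) ≃ₗ[F] (Fin n → F) :=
    (Module.AEval'.of φA).trans ((l.restrictScalars F).trans (Module.AEval'.of φB).symm)
  have hΦ : ∀ v, Φ (φA v) = φB (Φ v) := by
    intro v
    show (Module.AEval'.of φB).symm (l (Module.AEval'.of φA (φA v)))
      = φB ((Module.AEval'.of φB).symm (l (Module.AEval'.of φA v)))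
    rw [← Module.AEval'.X_smul_of, map_smul, Module.AEval'.of_symm_X_smul]
  let P : Matrix (Fin n) (Fin n) F := LinearMap.toMatrix' Φ.toLinearMap
  let P' : Matrix (Fin n) (Fin n) F := LinearMap.toMatrix' Φ.symm.toLinearMap
  have h1 : P * P' = 1 := by
    show LinearMap.toMatrix' Φ.toLinearMap * LinearMap.toMatrix' Φ.symm.toLinearMap = 1
    rw [← LinearMap.toMatrix'_comp]
    have : Φ.toLinearMap ∘ₗ Φ.symm.toLinearMap = LinearMap.id := by
      ext v; simp
    rw [this, LinearMap.toMatrix'_id]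
  have h2 : P' * P = 1 := by
    show LinearMap.toMatrix' Φ.symm.toLinearMap * LinearMap.toMatrix' Φ.toLinearMap = 1
    rw [← LinearMap.toMatrix'_comp]
    have : Φ.symm.toLinearMap ∘ₗ Φ.toLinearMap = LinearMap.id := by
      ext v; simp
    rw [this, LinearMap.toMatrix'_id]
  have h3 : P * (A : Matrix (Fin n) (Fin n) F) = (B : Matrix (Fin n) (Fin n) F) * P := by
    apply Matrix.toLin'.injective
    rw [Matrix.toLin'_mul, Matrix.toLin'_mul]
    show Matrix.toLin' (LinearMap.toMatrix' Φ.toLinearMap) ∘ₗ Matrix.toLin' (A : Matrix (Fin n) (Fin n) F)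
      = Matrix.toLin' (B : Matrix (Fin n) (Fin n) F) ∘ₗ Matrix.toLin' (LinearMap.toMatrix' Φ.toLinearMap)
    rw [Matrix.toLin'_toMatrix', ← hφA, ← hφB]
    apply LinearMap.ext
    intro v
    exact hΦ v
  let c : Matrix.GeneralLinearGroup (Fin n) F := ⟨P, P', h1, h2⟩
  rw [isConj_iff]
  refine ⟨c, ?_⟩
  have h4 : c * A = B * c := by
    apply Units.ext
    rw [Units.val_mul, Units.val_mul]
    exact h3
  rw [h4, mul_assoc, mul_inv_cancel, mul_one]

end Cfsg.Agent.H5.GLk
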