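import Cfsg.Agent.H87.OlBase
import Cfsg.Agent.H89.NotCentric
import Cfsg.Agent.H28.OliverSurj

set_option autoImplicit false

namespace Cfsg.Agent.H5.Oliver

open Cfsg Cfsg.FusionSystem Cfsg.Agent.H86 Cfsg.Agent.H87

variable {Ω : Type*} [Group Ω] {S T : Subgroup Ω}

/-- S5243-HSTAR: condition (*) of the saturation criterion for `kSys`. -/
theorem kSys_star [Finite S] {p : ℕ} [Fact p.Prime] {F : FusionSystem S} {E : FusionSystem T} {K : Subgroup (MulAut T)} (h : KCfg p F E K) (hS : IsPGroup p S) (hfr : ∀ (P : Subgroup Ω) (f : Ω → Ω), Mor F P f → ∃ a f₀, Mor F S a ∧ imgS S a = S ∧ Mor (kSys F E K) P f₀ ∧ ∀ x ∈ P, f x = a (f₀ x)) {P : Subgroup Ω} (hP : (kSys F E K).IsCentric P) (hn : ¬ E.IsCentric (P ⊓ T)) : ∃ Q, (kSys F E K).IsConj P Q ∧ ¬ (autInducedBy S Q ⊓ (pCore p ↥((kSys F E K).autGroup Q)).map ((kSys F E K).autGroup Q).subtype ≤ Inn Q) := by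
  obtain ⟨f, hf, d, hdT, hdC, hdN, hdU⟩ :=
    Cfsg.Agent.H89.exists_conj_centralizer_not_le hS h.satF E h.sub h.closed hP.1 hn
  obtain ⟨a, f₁, ha, haS, hf₁, hfa⟩ := hfr P f hf
  have hsub := kSys_subsystem F E K
  have hf₁F : Mor F P f₁ := mor_of_subsystem hsub hf₁
  obtain ⟨Q, hQ⟩ : ∃ Q, Q = imgS P f₁ := ⟨_, rfl⟩
  have hQS : Q ≤ S := by rw [hQ]; exact hf₁F.imgS_le
  have hconj : (kSys F E K).IsConj P Q := isConj_iff.2 ⟨f₁, hf₁, hQ.symm⟩
  have himg : imgS P f = imgS Q a := by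
    rw [hf.imgS_congr hfa, hQ]
    exact hf₁F.imgS_comp ha (fun x hx => hf₁F.mem hx)
  have haQ : Mor F Q a := ha.restrict hQS
  have hainv : Mor F S (invOn S a) := by
    have := ha.inv
    rwa [haS] at this
  have hTS : T ≤ S := h.leTS
  have hdS : d ∈ S := hTS hdT
  obtain ⟨d', hd'⟩ : ∃ d', d' = invOn S a d := ⟨_, rfl⟩
  have had' : a d' = d := by rw [hd']; exact ha.apply_invOn (by rw [haS]; exact hdS)
  have hd'S : d' ∈ S := by rw [hd']; exact ha.invOn_mem (by rw [haS]; exact hdS)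
  have hd'T : d' ∈ T := by rw [hd']; exact h.mapsT le_rfl (hainv.restrict hTS) hdT
  have hd'C : ∀ y ∈ Q ⊓ T, y * d' = d' * y := by
    rintro y ⟨hyQ, hyT⟩
    have hyS : y ∈ S := hQS hyQ
    have h1 : a y ∈ imgS P f ⊓ T :=
      ⟨by rw [himg]; exact haQ.mem_imgS_of_mem hyQ, h.mapsT le_rfl (ha.restrict hTS) hyT⟩
    have h2 := hdC _ h1
    rw [← had', ← ha.map_mul hyS hd'S, ← ha.map_mul hd'S hyS] at h2
    exact ha.injOn (S.mul_mem hyS hd'S) (S.mul_mem hd'S hyS) h2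
  have key : ∀ e ∈ S, a e ∈ Subgroup.normalizer (imgS Q a : Set Ω) → ∀ y ∈ Q, e * y * e⁻¹ ∈ Q := by
    intro e heS heN y hy
    have hyS := hQS hy
    have h1 : a e * a y * (a e)⁻¹ ∈ imgS Q a :=
      conj_mem_of_mem_normalizer heN (haQ.mem_imgS_of_mem hy)
    obtain ⟨z, hz, hza⟩ := haQ.mem_imgS.1 h1
    have h2 : a (e * y * e⁻¹) = a z := by
      rw [ha.map_mul (S.mul_mem heS hyS) (S.inv_mem heS), ha.map_mul heS hyS, ha.map_inv heS, hza]
    have h3 := ha.injOn (S.mul_mem (S.mul_mem heS hyS) (S.inv_mem heS)) (hQS hz) h2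
    rw [h3]; exact hz
  have hdN' : a d' ∈ Subgroup.normalizer (imgS Q a : Set Ω) := by rw [had', ← himg]; exact hdN
  have hd'N : d' ∈ Subgroup.normalizer (Q : Set Ω) := by
    apply mem_normalizer_of_forall_conj_mem
    · exact key d' hd'S hdN'
    · intro y hy
      have h1 := key d'⁻¹ (S.inv_mem hd'S)
        (by rw [ha.map_inv hd'S]; exact Subgroup.inv_mem _ hdN') y hy
      simpa using h1
  have hd'Q : d' ∉ Q := by
    intro hmem
    apply hdU
    rw [himg, ← had']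
    exact haQ.mem_imgS_of_mem hmem
  have hTk : (kSys F E K).StronglyClosed T := by
    rw [stronglyClosed_iff]
    exact ⟨hTS, fun R g hR hg x hx => h.mapsT hR (mor_of_subsystem hsub hg) hx⟩
  obtain ⟨α, hα⟩ := exists_conjAut hd'N
  have hαp := Cfsg.Agent.H89.conj_mem_pCore_of_centralizes hS hTk hQS hd'T hd'C hα
  have hαS : α ∈ autInducedBy S Q := (mem_autInducedBy_iff S Q α).2 ⟨d', hd'S, hα⟩
  refine ⟨Q, hconj, fun hle => ?_⟩
  have hinn : α ∈ Inn Q := hle ⟨hαS, hαp⟩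
  have hC : centralizerIn S Q ≤ Q := hP.2 Q hconj
  exact hd'Q (mem_of_induces_inner hQS hC hd'S hα hinn)

end Cfsg.Agent.H5.Oliver
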