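import Mathlib
import Cfsg.Prelude.Def_Characters
import Cfsg.Agent.H83.SkewParity

/-!
# Parity of `χ 1 - χ t` at an involution of a perfect group

For a character `χ` of a perfect finite group and an involution `t`, the determinant of `ρ t`
is `1`, so the `-1`-eigenspace of `ρ t` has even dimension and `χ 1 - χ t` is a multiple of `4`.
-/

set_option autoImplicit false

namespace Cfsg.Agent.H5.ParityInv

theorem parity_involution {G : Type*} [Group G] [Finite G] (hperf : commutator G = ⊤) {χ : G → ℂ}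
    (hχ : Cfsg.IsCharacter G χ) (t : G) (ht : t ^ 2 = 1) :
    ∃ a : ℕ, χ 1 - χ t = 4 * (a : ℂ) := by
  classical
  obtain ⟨n, ρ, rfl⟩ := hχ
  set M : Matrix (Fin n) (Fin n) ℂ := LinearMap.toMatrix' (ρ t) with hM
  have hMM : M * M = 1 := by
    rw [hM, ← LinearMap.toMatrix'_mul, ← map_mul, ← sq, ht, map_one, LinearMap.toMatrix'_one]
  have hdet : M.det = 1 := by
    let d : G →* ℂ := (LinearMap.det : ((Fin n → ℂ) →ₗ[ℂ] (Fin n → ℂ)) →* ℂ).comp ρ
    have hk : t ∈ (d.toHomUnits).ker :=
      Abelianization.commutator_subset_ker _ (hperf ▸ Subgroup.mem_top t)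
    have h1 : d.toHomUnits t = 1 := MonoidHom.mem_ker.mp hk
    have h2 : d t = 1 := by
      have h3 := congrArg Units.val h1
      simpa using h3
    rw [hM, LinearMap.det_toMatrix']
    exact h2
  set E : Matrix (Fin n) (Fin n) ℂ := (1 / 2 : ℂ) • (1 - M) with hE
  have hEE : E * E = E := by
    rw [hE, smul_mul_smul_comm, sub_mul, mul_sub, mul_sub, hMM, mul_one, one_mul, mul_one]
    rw [show (1 : Matrix (Fin n) (Fin n) ℂ) - M - (M - 1) = (2 : ℂ) • (1 - M) by
      rw [two_smul]; abel, smul_smul]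
    norm_num
  obtain ⟨m, P, Q, hPQ, hQP⟩ := Cfsg.Agent.H83.exists_idem_factorization E hEE
  have hMeq : M = 1 - ((2 : ℂ) • P) * Q := by
    rw [Matrix.smul_mul, hPQ, hE, smul_smul]
    norm_num
  have hdet2 : M.det = (-1) ^ m := by
    rw [hMeq, Matrix.det_one_sub_mul_comm, Matrix.mul_smul, hQP]
    rw [show (1 : Matrix (Fin m) (Fin m) ℂ) - (2 : ℂ) • 1 = (-1 : ℂ) • 1 by
      rw [two_smul, neg_one_smul]; abel]
    rw [Matrix.det_smul, Matrix.det_one, mul_one, Fintype.card_fin]
  have htr : E.trace = (m : ℂ) := by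
    rw [← hPQ, Matrix.trace_mul_comm, hQP, Matrix.trace_one, Fintype.card_fin]
  have hm : Even m := by
    have h1 : (-1 : ℂ) ^ m = 1 := by rw [← hdet2, hdet]
    exact (neg_one_pow_eq_one_iff_even (by norm_num)).mp h1
  obtain ⟨a, ha⟩ := hm
  refine ⟨a, ?_⟩
  have hc1 : ρ.character 1 = (1 : Matrix (Fin n) (Fin n) ℂ).trace := by
    rw [Representation.character, map_one, LinearMap.trace_eq_matrix_trace ℂ (Pi.basisFun ℂ (Fin n)),
      LinearMap.toMatrix_one]
  have hct : ρ.character t = M.trace := by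
    rw [Representation.character, hM, LinearMap.trace_eq_matrix_trace ℂ (Pi.basisFun ℂ (Fin n))]
    rfl
  have h2E : (1 : Matrix (Fin n) (Fin n) ℂ).trace - M.trace = 2 * E.trace := by
    rw [hE, Matrix.trace_smul, Matrix.trace_sub, smul_eq_mul]
    ring
  rw [hc1, hct, h2E, htr, ha]
  push_cast
  ring

end Cfsg.Agent.H5.ParityInv
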