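import Mathlib
import Cfsg.Prelude.Def_Characters
import Cfsg.Prelude.Def_Blocks
import Cfsg.Agent.H16.RepMult
import Cfsg.Agent.H4.IrrCount
import Cfsg.Agent.H81.Reg
import Cfsg.Agent.H5.ParityInv

/-!
# Order 5040, case B: character values at a rational element of order 7

Pieces `S0978-BDEG` (`caseB_degree`) and `S0978-BSIX` (`caseB_no_six`) of helper26's project.
-/

set_option autoImplicit false
set_option linter.style.haveILetI false

namespace Cfsg.Agent.H5.Ord5040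

open scoped ComplexConjugate

theorem irr_pow_eq {G : Type*} [Group G] (x : G)
    (hconj : ∀ i : ℕ, ¬ 7 ∣ i → ∃ c : G, c * x * c⁻¹ = x ^ i) (φ : Cfsg.IrrCharacter G)
    (i : ℕ) (hi : ¬ 7 ∣ i) : (φ : G → ℂ) (x ^ i) = (φ : G → ℂ) x := by
  obtain ⟨c, hc⟩ := hconj i hi
  rw [← hc]
  exact Cfsg.Agent.H81.irr_conj φ x c

/-- Multiplicities of the eigenvalues `1` and `ω` of a rational element of order `7`. -/
theorem rational7 {G : Type*} [Group G] [Finite G] (x : G) (hx : orderOf x = 7)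
    (hconj : ∀ i : ℕ, ¬ 7 ∣ i → ∃ c : G, c * x * c⁻¹ = x ^ i) (φ : Cfsg.IrrCharacter G) :
    ∃ m0 m1 : ℕ, (φ : G → ℂ) 1 + 6 * (φ : G → ℂ) x = 7 * (m0 : ℂ) ∧
      (φ : G → ℂ) 1 - (φ : G → ℂ) x = 7 * (m1 : ℂ) := by
  have hχ := Cfsg.Agent.H4.isCharacter_of_isIrrCharacter φ.2
  obtain ⟨ω, hω⟩ : ∃ ω : ℂ, IsPrimitiveRoot ω 7 :=
    ⟨_, Complex.isPrimitiveRoot_exp 7 (by norm_num)⟩
  have hx7 : x ^ 7 = 1 := by rw [← hx]; exact pow_orderOf_eq_one x
  obtain ⟨m, -, h2⟩ := Cfsg.Agent.H16.RepMult.exists_mult hχ x 7 (by norm_num) hx7 ω hω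
  refine ⟨m 0, m 1, ?_, ?_⟩
  · have h := h2 0 (by simp)
    have hs : ∑ j ∈ Finset.range 7, (φ : G → ℂ) (x ^ j) * (ω ^ (0 * j))⁻¹ =
        (φ : G → ℂ) 1 + 6 * (φ : G → ℂ) x := by
      rw [Finset.sum_range_succ']
      have h6 : ∀ j ∈ Finset.range 6, (φ : G → ℂ) (x ^ (j + 1)) * (ω ^ (0 * (j + 1)))⁻¹ =
          (φ : G → ℂ) x := by
        intro j hj
        have hj' := Finset.mem_range.mp hj
        rw [irr_pow_eq x hconj φ (j + 1) (by omega)]
        simp
      rw [Finset.sum_congr rfl h6]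
      simp
      ring
    rw [hs] at h
    rw [h]
    push_cast
    ring
  · have h := h2 1 (by simp)
    have h0 := Cfsg.Agent.H16.RepMult.sum_inv_pow 7 ω hω 1 (by norm_num)
    rw [if_neg one_ne_zero, Finset.sum_range_succ'] at h0
    simp only [mul_one, pow_zero, inv_one] at h0
    have hs : ∑ j ∈ Finset.range 7, (φ : G → ℂ) (x ^ j) * (ω ^ (1 * j))⁻¹ =
        (φ : G → ℂ) 1 - (φ : G → ℂ) x := by
      rw [Finset.sum_range_succ']
      have h6 : ∀ j ∈ Finset.range 6, (φ : G → ℂ) (x ^ (j + 1)) * (ω ^ (1 * (j + 1)))⁻¹ =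
          (φ : G → ℂ) x * (ω ^ (j + 1))⁻¹ := by
        intro j hj
        have hj' := Finset.mem_range.mp hj
        rw [irr_pow_eq x hconj φ (j + 1) (by omega), one_mul]
      rw [Finset.sum_congr rfl h6, ← Finset.mul_sum]
      have h0' : ∑ j ∈ Finset.range 6, (ω ^ (j + 1))⁻¹ = -1 := by
        linear_combination h0
      rw [h0']
      simp
      ring
    rw [hs] at h
    rw [h]
    push_cast
    ring

/-- `S0978-BDEG`. -/
theorem caseB_degree {G : Type*} [Group G] [Finite G] (x : G) (hx : orderOf x = 7)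
    (hconj : ∀ i : ℕ, ¬ 7 ∣ i → ∃ c : G, c * x * c⁻¹ = x ^ i)
    (hcent : Nat.card (Subgroup.centralizer ({x} : Set G)) = 7)
    (X : Finset (Cfsg.IrrCharacter G)) (hX : X.card = 6)
    (hXv : ∀ χ ∈ X, (χ : G → ℂ) x = 1 ∨ (χ : G → ℂ) x = -1) (ψ : Cfsg.IrrCharacter G) :
    Cfsg.charDegree (ψ : G → ℂ) % 7 = 0 ∨ Cfsg.charDegree (ψ : G → ℂ) % 7 = 1 ∨
      Cfsg.charDegree (ψ : G → ℂ) % 7 = 6 := by
  classical
  have key : ∀ φ : Cfsg.IrrCharacter G, ∃ c : ℤ, (φ : G → ℂ) x = (c : ℂ) ∧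
      ∃ m : ℕ, (Cfsg.charDegree (φ : G → ℂ) : ℤ) = c + 7 * (m : ℤ) := by
    intro φ
    obtain ⟨m0, m1, -, h1⟩ := rational7 x hx hconj φ
    have hd := (Cfsg.Agent.H81.irr_charDegree φ).1
    refine ⟨(Cfsg.charDegree (φ : G → ℂ) : ℤ) - 7 * (m1 : ℤ), ?_, m1, by ring⟩
    rw [hd] at h1
    push_cast
    linear_combination -h1
  choose c hc hd using key
  letI := Fintype.ofFinite G
  letI := Cfsg.Agent.H4.fintypeIrr G
  have hco := Cfsg.Agent.H4.column_orthogonality x x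
  have hcard : Nat.card {c : G // c * x * c⁻¹ = x} = 7 := by
    have := Cfsg.Agent.H4.card_conj_fiber x 1
    rw [hcent] at this
    simpa using this
  rw [hcard, Cfsg.Agent.H4.finsum_irr_eq_sum] at hco
  have hsum : ∑ φ : Cfsg.IrrCharacter G, (c φ) ^ 2 = 7 := by
    have h1 : ∀ φ : Cfsg.IrrCharacter G, (φ : G → ℂ) x * conj ((φ : G → ℂ) x) =
        (((c φ) ^ 2 : ℤ) : ℂ) := by
      intro φ
      rw [hc φ, map_intCast]
      push_cast
      ring
    rw [Finset.sum_congr rfl (fun φ _ => h1 φ)] at hco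
    exact_mod_cast hco
  have hXc : ∀ χ ∈ X, c χ = 1 ∨ c χ = -1 := by
    intro χ hχ
    rcases hXv χ hχ with h | h
    · left
      rw [hc χ] at h
      exact_mod_cast h
    · right
      rw [hc χ] at h
      exact_mod_cast h
  have hXsum : ∑ φ ∈ X, (c φ) ^ 2 = 6 := by
    have h1 : ∀ φ ∈ X, (c φ) ^ 2 = 1 := by
      intro φ hφ
      rcases hXc φ hφ with h | h <;> rw [h] <;> norm_num
    rw [Finset.sum_congr rfl h1]
    simp [hX]
  obtain ⟨m, hm⟩ := hd ψ
  have hcψ : c ψ = 1 ∨ c ψ = -1 ∨ c ψ = 0 := by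
    by_cases hψ : ψ ∈ X
    · rcases hXc ψ hψ with h | h
      · exact Or.inl h
      · exact Or.inr (Or.inl h)
    · have hle : ∑ φ ∈ insert ψ X, (c φ) ^ 2 ≤ ∑ φ : Cfsg.IrrCharacter G, (c φ) ^ 2 :=
        Finset.sum_le_sum_of_subset_of_nonneg (Finset.subset_univ _)
          (fun φ _ _ => sq_nonneg _)
      rw [Finset.sum_insert hψ, hXsum, hsum] at hle
      have h1 : c ψ ≤ 1 := by nlinarith
      have h2 : -1 ≤ c ψ := by nlinarith
      omega
  omega

/-- `S0978-BSIX`. -/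
theorem caseB_no_six {G : Type*} [Group G] [Finite G] (hperf : commutator G = ⊤) (x t : G)
    (hx : orderOf x = 7) (hconj : ∀ i : ℕ, ¬ 7 ∣ i → ∃ c : G, c * x * c⁻¹ = x ^ i)
    (ht : orderOf t = 2) (htx : t * x * t⁻¹ = x⁻¹) (ψ : Cfsg.IrrCharacter G)
    (hfaith : (ψ : G → ℂ) x ≠ (ψ : G → ℂ) 1) : Cfsg.charDegree (ψ : G → ℂ) ≠ 6 := by
  intro h6
  have hχ := Cfsg.Agent.H4.isCharacter_of_isIrrCharacter ψ.2
  have hd := (Cfsg.Agent.H81.irr_charDegree ψ).1
  rw [h6] at hd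
  have hx7 : x ^ 7 = 1 := by rw [← hx]; exact pow_orderOf_eq_one x
  have ht2 : t ^ 2 = 1 := by rw [← ht]; exact pow_orderOf_eq_one t
  obtain ⟨m0, m1, h0, h1⟩ := rational7 x hx hconj ψ
  rw [hd] at h0 h1
  push_cast at h0 h1
  -- m0 + 6 * m1 = 6
  have hm : m0 + 6 * m1 = 6 := by
    have : ((m0 + 6 * m1 : ℕ) : ℂ) = ((6 : ℕ) : ℂ) := by
      push_cast
      linear_combination (-1 / 7 : ℂ) * h0 + (-6 / 7 : ℂ) * h1
    exact_mod_cast this
  have hm1 : m1 = 0 ∨ m1 = 1 := by omega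
  rcases hm1 with hm1 | hm1
  · apply hfaith
    rw [hd]
    rw [hm1] at h1
    push_cast at h1
    linear_combination -h1
  · have hc : (ψ : G → ℂ) x = -1 := by
      rw [hm1] at h1
      push_cast at h1
      linear_combination -h1
    -- the sum over ⟨x⟩ vanishes
    have hs0 : ∑ i ∈ Finset.range 7, (ψ : G → ℂ) (x ^ i) = 0 := by
      rw [Finset.sum_range_succ']
      have h6' : ∀ j ∈ Finset.range 6, (ψ : G → ℂ) (x ^ (j + 1)) = -1 := by
        intro j hj
        have hj' := Finset.mem_range.mp hj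
        rw [irr_pow_eq x hconj ψ (j + 1) (by omega), hc]
      rw [Finset.sum_congr rfl h6', pow_zero, hd]
      simp
    have hs1 := Cfsg.Agent.H16.RepMult.sum_mul_pow_eq_zero hχ x 7 (by norm_num) hx7 hs0 t
    -- all `t * x ^ i` are conjugate to `t`
    have hxt : x * t = t * x⁻¹ := by
      have h := congrArg (fun g => g⁻¹ * t) htx
      simp only [mul_inv_rev, inv_inv, mul_assoc, inv_mul_cancel, mul_one] at h
      exact h.symm
    have hsemi : ∀ k : ℕ, x ^ k * t = t * (x⁻¹) ^ k := by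
      intro k
      induction k with
      | zero => simp
      | succ k ih =>
        rw [pow_succ, pow_succ, mul_assoc, hxt, ← mul_assoc, ih, mul_assoc]
    have hall : ∀ i : ℕ, (ψ : G → ℂ) (t * x ^ i) = (ψ : G → ℂ) t := by
      intro i
      have hconj' : x ^ (3 * i) * t * (x ^ (3 * i))⁻¹ = t * x ^ i := by
        rw [hsemi, mul_assoc]
        congr 1
        rw [inv_pow, ← mul_inv_rev, ← pow_add, inv_eq_iff_eq_inv, eq_inv_iff_mul_eq_one,
          ← pow_add]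
        rw [show 3 * i + 3 * i + i = 7 * i by ring, pow_mul, hx7, one_pow]
      rw [← hconj']
      exact Cfsg.Agent.H81.irr_conj ψ t (x ^ (3 * i))
    rw [Finset.sum_congr rfl (fun i _ => hall i)] at hs1
    have ht0 : (ψ : G → ℂ) t = 0 := by
      simpa using hs1
    obtain ⟨a, ha⟩ := Cfsg.Agent.H5.ParityInv.parity_involution hperf hχ t ht2
    rw [ht0, hd] at ha
    have : (6 : ℕ) = 4 * a := by
      have h' : ((6 : ℕ) : ℂ) = ((4 * a : ℕ) : ℂ) := by
        push_cast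
        linear_combination ha
      exact_mod_cast h'
    omega

end Cfsg.Agent.H5.Ord5040
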