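import Cfsg.Agent.H87.RedDefs

/-!
# The largest subsystem invariant under the automorphisms of an intermediate subgroup

For a fusion system `D` over `S''`, a fusion system `F` over `S` and a subgroup `S'` with
`S'' ≤ S'` whose `F`-automorphisms preserve `S''`, the maps of `D` all of whose conjugates under
the `F`-automorphisms of `S'` are maps of `D` form a fusion system `invSysOn D F S'` over `S''`,
which is invariant under these automorphisms (`invSysOn_autInvOn`).  This generalizes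
`Cfsg.Agent.H87.invSys` (the case `S'' = S' = S`).
-/

set_option autoImplicit false

namespace Cfsg.Agent.H5.Red

open Cfsg Cfsg.FusionSystem Cfsg.Agent.H86 Cfsg.Agent.H87

universe u

variable {Ω : Type u} [Group Ω] {S S' S'' : Subgroup Ω}

/-- All conjugates of `f` on `P` under the `F`-automorphisms of `S'` are maps of `D`. -/
def InvCOn (D : FusionSystem S'') (F : FusionSystem S) (S' : Subgroup Ω) (P : Subgroup Ω)
    (f : Ω → Ω) : Prop :=
  ∀ a, Mor F S' a → imgS S' a = S' → Mor D (imgS P a) (fun y => a (f (invOn S' a y)))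

/-- The hypotheses of the construction: `S'' ≤ S'` and the `F`-automorphisms of `S'` map `S''`
into itself. -/
structure InvHyp (D : FusionSystem S'') (F : FusionSystem S) (S' : Subgroup Ω) : Prop where
  le : S'' ≤ S'
  maps : ∀ a, Mor F S' a → imgS S' a = S' → ∀ x ∈ S'', a x ∈ S''

theorem invOn_apply_mem {F : FusionSystem S} {a : Ω → Ω} (ha : Mor F S' a) {x : Ω}
    (hx : x ∈ S') : invOn S' a (a x) = x := invOn_apply ha.injOn hx

theorem apply_mem_of_img {F : FusionSystem S} {a : Ω → Ω} (ha : Mor F S' a)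
    (haS : imgS S' a = S') {x : Ω} (hx : x ∈ S') : a x ∈ S' := by
  have := ha.mem_imgS_of_mem hx
  rwa [haS] at this

theorem InvCOn.congr {D : FusionSystem S''} {F : FusionSystem S} {P : Subgroup Ω} {f g : Ω → Ω}
    (hPS : P ≤ S') (hfg : ∀ x ∈ P, f x = g x) (h : InvCOn D F S' P f) : InvCOn D F S' P g := by
  intro a ha haS
  refine (h a ha haS).congr (fun y hy => ?_)
  obtain ⟨x, hx, rfl⟩ := (ha.restrict hPS).mem_imgS.1 hy
  show a (f (invOn S' a (a x))) = a (g (invOn S' a (a x)))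
  rw [invOn_apply_mem ha (hPS hx), hfg x hx]

theorem InvCOn.conj {D : FusionSystem S''} {F : FusionSystem S} (H : InvHyp D F S')
    {P : Subgroup Ω} {g : Ω} (hP : P ≤ S'') (hg : g ∈ S'') :
    InvCOn D F S' P (fun x => g * x * g⁻¹) := by
  intro a ha haS
  have hPS' : P ≤ S' := hP.trans H.le
  have himg : imgS P a ≤ S'' := by
    intro y hy
    obtain ⟨x, hx, rfl⟩ := (ha.restrict hPS').mem_imgS.1 hy
    exact H.maps a ha haS x (hP hx)
  refine (Mor.conj D himg (H.maps a ha haS g hg)).congr (fun y hy => ?_)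
  obtain ⟨x, hx, rfl⟩ := (ha.restrict hPS').mem_imgS.1 hy
  show a g * a x * (a g)⁻¹ = a (g * invOn S' a (a x) * g⁻¹)
  have hgS' : g ∈ S' := H.le hg
  rw [invOn_apply_mem ha (hPS' hx), ha.map_mul (S'.mul_mem hgS' (hPS' hx)) (S'.inv_mem hgS'),
    ha.map_mul hgS' (hPS' hx), ha.map_inv hgS']

theorem InvCOn.comp {D : FusionSystem S''} {F : FusionSystem S} {P R : Subgroup Ω}
    {f g : Ω → Ω} (hPS : P ≤ S') (hRS : R ≤ S') (hfR : ∀ x ∈ P, f x ∈ R)
    (h : InvCOn D F S' P f) (h' : InvCOn D F S' R g) : InvCOn D F S' P (g ∘ f) := by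
  intro a ha haS
  have A := h a ha haS
  have B := h' a ha haS
  have hmaps : ∀ y ∈ imgS P a, (fun y => a (f (invOn S' a y))) y ∈ imgS R a := by
    intro y hy
    obtain ⟨x, hx, rfl⟩ := (ha.restrict hPS).mem_imgS.1 hy
    show a (f (invOn S' a (a x))) ∈ imgS R a
    rw [invOn_apply_mem ha (hPS hx)]
    exact (ha.restrict hRS).mem_imgS_of_mem (hfR x hx)
  refine (A.comp B hmaps).congr (fun y hy => ?_)
  obtain ⟨x, hx, rfl⟩ := (ha.restrict hPS).mem_imgS.1 hy
  show a (g (invOn S' a (a (f (invOn S' a (a x)))))) = a (g (f (invOn S' a (a x))))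
  rw [invOn_apply_mem ha (hPS hx), invOn_apply_mem ha (hRS (hfR x hx))]

theorem InvCOn.inv {D : FusionSystem S''} {F : FusionSystem S} (H : InvHyp D F S')
    {P : Subgroup Ω} {f : Ω → Ω} (hf : Mor D P f) (h : InvCOn D F S' P f) :
    InvCOn D F S' (imgS P f) (invOn P f) := by
  have hPS : P ≤ S' := hf.le.trans H.le
  have hQS : imgS P f ≤ S' := hf.imgS_le.trans H.le
  intro a ha haS
  have A := h a ha haS
  have haP := ha.restrict hPS
  have haQ := ha.restrict hQS
  have hval : ∀ x ∈ P, (fun y => a (f (invOn S' a y))) (a x) = a (f x) := by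
    intro x hx
    show a (f (invOn S' a (a x))) = a (f x)
    rw [invOn_apply_mem ha (hPS hx)]
  have himg : imgS (imgS P a) (fun y => a (f (invOn S' a y))) = imgS (imgS P f) a := by
    ext z
    rw [A.mem_imgS, haQ.mem_imgS]
    constructor
    · rintro ⟨y, hy, rfl⟩
      obtain ⟨x, hx, rfl⟩ := haP.mem_imgS.1 hy
      exact ⟨f x, hf.mem_imgS_of_mem hx, (hval x hx).symm⟩
    · rintro ⟨w, hw, rfl⟩
      obtain ⟨x, hx, rfl⟩ := hf.mem_imgS.1 hw
      exact ⟨a x, haP.mem_imgS_of_mem hx, hval x hx⟩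
  have B := A.inv
  rw [himg] at B
  refine B.congr (fun z hz => ?_)
  obtain ⟨w, hw, rfl⟩ := haQ.mem_imgS.1 hz
  obtain ⟨x, hx, rfl⟩ := hf.mem_imgS.1 hw
  show invOn (imgS P a) (fun y => a (f (invOn S' a y))) (a (f x)) =
    a (invOn P f (invOn S' a (a (f x))))
  rw [invOn_apply_mem ha (hQS (hf.mem_imgS_of_mem hx)), invOn_apply hf.injOn hx, ← hval x hx,
    invOn_apply A.injOn (haP.mem_imgS_of_mem hx)]

/-- The largest subsystem of `D` invariant under the `F`-automorphisms of `S'`. -/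
def invSysOn (D : FusionSystem S'') (F : FusionSystem S) (S' : Subgroup Ω)
    (H : InvHyp D F S') : FusionSystem S'' :=
  Cfsg.Agent.H88.subSys D (InvCOn D F S')
    (fun _ _ _ hf hfg h => h.congr (hf.le.trans H.le) hfg)
    (fun _ _ hP hg => InvCOn.conj H hP hg)
    (fun _ _ _ _ hf hg hfR h h' => h.comp (hf.le.trans H.le) (hg.le.trans H.le) hfR h')
    (fun _ _ hf h => h.inv H hf)

theorem mor_invSysOn_iff {D : FusionSystem S''} {F : FusionSystem S} {H : InvHyp D F S'}
    {P : Subgroup Ω} {f : Ω → Ω} :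
    Mor (invSysOn D F S' H) P f ↔ Mor D P f ∧ InvCOn D F S' P f :=
  Cfsg.Agent.H88.mor_subSys_iff

theorem invSysOn_subsystem (D : FusionSystem S'') (F : FusionSystem S) (H : InvHyp D F S') :
    (invSysOn D F S' H).IsSubsystemOf D :=
  fun _ _ h => h.1

theorem mor_of_invSysOn {D : FusionSystem S''} {F : FusionSystem S} {H : InvHyp D F S'}
    {P : Subgroup Ω} {f : Ω → Ω} (h : Mor (invSysOn D F S' H) P f) : Mor D P f :=
  (mor_invSysOn_iff.1 h).1

theorem invSysOn_autInvOn (D : FusionSystem S'') (F : FusionSystem S) (H : InvHyp D F S') :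
    AutInvOn (invSysOn D F S' H) F S' := by
  intro P f a hPS'' hf ha haS
  obtain ⟨hfD, hfI⟩ := mor_invSysOn_iff.1 hf
  have hPS : P ≤ S' := hPS''.trans H.le
  have haP := ha.restrict hPS
  refine ⟨fun y => a (f (invOn S' a y)), ?_, fun x hx => ?_⟩
  · rw [mor_invSysOn_iff]
    refine ⟨hfI a ha haS, fun b hb hbS => ?_⟩
    have hamem : ∀ x ∈ S', a x ∈ S' := fun x hx => apply_mem_of_img ha haS hx
    have hba : Mor F S' (b ∘ a) := ha.comp hb hamem
    have hbaS : imgS S' (b ∘ a) = S' := by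
      rw [ha.imgS_comp hb hamem, haS, hbS]
    have C := hfI (b ∘ a) hba hbaS
    have himg : imgS P (b ∘ a) = imgS (imgS P a) b :=
      haP.imgS_comp hb (fun x hx => hamem x (hPS hx))
    rw [himg] at C
    have himgle : imgS P a ≤ S' := by
      intro y hy
      obtain ⟨x, hx, rfl⟩ := haP.mem_imgS.1 hy
      exact hamem x (hPS hx)
    refine C.congr (fun z hz => ?_)
    obtain ⟨y, hy, rfl⟩ := (hb.restrict himgle).mem_imgS.1 hz
    obtain ⟨x, hx, rfl⟩ := haP.mem_imgS.1 hy
    show (b ∘ a) (f (invOn S' (b ∘ a) (b (a x)))) =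
      b (a (f (invOn S' a (invOn S' b (b (a x))))))
    have e1 : invOn S' (b ∘ a) (b (a x)) = x := invOn_apply hba.injOn (hPS hx)
    rw [e1, invOn_apply_mem hb (hamem x (hPS hx)), invOn_apply_mem ha (hPS hx)]
    rfl
  · show a (f (invOn S' a (a x))) = a (f x)
    rw [invOn_apply_mem ha (hPS hx)]

end Cfsg.Agent.H5.Red
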