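import Cfsg.Agent.H87.RedDefs
import Cfsg.Agent.H5.RedInvOn

/-!
# `kSys F' E K'` is invariant under the automorphisms of `S'` in a bigger system `F`

Piece `S5202-KAUTINV` of helper87's project (generalizes `Cfsg.Agent.H16.Oliver.kSys_autInv`).
-/

set_option autoImplicit false

namespace Cfsg.Agent.H5.Red

open Cfsg Cfsg.FusionSystem Cfsg.Agent.H86 Cfsg.Agent.H87

universe u

variable {Ω : Type u} [Group Ω] {S T : Subgroup Ω}

theorem imgS_inf_of_closed {F : FusionSystem S} {T : Subgroup Ω} (hcl : F.StronglyClosed T)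
    {P : Subgroup Ω} {f : Ω → Ω} (hf : Mor F P f) : imgS P f ⊓ T = imgS (P ⊓ T) f := by
  have hfr := hf.restrict (inf_le_left : P ⊓ T ≤ P)
  have hmaps := (stronglyClosed_iff.1 hcl).2
  ext y
  constructor
  · rintro ⟨hy, hyT⟩
    obtain ⟨x, hx, rfl⟩ := hf.mem_imgS.1 hy
    have h1 : Mor F (imgS P f ⊓ T) (invOn P f) := hf.inv.restrict inf_le_left
    have h2 : invOn P f (f x) ∈ T := hmaps _ _ inf_le_right h1 _ ⟨hy, hyT⟩
    rw [invOn_apply hf.injOn hx] at h2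
    exact hfr.mem_imgS_of_mem ⟨hx, h2⟩
  · intro hy
    obtain ⟨x, hx, rfl⟩ := hfr.mem_imgS.1 hy
    exact ⟨hf.mem_imgS_of_mem hx.1, hmaps _ _ inf_le_right hfr _ hx⟩

/-- An `F`-automorphism `a` of `T` maps `E`-centric subgroups to `E`-centric subgroups, for `E`
invariant under `Aut_F(T)`. -/
theorem isCentric_imgS_aut_of_autInv {F : FusionSystem S} {T : Subgroup Ω} {E : FusionSystem T}
    (hEF : AutInv E F) {W₀ : Subgroup Ω} (hW₀ : E.IsCentric W₀)
    {a : Ω → Ω} (ha : Mor F T a) (haT : imgS T a = T) : E.IsCentric (imgS W₀ a) := by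
  have hW₀T : W₀ ≤ T := hW₀.1
  have hle : imgS W₀ a ≤ T := by
    have := ha.imgS_mono hW₀T
    rwa [haT] at this
  have ha' : Mor F T (invOn T a) := by
    have := ha.inv
    rwa [haT] at this
  have ha'T : imgS T (invOn T a) = T := by
    have := ha.imgS_inv
    rwa [haT] at this
  refine ⟨hle, fun Q hQ => ?_⟩
  obtain ⟨g, hg, rfl⟩ := Cfsg.Agent.H86.isConj_iff.1 hQ
  obtain ⟨χ, hχ, hχeq⟩ := hEF (imgS W₀ a) g (invOn T a) hle hg ha' ha'T
  have hback : imgS (imgS W₀ a) (invOn T a) = W₀ := by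
    ext y
    rw [(ha'.restrict hle).mem_imgS]
    constructor
    · rintro ⟨z, hz, rfl⟩
      obtain ⟨x, hx, rfl⟩ := (ha.restrict hW₀T).mem_imgS.1 hz
      rw [invOn_apply ha.injOn (hW₀T hx)]
      exact hx
    · intro hy
      exact ⟨a y, (ha.restrict hW₀T).mem_imgS_of_mem hy, invOn_apply ha.injOn (hW₀T hy)⟩
  rw [hback] at hχ
  have hc := hW₀.2 (imgS W₀ χ) (Cfsg.Agent.H86.isConj_iff.2 ⟨χ, hχ, rfl⟩)
  have hQT : imgS (imgS W₀ a) g ≤ T := hg.imgS_le
  have himg : ∀ y, y ∈ imgS W₀ χ ↔ ∃ q ∈ imgS (imgS W₀ a) g, invOn T a q = y := by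
    intro y
    rw [hχ.mem_imgS]
    constructor
    · rintro ⟨x, hx, rfl⟩
      have hz : a x ∈ imgS W₀ a := (ha.restrict hW₀T).mem_imgS_of_mem hx
      refine ⟨g (a x), hg.mem_imgS_of_mem hz, ?_⟩
      have := hχeq (a x) hz
      rw [invOn_apply ha.injOn (hW₀T hx)] at this
      exact this.symm
    · rintro ⟨q, hq, rfl⟩
      obtain ⟨z, hz, rfl⟩ := hg.mem_imgS.1 hq
      obtain ⟨x, hx, rfl⟩ := (ha.restrict hW₀T).mem_imgS.1 hz
      refine ⟨x, hx, ?_⟩
      have := hχeq (a x) hz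
      rw [invOn_apply ha.injOn (hW₀T hx)] at this
      exact this
  intro c hc0
  have hc1 : c ∈ T ⊓ Subgroup.centralizer ((imgS (imgS W₀ a) g : Subgroup Ω) : Set Ω) := hc0
  obtain ⟨hcT, hcC⟩ := Subgroup.mem_inf.1 hc1
  have hcT' : invOn T a c ∈ T := ha.invOn_mem (by rw [haT]; exact hcT)
  have h1 : invOn T a c ∈ centralizerIn T (imgS W₀ χ) := by
    show invOn T a c ∈ T ⊓ Subgroup.centralizer ((imgS W₀ χ : Subgroup Ω) : Set Ω)
    refine Subgroup.mem_inf.2 ⟨hcT', ?_⟩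
    rw [Subgroup.mem_centralizer_iff]
    intro y hy
    obtain ⟨q, hq, rfl⟩ := (himg y).1 hy
    have hqc : q * c = c * q := (Subgroup.mem_centralizer_iff.1 hcC) q hq
    rw [← ha'.map_mul (hQT hq) hcT, ← ha'.map_mul hcT (hQT hq), hqc]
  obtain ⟨q, hq, hqe⟩ := (himg _).1 (hc h1)
  have : q = c := ha'.injOn (hQT hq) hcT hqe
  rw [← this]
  exact hq

/-- `S5202-KAUTINV`. -/
theorem kSys_autInv_big [Finite S] {p : ℕ} [Fact p.Prime] (hS : IsPGroup p S)
    {F : FusionSystem S} {S' T : Subgroup Ω} {F' : FusionSystem S'} {E : FusionSystem T}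
    {K' : Subgroup (MulAut T)} (hcfg : KCfg p F' E K') (hS'S : S' ≤ S)
    (hF'sub : F'.IsSubsystemOf F) (hF'F : AutInv F' F) (hcl : F.StronglyClosed T)
    (hEF : AutInv E F)
    (hK'n : ∀ a ∈ F.autGroup T, ∀ k ∈ K', a * k * a⁻¹ ∈ K') :
    AutInv (kSys F' E K') F := by
  have hTS' : T ≤ S' := hcfg.leTS
  have H : InvHyp (kSys F' E K') F S' :=
    ⟨le_rfl, fun a ha haS x hx => apply_mem_of_img ha haS hx⟩
  have h0 : ∀ U g, GenK F' E K' U g → Mor (invSysOn (kSys F' E K') F S' H) U g := by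
    intro U g hgen
    obtain ⟨hgF, hcen, hke⟩ := hgen
    have hUS : U ≤ S' := hgF.le
    rw [mor_invSysOn_iff]
    refine ⟨mor_kSys_of_gen ⟨hgF, hcen, hke⟩, fun a ha haS => ?_⟩
    apply mor_kSys_of_gen
    have haU : Mor F U a := ha.restrict hUS
    have hm : Mor F' (imgS U a) (fun y => a (g (invOn S' a y))) := by
      obtain ⟨χ, hχ, hχeq⟩ := hF'F U g a hUS hgF ha haS
      refine hχ.congr (fun y hy => ?_)
      obtain ⟨x, hx, rfl⟩ := haU.mem_imgS.1 hy
      show χ (a x) = a (g (invOn S' a (a x)))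
      rw [invOn_apply_mem ha (hUS hx), hχeq x hx]
    have haT : Mor F T a := ha.restrict hTS'
    have haTimg : imgS T a = T := Cfsg.Agent.H88.imgS_stronglyClosed hcl ha hTS'
    have himgT : imgS U a ⊓ T = imgS (U ⊓ T) a := imgS_inf_of_closed hcl haU
    refine ⟨hm, ?_, ?_⟩
    · rw [himgT]
      have hUT : U ⊓ T ≤ T := inf_le_right
      have h1 := isCentric_imgS_aut_of_autInv hEF hcen haT haTimg
      exact h1
    · rw [himgT]
      obtain ⟨k, hk, g₀, hg₀, hgk⟩ := hke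
      obtain ⟨χ, hχ, hχeq⟩ := hEF (U ⊓ T) g₀ a inf_le_right hg₀ haT haTimg
      refine ⟨mkAut haT haTimg * k * (mkAut haT haTimg)⁻¹,
        hK'n _ (mkAut_mem haT haTimg) k hk, χ, hχ, fun y hy => ?_⟩
      obtain ⟨x, hx, rfl⟩ := (haU.restrict inf_le_left).mem_imgS.1 hy
      have hxS : x ∈ S' := hUS hx.1
      have hg₀x : g₀ x ∈ T := hg₀.mem hx
      have hag₀ : a (g₀ x) ∈ T := by
        have := haT.mem_imgS_of_mem hg₀x
        rwa [haTimg] at this
      have h3 : autFun T (mkAut haT haTimg)⁻¹ (a (g₀ x)) = g₀ x := by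
        have := autFun_inv_apply (mkAut haT haTimg) hg₀x
        rwa [autFun_mkAut haT haTimg hg₀x] at this
      show a (g (invOn S' a (a x))) = _
      rw [invOn_apply_mem ha hxS, hχeq x hx, hgk x hx, mul_assoc, autFun_mul _ _ hag₀,
        autFun_mul _ _ hag₀, h3, autFun_mkAut haT haTimg (autFun_mem k hg₀x)]
  intro P f a hPS hf ha haS
  have h1 : Mor (invSysOn (kSys F' E K') F S' H) P f := kSys_le h0 hf
  obtain ⟨χ, hχ, hχeq⟩ := invSysOn_autInvOn (kSys F' E K') F H P f a hPS h1 ha haS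
  exact ⟨χ, mor_of_invSysOn hχ, hχeq⟩

end Cfsg.Agent.H5.Red
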