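import Cfsg.Agent.H87.RedDefs

/-!
# A saturated invariant subsystem over a subgroup containing its centralizer is normal

Piece `S5202-NORFINAL` of helper87's project.
-/

set_option autoImplicit false

namespace Cfsg.Agent.H5.Red

open Cfsg Cfsg.FusionSystem Cfsg.Agent.H86 Cfsg.Agent.H87

universe u

variable {Ω : Type u} [Group Ω] {S T : Subgroup Ω}

theorem ext_cond_aux {F : FusionSystem S} {S₀ : Subgroup Ω} {D : FusionSystem S₀}
    (hDF : D.IsSubsystemOf F) (hS₀S : S₀ ≤ S) (P : Subgroup Ω) (hP : P = S₀)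
    (α : MulAut S₀) (hα : α ∈ D.autGroup S₀) :
    ∃ β ∈ F.autGroup P,
      (∀ (x : S₀) (hx : (x : Ω) ∈ P), ((β ⟨x, hx⟩ : P) : Ω) = ((α x : S₀) : Ω)) ∧
      ∀ c : P, (c : Ω) ∈ centralizerIn S S₀ →
        (c : Ω)⁻¹ * ((β c : P) : Ω) ∈ S₀ ⊓ Subgroup.centralizer (S₀ : Set Ω) := by
  subst hP
  refine ⟨α, ?_, fun x hx => rfl, fun c hc => ?_⟩
  · rw [mem_autGroup_iff hS₀S]
    exact Cfsg.Agent.H87.mor_of_subsystem hDF ((mem_autGroup_iff le_rfl α).1 hα)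
  · have hc' := (mem_centralizerIn_iff.1 hc).2
    refine Subgroup.mem_inf.2 ⟨P.mul_mem (P.inv_mem c.2) (α c).2, ?_⟩
    rw [Subgroup.mem_centralizer_iff]
    intro y hy
    obtain ⟨y', hy'⟩ := α.surjective ⟨y, hy⟩
    have h1 : (c : Ω) * (y' : Ω) = (y' : Ω) * (c : Ω) := (hc' y' y'.2).symm
    have h2 : α c * α y' = α y' * α c := by
      rw [← map_mul, ← map_mul]
      congr 1
      exact Subtype.ext h1
    have h3 : ((α c : P) : Ω) * y = y * ((α c : P) : Ω) := by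
      have := congrArg Subtype.val h2
      rw [hy'] at this
      exact this
    have h4 : (c : Ω) * y = y * (c : Ω) := (hc' y hy).symm
    have h5 : (c : Ω)⁻¹ * y = y * (c : Ω)⁻¹ := by
      rw [eq_mul_inv_iff_mul_eq, mul_assoc, ← h4, ← mul_assoc, inv_mul_cancel, one_mul]
    calc y * ((c : Ω)⁻¹ * ((α c : P) : Ω)) = (y * (c : Ω)⁻¹) * ((α c : P) : Ω) := by rw [mul_assoc]
      _ = (c : Ω)⁻¹ * (y * ((α c : P) : Ω)) := by rw [← h5, mul_assoc]
      _ = (c : Ω)⁻¹ * ((α c : P) : Ω) * y := by rw [← h3, mul_assoc]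

/-- `S5202-NORFINAL`. -/
theorem isNormalIn_of_centralizer_le {p : ℕ} {F : FusionSystem S} {S₀ : Subgroup Ω}
    {D : FusionSystem S₀} (hF : F.IsSaturated p) (hD : D.IsSaturated p)
    (hinv : D.IsInvariantIn F) (hC : centralizerIn S S₀ ≤ S₀) : D.IsNormalIn F p := by
  refine ⟨⟨hD, hF, hinv⟩, fun α hα => ?_⟩
  have hP : S₀ ⊔ centralizerIn S S₀ = S₀ := sup_eq_left.2 hC
  obtain ⟨β, hβ, h1, h2⟩ :=
    ext_cond_aux hinv.1 hinv.2.1.1 (S₀ ⊔ centralizerIn S S₀) hP α hα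
  exact ⟨β, hβ, fun x => h1 x _, h2⟩

end Cfsg.Agent.H5.Red
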