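import Cfsg.Agent.H87.RedDefs
import Cfsg.Agent.H5.RedInvOn

/-!
# A saturated subsystem of `p`-power index is invariant under automorphisms

Piece `S5202-PAUTINV` of helper87's project.
-/

set_option autoImplicit false

namespace Cfsg.Agent.H5.Red

open Cfsg Cfsg.FusionSystem Cfsg.Agent.H86 Cfsg.Agent.H87

universe u

variable {Ω : Type u} [Group Ω] {S T : Subgroup Ω}

/-- `S5202-PAUTINV`. -/
theorem pPow_autInvOn [Finite S] {p : ℕ} [Fact p.Prime] (hS : IsPGroup p S)
    {F : FusionSystem S} {S' S'' : Subgroup Ω} {F' : FusionSystem S'} {F'' : FusionSystem S''}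
    (hS'S : S' ≤ S) (hS''S' : S'' ≤ S') (hF'sub : F'.IsSubsystemOf F) (hF'F : AutInv F' F)
    (hcl : F.StronglyClosed S'')
    (hF'' : F''.IsSaturated p) (hidx : F''.HasPPowerIndexIn F' p) : AutInvOn F'' F S' := by
  have H : InvHyp F'' F S' :=
    ⟨hS''S', fun a ha _ x hx =>
      (stronglyClosed_iff.1 hcl).2 S'' a le_rfl (ha.restrict hS''S') x hx⟩
  haveI : Finite S'' := finite_of_le (S := S) hcl.1
  have hS''p : IsPGroup p S'' := hS.to_le hcl.1
  -- the invariant part has `p`-power index in `F'`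
  have hG : (invSysOn F'' F S' H).HasPPowerIndexIn F' p := by
    refine ⟨fun P φ h => hidx.1 P (invSysOn_subsystem F'' F H P h), hidx.2.1, fun P hP => ?_⟩
    rw [Subgroup.map_le_iff_le_comap]
    unfold pResidual
    rw [Subgroup.closure_le]
    intro β' hβ'
    have hcop : Nat.Coprime (orderOf β') p := hβ'
    show ((β' : MulAut P)) ∈ (invSysOn F'' F S' H).autGroup P
    have hPS' : P ≤ S' := hP.trans hS''S'
    have hβF'' : (β' : MulAut P) ∈ F''.autGroup P :=
      hidx.2.2 P hP (Subgroup.mem_map_of_mem _ (Subgroup.subset_closure hβ'))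
    have hβmor'' : Mor F'' P (autFun P (β' : MulAut P)) := (mem_autGroup_iff hP _).1 hβF''
    have hβmor' : Mor F' P (autFun P (β' : MulAut P)) := (mem_autGroup_iff hPS' _).1 β'.2
    rw [mem_autGroup_iff hP, mor_invSysOn_iff]
    refine ⟨hβmor'', fun a ha haS => ?_⟩
    have haP : Mor F P a := ha.restrict hPS'
    have hP'S'' : imgS P a ≤ S'' := by
      intro y hy
      obtain ⟨x, hx, rfl⟩ := haP.mem_imgS.1 hy
      exact H.maps a ha haS x (hP hx)
    haveI : Finite (imgS P a) := finite_of_le (S := S) (hP'S''.trans hcl.1)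
    obtain ⟨χ, hχ, hχeq⟩ := hF'F P (autFun P (β' : MulAut P)) a hPS' hβmor' ha haS
    have hχmaps : ∀ y ∈ imgS P a, χ y ∈ imgS P a := by
      intro y hy
      obtain ⟨x, hx, rfl⟩ := haP.mem_imgS.1 hy
      rw [hχeq x hx]
      exact haP.mem_imgS_of_mem (autFun_mem _ hx)
    have himg : imgS (imgS P a) χ = imgS P a := imgS_eq_of_maps hχ hχmaps
    -- the conjugate automorphism
    obtain ⟨γ, hγdef⟩ : ∃ γ : MulAut (imgS P a), γ = mkAut hχ himg := ⟨_, rfl⟩
    have hγmem : γ ∈ F'.autGroup (imgS P a) := by rw [hγdef]; exact mkAut_mem hχ himg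
    have hγχ : ∀ y ∈ imgS P a, autFun (imgS P a) γ y = χ y := by
      intro y hy
      rw [hγdef]
      exact autFun_mkAut hχ himg hy
    have hpow : ∀ n : ℕ, ∀ x ∈ P, autFun (imgS P a) (γ ^ n) (a x) =
        a (autFun P ((β' : MulAut P) ^ n) x) := by
      intro n
      induction n with
      | zero =>
        intro x hx
        rw [pow_zero, pow_zero, autFun_one (haP.mem_imgS_of_mem hx), autFun_one hx]
      | succ n ih =>
        intro x hx
        rw [pow_succ, pow_succ, autFun_mul _ _ (haP.mem_imgS_of_mem hx),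
          hγχ _ (haP.mem_imgS_of_mem hx), hχeq x hx, ih _ (autFun_mem _ hx),
          autFun_mul _ _ hx]
    have hγord : orderOf γ ∣ orderOf (β' : MulAut P) := by
      apply orderOf_dvd_of_pow_eq_one
      apply autFun_ext
      intro y hy
      obtain ⟨x, hx, rfl⟩ := haP.mem_imgS.1 hy
      rw [hpow _ x hx, pow_orderOf_eq_one, autFun_one hx, autFun_one (haP.mem_imgS_of_mem hx)]
    have hγcop : Nat.Coprime (orderOf (⟨γ, hγmem⟩ : F'.autGroup (imgS P a))) p := by
      have hcop' : Nat.Coprime (orderOf (β' : MulAut P)) p := by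
        rw [Subgroup.orderOf_coe]
        exact hcop
      rw [Subgroup.orderOf_mk]
      exact Nat.Coprime.coprime_dvd_left hγord hcop'
    have hγres : (⟨γ, hγmem⟩ : F'.autGroup (imgS P a)) ∈ pResidual p (F'.autGroup (imgS P a)) :=
      Subgroup.subset_closure (show (⟨γ, hγmem⟩ : F'.autGroup (imgS P a)) ∈
        {g : F'.autGroup (imgS P a) | Nat.Coprime (orderOf g) p} from hγcop)
    have hγF'' : γ ∈ F''.autGroup (imgS P a) :=
      hidx.2.2 (imgS P a) hP'S'' (Subgroup.mem_map_of_mem _ hγres)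
    have hγmor : Mor F'' (imgS P a) (autFun (imgS P a) γ) := (mem_autGroup_iff hP'S'' _).1 hγF''
    refine hγmor.congr (fun y hy => ?_)
    obtain ⟨x, hx, rfl⟩ := haP.mem_imgS.1 hy
    show autFun (imgS P a) γ (a x) = a (autFun P (β' : MulAut P) (invOn S' a (a x)))
    rw [hγχ _ (haP.mem_imgS_of_mem hx), hχeq x hx, invOn_apply_mem ha (hPS' hx)]
  have hsub : F''.IsSubsystemOf (invSysOn F'' F S' H) :=
    Cfsg.Agent.H88.subsystem_of_pPowerIndex hS''p F'' hF'' hidx.1 hS''S' (invSysOn F'' F S' H)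
      le_rfl hG
  intro P f a hP hf ha haS
  have h1 : Mor (invSysOn F'' F S' H) P f := mor_of_subsystem hsub hf
  obtain ⟨χ, hχ, hχeq⟩ := invSysOn_autInvOn F'' F H P f a hP h1 ha haS
  exact ⟨χ, mor_of_invSysOn hχ, hχeq⟩

end Cfsg.Agent.H5.Red
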