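import Cfsg.Agent.H87.RedDefs

/-!
# Transitivity of the Frattini condition and of automorphism invariance

Pieces `S5202-FRATTRANS` (`frat_trans`) and `S5202-AUTTRANS` (`autInv_trans`) of helper87's
project.
-/

set_option autoImplicit false

namespace Cfsg.Agent.H5.Red

open Cfsg Cfsg.FusionSystem Cfsg.Agent.H86 Cfsg.Agent.H87

universe u

variable {Ω : Type u} [Group Ω] {S T : Subgroup Ω}

/-- `S5202-FRATTRANS`. -/
theorem frat_trans [Finite S] {S' S'' : Subgroup Ω} {F : FusionSystem S} {F' : FusionSystem S'}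
    {F'' : FusionSystem S''} (hS'S : S' ≤ S) (hS''S' : S'' ≤ S') (hcl : F.StronglyClosed S'')
    (hF'sub : F'.IsSubsystemOf F) (h1 : Frat F' F) (h2 : Frat F'' F') : Frat F'' F := by
  intro P f hP hf
  obtain ⟨α, f₀, hα, -, hf₀, hff₀⟩ := h1 P f (hP.trans hS''S') hf
  obtain ⟨b, f₁, hb, hbimg, hf₁, hf₀f₁⟩ := h2 P f₀ hP hf₀
  have hbF : Mor F S'' b := mor_of_subsystem hF'sub hb
  have hbS'' : ∀ x ∈ S'', b x ∈ S'' := fun x hx => by
    rw [← hbimg]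
    exact hb.mem_imgS_of_mem hx
  have hcomp : Mor F S'' (α ∘ b) := hbF.comp hα (fun x hx => hS''S' (hbS'' x hx))
  haveI : Finite S'' := finite_of_le (S := S) hcl.1
  refine ⟨α ∘ b, f₁, hcomp, ?_, hf₁, fun x hx => ?_⟩
  · refine imgS_eq_of_maps hcomp (fun x hx => ?_)
    exact (stronglyClosed_iff.1 hcl).2 S'' α le_rfl (hα.restrict hS''S') (b x) (hbS'' x hx)
  · rw [hff₀ x hx, hf₀f₁ x hx]
    rfl

/-- `S5202-AUTTRANS`. -/
theorem autInv_trans [Finite S] {S' S'' : Subgroup Ω} {F : FusionSystem S} {F' : FusionSystem S'}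
    {F'' : FusionSystem S''} (hS'S : S' ≤ S) (hS''S' : S'' ≤ S') (hcl : F.StronglyClosed S'')
    (hF'sub : F'.IsSubsystemOf F) (hfr : Frat F' F) (h1 : AutInv F'' F')
    (h2 : AutInvOn F'' F S') : AutInv F'' F := by
  intro P f a hP hf ha haimg
  haveI : Finite S'' := finite_of_le (S := S) hcl.1
  obtain ⟨α, δ, hα, hαimg, hδ, haαδ⟩ := hfr S'' a hS''S' ha
  have hαS'' : Mor F S'' α := hα.restrict hS''S'
  have hαimg'' : imgS S'' α = S'' := Cfsg.Agent.H88.imgS_stronglyClosed hcl hα hS''S'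
  -- `δ` maps `S''` into `S''`
  have hδS'' : ∀ x ∈ S'', δ x ∈ S'' := by
    intro x hx
    have h1' : a x ∈ S'' := by
      rw [← haimg]
      exact ha.mem_imgS_of_mem hx
    rw [haαδ x hx, ← hαimg''] at h1'
    obtain ⟨y, hy, hyx⟩ := hαS''.mem_imgS.1 h1'
    have hδx : δ x ∈ S' := hδ.mem hx
    have := hα.injOn (hS''S' hy) hδx hyx
    rw [← this]
    exact hy
  have hδimg : imgS S'' δ = S'' := imgS_eq_of_maps hδ hδS''
  obtain ⟨χ₁, hχ₁, hχ₁eq⟩ := h1 P f δ hP hf hδ hδimg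
  have hδP : Mor F' P δ := hδ.restrict hP
  have himgle : imgS P δ ≤ S'' := by
    intro y hy
    obtain ⟨x, hx, rfl⟩ := hδP.mem_imgS.1 hy
    exact hδS'' x (hP hx)
  obtain ⟨χ₂, hχ₂, hχ₂eq⟩ := h2 (imgS P δ) χ₁ α himgle hχ₁ hα hαimg
  have himgeq : imgS (imgS P δ) α = imgS P a := by
    ext y
    rw [(hα.restrict (himgle.trans hS''S')).mem_imgS, (ha.restrict hP).mem_imgS]
    constructor
    · rintro ⟨z, hz, rfl⟩
      obtain ⟨x, hx, rfl⟩ := hδP.mem_imgS.1 hz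
      exact ⟨x, hx, haαδ x (hP hx)⟩
    · rintro ⟨x, hx, rfl⟩
      exact ⟨δ x, hδP.mem_imgS_of_mem hx, (haαδ x (hP hx)).symm⟩
  rw [himgeq] at hχ₂
  refine ⟨χ₂, hχ₂, fun x hx => ?_⟩
  rw [haαδ x (hP hx), hχ₂eq (δ x) (hδP.mem_imgS_of_mem hx), hχ₁eq x hx,
    haαδ (f x) (hf.mem hx)]

end Cfsg.Agent.H5.Red
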