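import Mathlib
import Cfsg.Prelude.Def_Blocks
import Cfsg.Prelude.Def_BlockRank
import Cfsg.Agent.H84.ThirdMain
import Cfsg.Agent.H4.Irr
import Cfsg.Agent.H4.Chars
import Cfsg.Agent.H4.IrrCount
import Cfsg.Agent.H4.MaxDeg
import Cfsg.Agent.H20.LocalRing

/-!
# helper5: restriction of the `p`-regular indicator (principal block covering for subgroups)

* `regSum_res` : for `H ≤ G` and `η : H → ℂ`,
  `regSum p η = |H|/|G| * ∑ χ, regSum p χ * conj ⟨χ_H, η⟩`.
* `exists_principal_over` : every member of the principal block of a subgroup `H` is a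
  constituent of the restriction of a member of the principal block of `G`.
* `exists_principal_over_pPrime` : if moreover `p ∤ [G:H]` and `p ∤ η(1)`, the member of the
  principal block of `G` can be chosen of degree prime to `p`.
-/

set_option autoImplicit false
set_option linter.unusedSectionVars false

namespace Cfsg.Agent.H5.RegRes

open Cfsg Cfsg.Agent.H4 Cfsg.Agent.H20 Cfsg.Agent.H84
open scoped ComplexConjugate

universe u

variable {G : Type u} [Group G]

theorem orderOf_conj' (h g : G) : orderOf (h * g * h⁻¹) = orderOf g := by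
  rw [← MulAut.conj_apply]
  exact MulEquiv.orderOf_eq _ _

theorem isClassFunction_preg (p : ℕ) :
    IsClassFunction G (pRegularPart p (fun _ : G => (1 : ℂ))) := by
  classical
  intro g h
  rw [Cfsg.Agent.H81.pRegularPart_apply, Cfsg.Agent.H81.pRegularPart_apply, orderOf_conj']

theorem regSum_res [Fintype G] (p : ℕ) (H : Subgroup G) [Fintype H] (η : H → ℂ) :
    regSum p η = (Nat.card H : ℂ) / (Nat.card G : ℂ) *
      ∑ᶠ χ : IrrCharacter G, regSum p (χ : G → ℂ) *
        conj (classInner (fun h : H => (χ : G → ℂ) h) η) := by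
  classical
  letI : Fintype (IrrCharacter G) := fintypeIrr G
  set f : G → ℂ := pRegularPart p (fun _ : G => (1 : ℂ)) with hf
  have hcf : IsClassFunction G f := isClassFunction_preg p
  have hexp := classFunction_eq_finsum hcf
  have hval : ∀ g : G, f g = if p ∣ orderOf g then 0 else 1 := fun g =>
    Cfsg.Agent.H81.pRegularPart_apply p _ g
  have hreal : ∀ g, conj (f g) = f g := by
    intro g
    rw [hval]
    split_ifs <;> simp
  have hcoef : ∀ χ : IrrCharacter G,
      conj (classInner f χ.1) = regSum p χ.1 / (Nat.card G : ℂ) := by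
    intro χ
    rw [classInner_conj_symm]
    unfold classInner regSum
    rw [div_eq_inv_mul]
    congr 1
    refine Finset.sum_congr rfl fun g _ => ?_
    rw [hreal, hval, Cfsg.Agent.H81.pRegularPart_apply]
    split_ifs <;> simp
  have hG : (Nat.card G : ℂ) ≠ 0 := by
    have : 0 < Nat.card G := Nat.card_pos
    exact_mod_cast this.ne'
  have hH : (Nat.card H : ℂ) ≠ 0 := by
    have : 0 < Nat.card H := Nat.card_pos
    exact_mod_cast this.ne'
  -- pointwise expansion of `f`
  have hpt : ∀ g : G, f g = ∑ χ : IrrCharacter G,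
      regSum p χ.1 / (Nat.card G : ℂ) * conj (χ.1 g) := by
    intro g
    have h1 : f g = conj (f g) := (hreal g).symm
    rw [h1]
    have h2 := congrFun hexp g
    rw [finsum_irr_eq_sum] at h2
    rw [h2, Finset.sum_apply, map_sum]
    refine Finset.sum_congr rfl fun χ _ => ?_
    rw [Pi.smul_apply, smul_eq_mul, map_mul, hcoef]
  -- the left side
  have hL : regSum p η = ∑ h : H, f (h : G) * η h := by
    unfold regSum
    refine Finset.sum_congr rfl fun h _ => ?_
    rw [hval, Cfsg.Agent.H81.pRegularPart_apply, Subgroup.orderOf_coe]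
    split_ifs <;> simp
  rw [hL, finsum_irr_eq_sum, Finset.mul_sum]
  have h3 : ∀ h : H, f (h : G) * η h = ∑ χ : IrrCharacter G,
      regSum p χ.1 / (Nat.card G : ℂ) * conj (χ.1 h) * η h := by
    intro h
    rw [hpt, Finset.sum_mul]
  rw [Finset.sum_congr rfl (fun h _ => h3 h), Finset.sum_comm]
  refine Finset.sum_congr rfl fun χ _ => ?_
  unfold classInner
  rw [map_mul, map_inv₀, Complex.conj_natCast, map_sum, Finset.mul_sum, Finset.mul_sum,
    Finset.mul_sum]
  refine Finset.sum_congr rfl fun h _ => ?_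
  rw [map_mul, Complex.conj_conj]
  field_simp

/-- A character `η` of a subgroup `H` of index prime to `p`, of degree prime to `p`, whose
`p`-regular sum divided by its degree is congruent to a number prime to `p`, is a constituent of
the restriction of a member of the principal block of `G` of degree prime to `p`. -/
theorem exists_principal_over_pPrime [Fintype G] {p : ℕ} [Fact p.Prime] {M : Ideal AlgInt}
    (hM : IsPModular p M) (H : Subgroup G) [Fintype H] (hidx : ¬ p ∣ H.index)
    (η : IrrCharacter H) (d r : ℕ) (hd : η.1 1 = d) (hpd : ¬ p ∣ d) (hr : ¬ p ∣ r)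
    (hη : MemLocalIdeal M ((r : ℂ) - regSum p η.1 / η.1 1)) :
    ∃ χ : IrrCharacter G, χ ∈ principalBlock M G ∧ ¬ p ∣ charDegree χ.1 ∧
      classInner (fun h : H => χ.1 h) η.1 ≠ 0 := by
  classical
  letI : Fintype (IrrCharacter G) := fintypeIrr G
  have hp : p.Prime := Fact.out
  have hMp := isPrime_of_isPModular hM
  by_contra hcon
  push Not at hcon
  have key := regSum_res p H η.1
  rw [finsum_irr_eq_sum] at key
  have hterm : ∀ χ : IrrCharacter G, MemLocalIdeal M (regSum p (χ : G → ℂ) *
      conj (classInner (fun h : H => (χ : G → ℂ) h) η.1)) := by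
    intro χ
    by_cases hχ : χ ∈ principalBlock M G
    · by_cases hm : classInner (fun h : H => (χ : G → ℂ) h) η.1 = 0
      · rw [hm, map_zero, mul_zero]; exact memLocalIdeal_zero hMp
      · have hpdvd : p ∣ charDegree χ.1 := by
          by_contra hp'
          exact hm (hcon χ hχ hp')
        obtain ⟨n, hn0, hn⟩ := irr_one_eq_natCast χ
        rw [charDegree_of_natCast hn] at hpdvd
        have h1 : MemLocalIdeal M (n : ℂ) := (memLocalIdeal_natCast_iff hM n).mpr hpdvd
        have h2 : MemLocalRing M (regSum p χ.1 / χ.1 1) := by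
          have h3 := MemLocalIdeal.memLocalRing (regSum_principal hM χ hχ)
          have h4 := memLocalRing_sub hMp
            (memLocalRing_natCast hMp (Nat.card {g : G // ¬ p ∣ orderOf g})) h3
          rwa [sub_sub_cancel] at h4
        obtain ⟨k, hk⟩ := classInner_isCharacter_nat
          (isCharacter_restrict H (isCharacter_of_isIrrCharacter χ.2))
          (isCharacter_of_isIrrCharacter η.2)
        have h5 : MemLocalRing M (conj (classInner (fun h : H => (χ : G → ℂ) h) η.1)) := by
          rw [hk, Complex.conj_natCast]; exact memLocalRing_natCast hMp k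
        have hne : χ.1 1 ≠ 0 := irr_one_ne_zero χ
        have h6 : regSum p χ.1 = (n : ℂ) * (regSum p χ.1 / χ.1 1) := by
          rw [← hn]; field_simp
        rw [h6]
        exact memLocalIdeal_mul_right hMp (memLocalIdeal_mul_right hMp h1 h2) h5
    · rw [regSum_eq_zero_of_not_mem hM χ hχ, zero_mul]; exact memLocalIdeal_zero hMp
  have hS := memLocalIdeal_sum hMp Finset.univ _ (fun χ _ => hterm χ)
  have hG : (Nat.card G : ℂ) ≠ 0 := by
    have : 0 < Nat.card G := Nat.card_pos
    exact_mod_cast this.ne'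
  have hH : (Nat.card H : ℂ) ≠ 0 := by
    have : 0 < Nat.card H := Nat.card_pos
    exact_mod_cast this.ne'
  have hcard : (Nat.card G : ℂ) = (Nat.card H : ℂ) * (H.index : ℂ) := by
    have := Subgroup.card_mul_index H
    exact_mod_cast this.symm
  have hd0 : (d : ℂ) ≠ 0 := by
    rw [← hd]; exact irr_one_ne_zero η
  set ρ : ℂ := regSum p η.1 / η.1 1 with hρ
  have hreg : regSum p η.1 = (d : ℂ) * ρ := by
    rw [hρ, hd]; field_simp
  have hS' : ∑ χ : IrrCharacter G, regSum p (χ : G → ℂ) *
      conj (classInner (fun h : H => (χ : G → ℂ) h) η.1) = ((H.index * d : ℕ) : ℂ) * ρ := by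
    have h7 : (Nat.card H : ℂ) / (Nat.card G : ℂ) = ((H.index : ℂ))⁻¹ := by
      rw [hcard]; field_simp
    have hi0 : (H.index : ℂ) ≠ 0 := by
      intro h0; rw [h0, mul_zero] at hcard; exact hG hcard
    rw [h7, hreg] at key
    push_cast
    rw [mul_assoc, key]
    field_simp
  rw [hS'] at hS
  have h8 : MemLocalIdeal M (((H.index * d : ℕ) : ℂ) * ((r : ℂ) - ρ)) :=
    memLocalIdeal_mul_left hMp (memLocalRing_natCast hMp _) hη
  have h9 := memLocalIdeal_add hMp h8 hS
  have h10 : ((H.index * d : ℕ) : ℂ) * ((r : ℂ) - ρ) + ((H.index * d : ℕ) : ℂ) * ρ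
      = ((H.index * d * r : ℕ) : ℂ) := by
    push_cast; ring
  rw [h10] at h9
  have h11 := (memLocalIdeal_natCast_iff hM _).mp h9
  rcases (Nat.Prime.dvd_mul hp).mp h11 with h12 | h12
  · rcases (Nat.Prime.dvd_mul hp).mp h12 with h13 | h13
    · exact hidx h13
    · exact hpd h13
  · exact hr h12

/-- A `p`-regular element of `N P` (`N` normal, `P` a `p`-subgroup) lies in `N`. -/
theorem mem_of_preg_sup {p : ℕ} [Fact p.Prime] (N : Subgroup G) [N.Normal] (P : Sylow p G)
    {h : G} (hh : h ∈ N ⊔ (P : Subgroup G)) (hreg : ¬ p ∣ orderOf h) : h ∈ N := by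
  have hp : p.Prime := Fact.out
  rw [← QuotientGroup.eq_one_iff (N := N)]
  have hmap : (N ⊔ (P : Subgroup G)).map (QuotientGroup.mk' N)
      = (P : Subgroup G).map (QuotientGroup.mk' N) := by
    rw [Subgroup.map_sup]
    have : N.map (QuotientGroup.mk' N) = ⊥ := by
      rw [eq_bot_iff]
      rintro _ ⟨n, hn, rfl⟩
      rw [Subgroup.mem_bot]
      exact (QuotientGroup.eq_one_iff n).mpr hn
    rw [this, bot_sup_eq]
  have h1 : (QuotientGroup.mk' N) h ∈ (P : Subgroup G).map (QuotientGroup.mk' N) := by
    rw [← hmap]; exact Subgroup.mem_map_of_mem _ hh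
  obtain ⟨x, hx, hxe⟩ := h1
  obtain ⟨k, hk⟩ := (IsPGroup.iff_orderOf.mp P.isPGroup') ⟨x, hx⟩
  rw [Subgroup.orderOf_mk] at hk
  have h2 : orderOf ((QuotientGroup.mk' N) h) ∣ p ^ k := by
    rw [← hxe, ← hk]; exact orderOf_map_dvd _ x
  have h3 : orderOf ((QuotientGroup.mk' N) h) ∣ orderOf h := orderOf_map_dvd _ h
  have hcop : Nat.Coprime (p ^ k) (orderOf h) :=
    Nat.Coprime.pow_left k ((Nat.Prime.coprime_iff_not_dvd hp).mpr hreg)
  have h4 : orderOf ((QuotientGroup.mk' N) h) = 1 :=
    Nat.dvd_one.mp (hcop ▸ Nat.dvd_gcd h2 h3)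
  exact orderOf_eq_one_iff.mp h4

/-- The `p`-regular sum of a function on `N P` equals that of its restriction to `N`. -/
theorem regSum_sup_eq {p : ℕ} [Fact p.Prime] (N : Subgroup G) [N.Normal] (P : Sylow p G)
    [Fintype N] [Fintype ↥(N ⊔ (P : Subgroup G))]
    (η : ↥(N ⊔ (P : Subgroup G)) → ℂ) (θ : N → ℂ)
    (hη : ∀ n : N, η (Subgroup.inclusion le_sup_left n) = θ n) :
    regSum p η = regSum p θ := by
  classical
  unfold regSum
  symm
  have hord : ∀ n : N, orderOf (Subgroup.inclusion (le_sup_left : N ≤ N ⊔ (P : Subgroup G)) n)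
      = orderOf n := by
    intro n
    rw [← Subgroup.orderOf_coe, ← Subgroup.orderOf_coe n]
    rfl
  have hval : ∀ n : N, pRegularPart p θ n
      = pRegularPart p η (Subgroup.inclusion le_sup_left n) := by
    intro n
    rw [Cfsg.Agent.H81.pRegularPart_apply, Cfsg.Agent.H81.pRegularPart_apply, hord, hη]
  apply Finset.sum_bij_ne_zero (fun n _ _ => Subgroup.inclusion le_sup_left n)
  · intros; exact Finset.mem_univ _
  · intro a _ _ b _ _ hab; exact Subgroup.inclusion_injective _ hab
  · intro h _ hh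
    have hreg : ¬ p ∣ orderOf h := by
      intro hd; exact hh (Cfsg.Agent.H81.pRegularPart_of_dvd p _ hd)
    have hmem : (h : G) ∈ N := mem_of_preg_sup N P h.2 (by rwa [Subgroup.orderOf_coe])
    have he : Subgroup.inclusion (le_sup_left : N ≤ N ⊔ (P : Subgroup G)) ⟨(h : G), hmem⟩ = h :=
      Subtype.ext rfl
    refine ⟨⟨(h : G), hmem⟩, Finset.mem_univ _, ?_, he⟩
    rw [hval, he]; exact hh
  · intro n _ _
    exact hval n

/-- If `η` on `H ≥ N` restricts to the irreducible `θ` on `N` and `η` is a constituent of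
`χ_H`, then `θ` is a constituent of `χ_N`. -/
theorem inner_res_ne_zero [Finite G] (N H : Subgroup G) (hNH : N ≤ H) [Fintype N] [Fintype H]
    (χ : G → ℂ) (hχ : IsCharacter G χ) (η : IrrCharacter H) (θ : N → ℂ)
    (hθ : IsIrrCharacter N θ)
    (hη : ∀ n : N, η.1 (Subgroup.inclusion hNH n) = θ n)
    (hm : classInner (fun h : H => χ h) η.1 ≠ 0) :
    classInner (fun n : N => χ n) θ ≠ 0 := by
  classical
  letI : Fintype (IrrCharacter H) := fintypeIrr H
  have hcf : IsClassFunction H (fun h : H => χ h) :=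
    isClassFunction_of_isCharacter (isCharacter_restrict H hχ)
  have hexp := classFunction_eq_finsum hcf
  rw [finsum_irr_eq_sum] at hexp
  have hres : (fun n : N => χ n) = ∑ ψ : IrrCharacter H,
      classInner (fun h : H => χ h) ψ.1 • (fun n : N => ψ.1 (Subgroup.inclusion hNH n)) := by
    funext n
    have h1 := congrFun hexp (Subgroup.inclusion hNH n)
    rw [Finset.sum_apply] at h1 ⊢
    exact h1
  have ha : ∀ ψ : IrrCharacter H, ∃ a : ℕ, classInner (fun h : H => χ h) ψ.1 = a := fun ψ =>
    classInner_isCharacter_nat (isCharacter_restrict H hχ) (isCharacter_of_isIrrCharacter ψ.2)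
  have hb : ∀ ψ : IrrCharacter H, ∃ b : ℕ,
      classInner (fun n : N => ψ.1 (Subgroup.inclusion hNH n)) θ = b := fun ψ =>
    classInner_isCharacter_nat
      (isCharacter_comp (Subgroup.inclusion hNH) (isCharacter_of_isIrrCharacter ψ.2))
      (isCharacter_of_isIrrCharacter hθ)
  choose a ha using ha
  choose b hb using hb
  have hsum : classInner (fun n : N => χ n) θ = ((∑ ψ : IrrCharacter H, a ψ * b ψ : ℕ) : ℂ) := by
    rw [hres, classInner_sum_left]
    push_cast
    refine Finset.sum_congr rfl fun ψ _ => ?_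
    rw [classInner_smul_left, ha, hb]
  rw [hsum]
  have hbη : b η = 1 := by
    have h1 : (fun n : N => η.1 (Subgroup.inclusion hNH n)) = θ := funext hη
    have h2 := hb η
    rw [h1] at h2
    have h3 : classInner θ θ = 1 := irr_inner_self (⟨θ, hθ⟩ : IrrCharacter N)
    rw [h3] at h2
    exact_mod_cast h2.symm
  have haη : a η ≠ 0 := by
    intro h0
    apply hm
    rw [ha, h0, Nat.cast_zero]
  have hle : a η * b η ≤ ∑ ψ : IrrCharacter H, a ψ * b ψ :=
    Finset.single_le_sum (f := fun ψ => a ψ * b ψ) (fun _ _ => Nat.zero_le _) (Finset.mem_univ η)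
  have hpos : 0 < ∑ ψ : IrrCharacter H, a ψ * b ψ := by
    rw [hbη, mul_one] at hle
    exact lt_of_lt_of_le (Nat.pos_of_ne_zero haη) hle
  exact_mod_cast hpos.ne'

end Cfsg.Agent.H5.RegRes
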