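import Mathlib
import Cfsg.Agent.H17.TgDefs

/-! TG-SELF (piece of helper17's S1904 project): a maximal normal `A`-invariant abelian
subgroup `B` that is not central is self-centralizing. -/

set_option autoImplicit false

universe u

namespace Cfsg.Agent.H5.Tg

open Cfsg Cfsg.Agent.H17.Tg

section
variable {X : Type u} [Group X] {B : Subgroup X}

/-- membership in `K = {k ∈ C_X(B) : k² ∈ B, [k, X] ⊆ B}` -/
def InK (B : Subgroup X) (k : X) : Prop :=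
  (∀ b ∈ B, k * b = b * k) ∧ k ^ 2 ∈ B ∧ ∀ x : X, k * x * k⁻¹ * x⁻¹ ∈ B

theorem inK_of_mem (hBn : B.Normal) (hBab : ∀ a ∈ B, ∀ b ∈ B, a * b = b * a) {b : X}
    (hb : b ∈ B) : InK B b := by
  refine ⟨fun b' hb' => hBab b hb b' hb', pow_mem hb 2, fun x => ?_⟩
  have : x * b⁻¹ * x⁻¹ ∈ B := hBn.conj_mem _ (inv_mem hb) x
  have h2 := mul_mem hb this
  have e : b * x * b⁻¹ * x⁻¹ = b * (x * b⁻¹ * x⁻¹) := by group
  rw [e]; exact h2

theorem inK_mul {k k' : X} (hk : InK B k) (hk' : InK B k') : InK B (k * k') := by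
  refine ⟨fun b hb => ?_, ?_, fun x => ?_⟩
  · rw [mul_assoc, hk'.1 b hb, ← mul_assoc, hk.1 b hb, mul_assoc]
  · obtain ⟨c, hc⟩ : ∃ c, c = k' * k * k'⁻¹ * k⁻¹ := ⟨_, rfl⟩
    have hcB : c ∈ B := by rw [hc]; exact hk'.2.2 k
    have hkc := hk.1 c hcB
    have e : (k * k') ^ 2 = c * k ^ 2 * k' ^ 2 := by
      calc (k * k') ^ 2 = k * (k' * k * k'⁻¹ * k⁻¹) * k * k' * k' := by rw [sq]; group
        _ = k * c * k * k' * k' := by rw [hc]
        _ = c * k * k * k' * k' := by rw [hkc]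
        _ = c * k ^ 2 * k' ^ 2 := by rw [sq, sq]; group
    rw [e]
    exact mul_mem (mul_mem hcB hk.2.1) hk'.2.1
  · obtain ⟨d, hd⟩ : ∃ d, d = k' * x * k'⁻¹ * x⁻¹ := ⟨_, rfl⟩
    have hdB : d ∈ B := by rw [hd]; exact hk'.2.2 x
    have hkd := hk.1 d hdB
    have e : k * k' * x * (k * k')⁻¹ * x⁻¹ = d * (k * x * k⁻¹ * x⁻¹) := by
      calc k * k' * x * (k * k')⁻¹ * x⁻¹ = k * (k' * x * k'⁻¹ * x⁻¹) * x * k⁻¹ * x⁻¹ := by group
        _ = k * d * x * k⁻¹ * x⁻¹ := by rw [hd]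
        _ = d * k * x * k⁻¹ * x⁻¹ := by rw [hkd]
        _ = d * (k * x * k⁻¹ * x⁻¹) := by group
    rw [e]
    exact mul_mem hdB (hk.2.2 x)

theorem inK_inv (hBn : B.Normal) {k : X} (hk : InK B k) : InK B k⁻¹ := by
  refine ⟨fun b hb => ?_, ?_, fun x => ?_⟩
  · have := hk.1 b hb
    calc k⁻¹ * b = k⁻¹ * (b * k) * k⁻¹ := by group
      _ = k⁻¹ * (k * b) * k⁻¹ := by rw [this]
      _ = b * k⁻¹ := by group
  · have : (k⁻¹) ^ 2 = (k ^ 2)⁻¹ := by group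
    rw [this]; exact inv_mem hk.2.1
  · have h := hBn.conj_mem _ (inv_mem (hk.2.2 x)) k⁻¹
    have e : k⁻¹ * x * k⁻¹⁻¹ * x⁻¹ = k⁻¹ * (k * x * k⁻¹ * x⁻¹)⁻¹ * k⁻¹⁻¹ := by group
    rw [e]; exact h

theorem inK_map (φ : MulAut X) (h1 : ∀ h ∈ B, φ h ∈ B) (h2 : ∀ h ∈ B, φ⁻¹ h ∈ B) {k : X}
    (hk : InK B k) : InK B (φ k) := by
  refine ⟨fun b hb => ?_, ?_, fun x => ?_⟩
  · have := hk.1 _ (h2 b hb)
    have e := congrArg φ this
    rw [map_mul, map_mul, MulAut.apply_inv_self] at e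
    exact e
  · rw [← map_pow]; exact h1 _ hk.2.1
  · have := h1 _ (hk.2.2 (φ⁻¹ x))
    rw [map_mul, map_mul, map_mul, map_inv, map_inv, MulAut.apply_inv_self] at this
    exact this

theorem invol_mem [Finite X]
    (hrank : ∀ N : Subgroup X, N.Normal → (∀ a ∈ N, ∀ b ∈ N, a * b = b * a) →
      ∀ E : Subgroup X, E ≤ N → (∀ a ∈ E, a ^ 2 = 1) → Nat.card E ≤ 4)
    (hBn : B.Normal) (hBab : ∀ a ∈ B, ∀ b ∈ B, a * b = b * a)
    (hV4 : Nat.card {v : X // v ∈ B ∧ v ^ 2 = 1} = 4) {k : X} (hk : InK B k) {b : X}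
    (hb : b ∈ B) (he : (b * k) ^ 2 = 1) : b * k ∈ B := by
  classical
  have hcz : ∀ b' ∈ B, ∀ n : ℤ, k ^ n * b' = b' * k ^ n := fun b' hb' n =>
    (Commute.zpow_left (hk.1 b' hb') n).eq
  let N : Subgroup X :=
    { carrier := {x | ∃ b ∈ B, ∃ n : ℤ, x = b * k ^ n}
      one_mem' := ⟨1, one_mem _, 0, by simp⟩
      mul_mem' := by
        rintro _ _ ⟨b1, hb1, n, rfl⟩ ⟨b2, hb2, m, rfl⟩
        refine ⟨b1 * b2, mul_mem hb1 hb2, n + m, ?_⟩
        rw [zpow_add]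
        calc b1 * k ^ n * (b2 * k ^ m) = b1 * (k ^ n * b2) * k ^ m := by group
          _ = b1 * (b2 * k ^ n) * k ^ m := by rw [hcz b2 hb2 n]
          _ = b1 * b2 * (k ^ n * k ^ m) := by group
      inv_mem' := by
        rintro _ ⟨b1, hb1, n, rfl⟩
        refine ⟨b1⁻¹, inv_mem hb1, -n, ?_⟩
        calc (b1 * k ^ n)⁻¹ = k ^ (-n) * b1⁻¹ := by group
          _ = b1⁻¹ * k ^ (-n) := hcz _ (inv_mem hb1) _ }
  have hNn : N.Normal := by
    constructor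
    rintro _ ⟨b1, hb1, n, rfl⟩ g
    obtain ⟨d, hd⟩ : ∃ d, d = g * k * g⁻¹ * k⁻¹ := ⟨_, rfl⟩
    have hdB : d ∈ B := by
      have := inv_mem (hk.2.2 g)
      have e : (k * g * k⁻¹ * g⁻¹)⁻¹ = d := by rw [hd]; group
      rw [e] at this; exact this
    have hkd : Commute d k := (hk.1 d hdB).symm
    refine ⟨g * b1 * g⁻¹ * d ^ n, mul_mem (hBn.conj_mem _ hb1 g) (zpow_mem hdB n), n, ?_⟩
    have e1 : g * k * g⁻¹ = d * k := by rw [hd]; group
    calc g * (b1 * k ^ n) * g⁻¹ = g * b1 * g⁻¹ * (g * k * g⁻¹) ^ n := by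
          rw [conj_zpow]; group
      _ = g * b1 * g⁻¹ * (d * k) ^ n := by rw [e1]
      _ = g * b1 * g⁻¹ * (d ^ n * k ^ n) := by rw [hkd.mul_zpow]
      _ = g * b1 * g⁻¹ * d ^ n * k ^ n := by group
  have hNab : ∀ a ∈ N, ∀ b ∈ N, a * b = b * a := by
    rintro _ ⟨b1, hb1, n, rfl⟩ _ ⟨b2, hb2, m, rfl⟩
    calc b1 * k ^ n * (b2 * k ^ m) = b1 * (k ^ n * b2) * k ^ m := by group
      _ = b1 * (b2 * k ^ n) * k ^ m := by rw [hcz b2 hb2 n]
      _ = (b1 * b2) * (k ^ n * k ^ m) := by group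
      _ = (b2 * b1) * (k ^ m * k ^ n) := by
          rw [hBab b1 hb1 b2 hb2, ← zpow_add, ← zpow_add, add_comm]
      _ = b2 * (b1 * k ^ m) * k ^ n := by group
      _ = b2 * (k ^ m * b1) * k ^ n := by rw [hcz b1 hb1 m]
      _ = b2 * k ^ m * (b1 * k ^ n) := by group
  let E : Subgroup X :=
    { carrier := {x | x ∈ N ∧ x ^ 2 = 1}
      one_mem' := ⟨one_mem _, one_pow _⟩
      mul_mem' := by
        rintro x y ⟨hx, hx2⟩ ⟨hy, hy2⟩
        refine ⟨mul_mem hx hy, ?_⟩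
        have : Commute x y := hNab x hx y hy
        rw [this.mul_pow, hx2, hy2, one_mul]
      inv_mem' := by
        rintro x ⟨hx, hx2⟩
        exact ⟨inv_mem hx, by rw [inv_pow, hx2, inv_one]⟩ }
  have hE4 : Nat.card E ≤ 4 := hrank N hNn hNab E (fun x hx => hx.1) (fun a ha => ha.2)
  have hsub : {v : X | v ∈ B ∧ v ^ 2 = 1} ⊆ (E : Set X) := by
    rintro v ⟨hv, hv2⟩
    exact ⟨⟨v, hv, 0, by simp⟩, hv2⟩
  have hVn : ({v : X | v ∈ B ∧ v ^ 2 = 1}).ncard = 4 := by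
    rw [← Nat.card_coe_set_eq]; exact hV4
  have hEn : (E : Set X).ncard ≤ 4 := by
    rw [← Nat.card_coe_set_eq]; exact hE4
  have heq := Set.eq_of_subset_of_ncard_le hsub (by rw [hVn]; exact hEn) (Set.toFinite _)
  have hmem : b * k ∈ (E : Set X) := ⟨⟨b, hb, 1, by simp⟩, he⟩
  rw [← heq] at hmem
  exact hmem.1

theorem cm_sq {k k' : X} (hk : InK B k) (hk' : InK B k') :
    (k * k' * k⁻¹ * k'⁻¹) ^ 2 = 1 := by
  obtain ⟨c, hc⟩ : ∃ c, c = k * k' * k⁻¹ * k'⁻¹ := ⟨_, rfl⟩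
  have hcB : c ∈ B := by rw [hc]; exact hk.2.2 k'
  have hkc := hk.1 c hcB
  have hk2 : Commute k' (k ^ 2) := hk'.1 _ hk.2.1
  have hk2' := (Commute.inv_right hk2).eq
  rw [← hc]
  calc c ^ 2 = c * k * (k' * k⁻¹ * k'⁻¹) := by rw [sq]; nth_rewrite 2 [hc]; group
    _ = k * c * (k' * k⁻¹ * k'⁻¹) := by rw [hkc]
    _ = k * (k * k' * k⁻¹ * k'⁻¹) * (k' * k⁻¹ * k'⁻¹) := by rw [hc]
    _ = k ^ 2 * (k' * (k ^ 2)⁻¹) * k'⁻¹ := by rw [sq]; group
    _ = k ^ 2 * ((k ^ 2)⁻¹ * k') * k'⁻¹ := by rw [hk2']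
    _ = 1 := by rw [sq]; group

theorem pigeon [Finite X] (hBab : ∀ a ∈ B, ∀ b ∈ B, a * b = b * a)
    (hV4 : Nat.card {v : X // v ∈ B ∧ v ^ 2 = 1} = 4) (f : Fin 5 → X) (hf : ∀ i, f i ∈ B) :
    ∃ i j, i < j ∧ ∃ s ∈ B, f j = f i * s ^ 2 := by
  classical
  let sq : B →* B := MonoidHom.mk' (fun b => b ^ 2) (by
    intro a b
    apply Subtype.ext
    have := hBab a a.2 b b.2
    simp only [Subgroup.coe_mul, Subgroup.coe_pow]
    calc ((a : X) * b) ^ 2 = a * (b * a) * b := by rw [sq]; group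
      _ = a * (a * b) * b := by rw [← this]
      _ = (a : X) ^ 2 * (b : X) ^ 2 := by rw [sq, sq]; group)
  have hsq : ∀ b : B, ((sq b : B) : X) = (b : X) ^ 2 := fun b => rfl
  have hker : Nat.card sq.ker = 4 := by
    rw [← hV4]
    apply Nat.card_congr
    exact
      { toFun := fun x => ⟨x.1.1, x.1.2, by
          have h := x.2
          rw [MonoidHom.mem_ker] at h
          have h2 := congrArg Subtype.val h
          rw [hsq] at h2
          exact h2⟩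
        invFun := fun v => ⟨⟨v.1, v.2.1⟩, by
          rw [MonoidHom.mem_ker]
          apply Subtype.ext
          rw [hsq]
          exact v.2.2⟩
        left_inv := fun x => rfl
        right_inv := fun v => rfl }
  have hidx : sq.range.index = 4 := by
    have h1 := Subgroup.card_mul_index sq.ker
    have h2 := Subgroup.card_mul_index sq.range
    rw [Subgroup.index_ker, hker] at h1
    have hpos : 0 < Nat.card sq.range := Nat.card_pos
    have : Nat.card sq.range * sq.range.index = Nat.card sq.range * 4 := by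
      rw [h2, ← h1, mul_comm]
    exact Nat.eq_of_mul_eq_mul_left hpos this
  have hcard : Nat.card (B ⧸ sq.range) = 4 := hidx
  have : Fintype (B ⧸ sq.range) := Fintype.ofFinite _
  obtain ⟨i, j, hij, h⟩ := Fintype.exists_ne_map_eq_of_card_lt
    (fun i : Fin 5 => (QuotientGroup.mk ⟨f i, hf i⟩ : B ⧸ sq.range))
    (by rw [Fintype.card_eq_nat_card, hcard]; simp)
  have key : ∀ i j : Fin 5, (QuotientGroup.mk ⟨f i, hf i⟩ : B ⧸ sq.range) =
      QuotientGroup.mk ⟨f j, hf j⟩ → ∃ s ∈ B, f j = f i * s ^ 2 := by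
    intro i j h
    rw [QuotientGroup.eq] at h
    obtain ⟨s, hs⟩ := h
    refine ⟨s.1, s.2, ?_⟩
    have h3 := congrArg Subtype.val hs
    rw [hsq] at h3
    rw [h3]
    simp
  rcases lt_or_gt_of_ne hij with h' | h'
  · exact ⟨i, j, h', key i j h⟩
  · exact ⟨j, i, h', key j i h.symm⟩

theorem cm_mul_left (hVz : ∀ v ∈ B, v ^ 2 = 1 → v ∈ Subgroup.center X) {x y z : X}
    (hy : InK B y) (hz : InK B z) :
    (x * y) * z * (x * y)⁻¹ * z⁻¹ = (y * z * y⁻¹ * z⁻¹) * (x * z * x⁻¹ * z⁻¹) := by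
  obtain ⟨d, hd⟩ : ∃ d, d = y * z * y⁻¹ * z⁻¹ := ⟨_, rfl⟩
  have hdB : d ∈ B := by rw [hd]; exact hy.2.2 z
  have hd2 : d ^ 2 = 1 := by rw [hd]; exact cm_sq hy hz
  have hcomm := Subgroup.mem_center_iff.1 (hVz d hdB hd2)
  calc (x * y) * z * (x * y)⁻¹ * z⁻¹ = x * (y * z * y⁻¹ * z⁻¹) * (z * x⁻¹ * z⁻¹) := by group
    _ = x * d * (z * x⁻¹ * z⁻¹) := by rw [hd]
    _ = d * x * (z * x⁻¹ * z⁻¹) := by rw [hcomm x]
    _ = d * (x * z * x⁻¹ * z⁻¹) := by group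
    _ = (y * z * y⁻¹ * z⁻¹) * (x * z * x⁻¹ * z⁻¹) := by rw [hd]

theorem cm_mul_right (hVz : ∀ v ∈ B, v ^ 2 = 1 → v ∈ Subgroup.center X) {x y z : X}
    (hx : InK B x) (hz : InK B z) :
    x * (y * z) * x⁻¹ * (y * z)⁻¹ = (x * z * x⁻¹ * z⁻¹) * (x * y * x⁻¹ * y⁻¹) := by
  obtain ⟨d, hd⟩ : ∃ d, d = x * z * x⁻¹ * z⁻¹ := ⟨_, rfl⟩
  have hdB : d ∈ B := by rw [hd]; exact hx.2.2 z
  have hd2 : d ^ 2 = 1 := by rw [hd]; exact cm_sq hx hz
  have hcomm := Subgroup.mem_center_iff.1 (hVz d hdB hd2)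
  calc x * (y * z) * x⁻¹ * (y * z)⁻¹ = (x * y * x⁻¹) * (x * z * x⁻¹ * z⁻¹) * y⁻¹ := by group
    _ = (x * y * x⁻¹) * d * y⁻¹ := by rw [hd]
    _ = d * (x * y * x⁻¹) * y⁻¹ := by rw [hcomm (x * y * x⁻¹)]
    _ = d * (x * y * x⁻¹ * y⁻¹) := by group
    _ = (x * z * x⁻¹ * z⁻¹) * (x * y * x⁻¹ * y⁻¹) := by rw [hd]

theorem cm_B_right {x b : X} (hx : InK B x) (hb : b ∈ B) : x * b * x⁻¹ * b⁻¹ = 1 := by
  rw [hx.1 b hb]; group

theorem cm_B_left {x b : X} (hx : InK B x) (hb : b ∈ B) : b * x * b⁻¹ * x⁻¹ = 1 := by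
  rw [← hx.1 b hb]; group

end

/-- TG-SELF -/
theorem tgSelf (hCrit : StCrit.{u}) (hVB : StVB.{u}) (hSq : StSq.{u}) : StSelf.{u} := by
  intro X _ _ A hyp B hmax hnc
  classical
  obtain ⟨⟨hBn, hBA, hBab⟩, hmaxB⟩ := hmax
  obtain ⟨hVz, hV4, -, hVmove, -, -⟩ := hVB X A hyp B ⟨hBn, hBA, hBab⟩ hnc
  have hsqV : ∀ v ∈ B, v ^ 2 = 1 → ∃ d ∈ B, d ^ 2 = v := by
    have hex : ∃ b₀ ∈ B, b₀ ^ 2 ≠ 1 := by
      by_contra hcon
      apply hnc
      intro b hb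
      apply hVz b hb
      by_contra h2
      exact hcon ⟨b, hb, h2⟩
    obtain ⟨b₀, hb₀, hb₀'⟩ := hex
    intro v hv hv2
    exact hSq X A hyp B ⟨hBn, hBA, hBab⟩ hnc 1 b₀ hb₀ (by simpa using hb₀') v hv
      (by simpa using hv2)
  have hBK : ∀ b ∈ B, InK B b := fun b hb => inK_of_mem hBn hBab hb
  have hstar : ∀ k, InK B k → ∀ b ∈ B, k ^ 2 = b ^ 2 → k ∈ B := by
    intro k hk b hb h
    have h1 : (b⁻¹ * k) ^ 2 = 1 := by
      have hc := hk.1 b⁻¹ (inv_mem hb)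
      calc (b⁻¹ * k) ^ 2 = b⁻¹ * (k * b⁻¹) * k := by rw [sq]; group
        _ = b⁻¹ * (b⁻¹ * k) * k := by rw [hc]
        _ = (b ^ 2)⁻¹ * k ^ 2 := by simp only [sq]; group
        _ = 1 := by rw [h, inv_mul_cancel]
    have h2 := invol_mem hyp.rank hBn hBab hV4 hk (inv_mem hb) h1
    have h3 := mul_mem hb h2
    rwa [mul_inv_cancel_left] at h3
  have hD : ∀ x y, InK B x → InK B y → ∀ s ∈ B, y ^ 2 = x ^ 2 * s ^ 2 → x⁻¹ * y ∈ B := by
    intro x y hx hy s hs h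
    have hx' := inK_inv hBn hx
    have hz := inK_mul hx' hy
    obtain ⟨c, hc⟩ : ∃ c, c = x⁻¹ * y * x⁻¹⁻¹ * y⁻¹ := ⟨_, rfl⟩
    have hcB : c ∈ B := by rw [hc]; exact hx'.2.2 y
    have hc2 : c ^ 2 = 1 := by rw [hc]; exact cm_sq hx' hy
    obtain ⟨d, hd, hdc⟩ := hsqV c hcB hc2
    apply hstar _ hz (d * s) (mul_mem hd hs)
    have hyx : y * (x ^ 2)⁻¹ = (x ^ 2)⁻¹ * y := hy.1 _ (inv_mem hx.2.1)
    have hds : Commute d s := hBab d hd s hs
    calc (x⁻¹ * y) ^ 2 = (x⁻¹ * y * x⁻¹⁻¹ * y⁻¹) * (y * (x ^ 2)⁻¹) * y := by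
          rw [sq]; group
      _ = c * ((x ^ 2)⁻¹ * y) * y := by rw [← hc, hyx]
      _ = c * (x ^ 2)⁻¹ * y ^ 2 := by simp only [sq]; group
      _ = c * s ^ 2 := by rw [h]; simp only [sq]; group
      _ = (d * s) ^ 2 := by rw [hds.mul_pow, hdc]
  have h1K : InK B 1 := hBK 1 (one_mem _)
  have hKab : ∀ k k', InK B k → InK B k' → k * k' = k' * k := by
    intro k k' hk hk'
    by_contra hne
    obtain ⟨c, hc⟩ : ∃ c, c = k * k' * k⁻¹ * k'⁻¹ := ⟨_, rfl⟩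
    have hcB : c ∈ B := by rw [hc]; exact hk.2.2 k'
    have hc2 : c ^ 2 = 1 := by rw [hc]; exact cm_sq hk hk'
    have hc1 : c ≠ 1 := by
      intro h1
      apply hne
      rw [hc] at h1
      calc k * k' = (k * k' * k⁻¹ * k'⁻¹) * (k' * k) := by group
        _ = k' * k := by rw [h1, one_mul]
    have c01 : k ∉ B := fun hu => hne (hk'.1 k hu).symm
    have c02 : k' ∉ B := fun hu => hne (hk.1 k' hu)
    have c03 : k * k' ∉ B := fun hu =>
      hne (mul_left_cancel ((hk.1 _ hu).trans (mul_assoc _ _ _)))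
    have c12 : k⁻¹ * k' ∉ B := fun hu => hne (by
      have h1 := hk.1 _ hu
      calc k * k' = k * (k * (k⁻¹ * k')) := by group
        _ = k * (k⁻¹ * k' * k) := by rw [h1]
        _ = k' * k := by group)
    have c23 : k'⁻¹ * (k * k') ∉ B := fun hu => hne (by
      have h2 := hk'.1 _ hu
      symm
      calc k' * k = k' * (k' * (k'⁻¹ * (k * k'))) * k'⁻¹ := by group
        _ = k' * (k'⁻¹ * (k * k') * k') * k'⁻¹ := by rw [h2]
        _ = k * k' := by group)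
    have hkk' := inK_mul hk hk'
    have hdec : ∀ z, InK B z →
        ∃ u, (u = 1 ∨ u = k ∨ u = k' ∨ u = k * k') ∧ u⁻¹ * z ∈ B := by
      intro z hz
      obtain ⟨g, hg⟩ : ∃ g : Fin 5 → X, g = ![1, k, k', k * k', z] := ⟨_, rfl⟩
      have hgK : ∀ i, InK B (g i) := by
        intro i; rw [hg]; fin_cases i
        · exact h1K
        · exact hk
        · exact hk'
        · exact hkk'
        · exact hz
      obtain ⟨i, j, hij, s, hs, h⟩ := pigeon hBab hV4 (fun i => (g i) ^ 2)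
        (fun i => (hgK i).2.1)
      have hmem := hD _ _ (hgK i) (hgK j) s hs h
      rw [hg] at hmem
      clear h
      fin_cases i <;> fin_cases j <;> first | exact absurd hij (by decide) | skip
      · exact absurd (show (1 : X)⁻¹ * k ∈ B from hmem) (by rw [inv_one, one_mul]; exact c01)
      · exact absurd (show (1 : X)⁻¹ * k' ∈ B from hmem) (by rw [inv_one, one_mul]; exact c02)
      · exact absurd (show (1 : X)⁻¹ * (k * k') ∈ B from hmem)
          (by rw [inv_one, one_mul]; exact c03)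
      · exact ⟨1, Or.inl rfl, hmem⟩
      · exact absurd (show k⁻¹ * k' ∈ B from hmem) c12
      · exact absurd (show k⁻¹ * (k * k') ∈ B from hmem)
          (by rw [inv_mul_cancel_left]; exact c02)
      · exact ⟨k, Or.inr (Or.inl rfl), hmem⟩
      · exact absurd (show k'⁻¹ * (k * k') ∈ B from hmem) c23
      · exact ⟨k', Or.inr (Or.inr (Or.inl rfl)), hmem⟩
      · exact ⟨k * k', Or.inr (Or.inr (Or.inr rfl)), hmem⟩
    obtain ⟨T, hT⟩ : ∃ T : Subgroup X, T = Subgroup.zpowers c := ⟨_, rfl⟩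
    have hcT : c ∈ T := by rw [hT]; exact Subgroup.mem_zpowers c
    have hkk'c : k' * k * k'⁻¹ * k⁻¹ ∈ T := by
      have e : k' * k * k'⁻¹ * k⁻¹ = c⁻¹ := by rw [hc]; group
      rw [e]; exact inv_mem hcT
    have claim1a : ∀ z, InK B z → z * k * z⁻¹ * k⁻¹ ∈ T := by
      intro z hz
      obtain ⟨u, hu, hub⟩ := hdec z hz
      have hzu : z = u * (u⁻¹ * z) := by group
      rw [hzu, cm_mul_left hVz (hBK _ hub) hk, cm_B_left hk hub, one_mul]
      rcases hu with rfl | rfl | rfl | rfl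
      · have e : (1 : X) * k * 1⁻¹ * k⁻¹ = 1 := by group
        rw [e]; exact one_mem _
      · have e : u * u * u⁻¹ * u⁻¹ = 1 := by group
        rw [e]; exact one_mem _
      · exact hkk'c
      · rw [cm_mul_left hVz hk' hk]
        have e : k * k * k⁻¹ * k⁻¹ = 1 := by group
        rw [e, mul_one]; exact hkk'c
    have claim1b : ∀ z, InK B z → z * k' * z⁻¹ * k'⁻¹ ∈ T := by
      intro z hz
      obtain ⟨u, hu, hub⟩ := hdec z hz
      have hzu : z = u * (u⁻¹ * z) := by group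
      rw [hzu, cm_mul_left hVz (hBK _ hub) hk', cm_B_left hk' hub, one_mul]
      rcases hu with rfl | rfl | rfl | rfl
      · have e : (1 : X) * k' * 1⁻¹ * k'⁻¹ = 1 := by group
        rw [e]; exact one_mem _
      · rw [← hc]; exact hcT
      · have e : u * u * u⁻¹ * u⁻¹ = 1 := by group
        rw [e]; exact one_mem _
      · rw [cm_mul_left hVz hk' hk']
        have e : k' * k' * k'⁻¹ * k'⁻¹ = 1 := by group
        rw [e, one_mul, ← hc]; exact hcT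
    have claim2 : ∀ z w, InK B z → InK B w → z * w * z⁻¹ * w⁻¹ ∈ T := by
      intro z w hz hw
      obtain ⟨u, hu, hub⟩ := hdec w hw
      have hwu : w = u * (u⁻¹ * w) := by group
      rw [hwu, cm_mul_right hVz hz (hBK _ hub), cm_B_right hz hub, one_mul]
      rcases hu with rfl | rfl | rfl | rfl
      · have e : z * 1 * z⁻¹ * (1 : X)⁻¹ = 1 := by group
        rw [e]; exact one_mem _
      · exact claim1a z hz
      · exact claim1b z hz
      · rw [cm_mul_right hVz hz hk']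
        exact mul_mem (claim1b z hz) (claim1a z hz)
    obtain ⟨φ, hφ, hφc⟩ := hVmove c hcB hc2 hc1
    have hφinv : ∀ h ∈ B, φ⁻¹ h ∈ B := fun h hh => hBA φ⁻¹ (inv_mem hφ) h hh
    have hφk := inK_map φ (hBA φ hφ) hφinv hk
    have hφk' := inK_map φ (hBA φ hφ) hφinv hk'
    have h5 := claim2 _ _ hφk hφk'
    have h6 : φ k * φ k' * (φ k)⁻¹ * (φ k')⁻¹ = φ c := by
      rw [hc, map_mul, map_mul, map_mul, map_inv, map_inv]
    rw [h6, hT] at h5
    obtain ⟨n, hn⟩ := h5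
    have hn' : c ^ n = φ c := hn
    rcases Int.even_or_odd' n with ⟨m, rfl | rfl⟩
    · have e : c ^ (2 * m) = 1 := by rw [zpow_mul, zpow_ofNat, hc2, one_zpow]
      rw [e] at hn'
      exact hc1 ((MulEquiv.map_eq_one_iff φ).1 hn'.symm)
    · have e : c ^ (2 * m + 1) = c := by
        rw [zpow_add, zpow_mul, zpow_ofNat, hc2, one_zpow, one_mul, zpow_one]
      rw [e] at hn'
      exact hφc hn'.symm
  intro c₀ hc₀
  by_contra hcB
  have := hBn
  have hCn : (Subgroup.centralizer (B : Set X)).Normal := inferInstance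
  have hBC : B ≤ Subgroup.centralizer (B : Set X) := fun b hb =>
    Subgroup.mem_centralizer_iff.2 (fun h hh => hBab h hh b hb)
  have hne : B ≠ Subgroup.centralizer (B : Set X) := by
    intro h
    apply hcB
    rw [h]
    exact Subgroup.mem_centralizer_iff.2 (fun h hh => (hc₀ h hh).symm)
  obtain ⟨k1, hk1C, hk1B, hk1sq, hk1comm⟩ := hCrit X hyp.pgrp B _ hBn hCn hBC hne
  have hk1K : InK B k1 :=
    ⟨fun b hb => (Subgroup.mem_centralizer_iff.1 hk1C b hb).symm, hk1sq, hk1comm⟩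
  let K : Subgroup X :=
    { carrier := {k | InK B k}
      one_mem' := h1K
      mul_mem' := fun ha hb => inK_mul ha hb
      inv_mem' := fun ha => inK_inv hBn ha }
  have hKnai : NAI A K := by
    refine ⟨⟨fun k hk g => ?_⟩, fun φ hφ k hk =>
      inK_map φ (hBA φ hφ) (fun h hh => hBA φ⁻¹ (inv_mem hφ) h hh) hk,
      fun a ha b hb => hKab a b ha hb⟩
    have hk' : InK B k := hk
    have h1 : g * k * g⁻¹ * k⁻¹ ∈ B := by
      have h0 := inv_mem (hk'.2.2 g)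
      have e : (k * g * k⁻¹ * g⁻¹)⁻¹ = g * k * g⁻¹ * k⁻¹ := by group
      rwa [e] at h0
    have e : g * k * g⁻¹ = (g * k * g⁻¹ * k⁻¹) * k := by group
    show InK B (g * k * g⁻¹)
    rw [e]
    exact inK_mul (hBK _ h1) hk'
  have hKB := hmaxB K hKnai (fun b hb => hBK b hb)
  have hk1K' : k1 ∈ K := hk1K
  rw [hKB] at hk1K'
  exact hk1B hk1K'

example (hCrit : StCrit.{u}) (hVB : StVB.{u}) (hSq : StSq.{u}) : StSelf.{u} :=
  tgSelf hCrit hVB hSq

end Cfsg.Agent.H5.Tg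

#print axioms Cfsg.Agent.H5.Tg.tgSelf
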