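import Mathlib
import Cfsg.Agent.H9.XPAbs

/-! XP-PSI (helper9's S5746 project): a subgroup generated by elements that permute an
injective family by conjugation acts on the index set. -/

set_option autoImplicit false

universe u

namespace Cfsg.Agent.H5.XP

open Cfsg.Agent.H9.XP

theorem psi : StPsi.{u} := by
  intro G _ M _ ρ n μ hμ ι g t ht
  classical
  -- the conjugation action
  let c : G → M → M := fun x m => ((ρ x : Mˣ) : M) * m * (((ρ x)⁻¹ : Mˣ) : M)
  have c_def : ∀ x m, c x m = ((ρ x : Mˣ) : M) * m * (((ρ x)⁻¹ : Mˣ) : M) := fun _ _ => rfl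
  have c_one : ∀ m, c 1 m = m := by
    intro m
    rw [c_def, map_one]
    simp
  have c_mul : ∀ x y m, c (x * y) m = c x (c y m) := by
    intro x y m
    rw [c_def, c_def, c_def, map_mul, mul_inv_rev, Units.val_mul, Units.val_mul]
    simp only [mul_assoc]
  have c_inv : ∀ x m, c x⁻¹ (c x m) = m := by
    intro x m
    rw [← c_mul, inv_mul_cancel, c_one]
  -- the subgroup of the elements permuting the family
  let P : Subgroup G :=
    { carrier := {x | (∀ j, ∃ k, c x (μ j) = μ k) ∧ (∀ j, ∃ k, c x⁻¹ (μ j) = μ k)}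
      one_mem' := ⟨fun j => ⟨j, c_one _⟩, fun j => ⟨j, by rw [inv_one]; exact c_one _⟩⟩
      mul_mem' := by
        rintro x y ⟨hx1, hx2⟩ ⟨hy1, hy2⟩
        refine ⟨fun j => ?_, fun j => ?_⟩
        · obtain ⟨k, hk⟩ := hy1 j
          obtain ⟨l, hl⟩ := hx1 k
          exact ⟨l, by rw [c_mul, hk, hl]⟩
        · obtain ⟨k, hk⟩ := hx2 j
          obtain ⟨l, hl⟩ := hy2 k
          exact ⟨l, by rw [mul_inv_rev, c_mul, hk, hl]⟩
      inv_mem' := by
        rintro x ⟨hx1, hx2⟩
        exact ⟨hx2, by rw [inv_inv]; exact hx1⟩ }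
  have hgen : Subgroup.closure (Set.range g) ≤ P := by
    rw [Subgroup.closure_le]
    rintro _ ⟨i, rfl⟩
    have hinj : Function.Injective (t i) := by
      intro j j' h
      apply hμ
      have h1 : c (g i) (μ j) = c (g i) (μ j') := by
        rw [c_def, c_def, ht i j, ht i j', h]
      have h2 := congrArg (c (g i)⁻¹) h1
      rwa [c_inv, c_inv] at h2
    have hsurj : Function.Surjective (t i) := Finite.injective_iff_surjective.mp hinj
    refine ⟨fun j => ⟨t i j, ht i j⟩, fun j => ?_⟩
    obtain ⟨j', rfl⟩ := hsurj j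
    refine ⟨j', ?_⟩
    rw [← ht i j']
    exact c_inv (g i) (μ j')
  -- the permutation induced by an element of the closure
  have hex : ∀ (h : ↥(Subgroup.closure (Set.range g))) (j : Fin n),
      ∃ k, c (h : G) (μ j) = μ k := fun h j => (hgen h.2).1 j
  choose σ hσ using hex
  have σ_mul : ∀ (h h' : ↥(Subgroup.closure (Set.range g))) (j : Fin n),
      σ (h * h') j = σ h (σ h' j) := by
    intro h h' j
    apply hμ
    rw [← hσ, ← hσ, ← hσ, Subgroup.coe_mul, c_mul]
  have σ_one : ∀ j : Fin n, σ 1 j = j := by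
    intro j
    apply hμ
    rw [← hσ, Subgroup.coe_one, c_one]
  let ψ : ↥(Subgroup.closure (Set.range g)) →* Equiv.Perm (Fin n) :=
    MonoidHom.mk' (fun h =>
      { toFun := σ h
        invFun := σ h⁻¹
        left_inv := fun j => by rw [← σ_mul, inv_mul_cancel, σ_one]
        right_inv := fun j => by rw [← σ_mul, mul_inv_cancel, σ_one] })
      (by
        intro h h'
        ext j
        simp only [Equiv.coe_fn_mk, Equiv.Perm.coe_mul, Function.comp_apply]
        rw [σ_mul])
  refine ⟨ψ, fun h j => ?_⟩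
  exact hσ h j

example : StPsi.{u} := psi

end Cfsg.Agent.H5.XP

#print axioms Cfsg.Agent.H5.XP.psi
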